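import Mathlib
import Cfsg.Agent.Lib.M11T.Bas
import Cfsg.Agent.Lib.Tech58.Extremal

set_option autoImplicit false
set_option linter.unusedSectionVars false
set_option linter.unusedVariables false

namespace H58.ME

open Subgroup H70 H50.SC6

variable {G : Type*} [Group G] [Finite G]

namespace HOL

theorem exists_hom {S M : Subgroup G} (l : Le2 M S) : ∃ φ : S →* ℤˣ, ∀ s, φ s = 1 → (s : G) ∈ M := by
  classical
  refine ⟨MonoidHom.mk' (fun s => if (s : G) ∈ M then 1 else -1) fun a b => ?_, fun s h => ?_⟩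
  · by_cases ha : (a : G) ∈ M <;> by_cases hb : (b : G) ∈ M
    · simp [ha, hb, mul_mem ha hb]
    · simp [ha, hb, (mul_mem_cancel_left ha).not.2 hb]
    · simp [ha, hb, (mul_mem_cancel_right hb).not.2 ha]
    · simp [ha, hb, l _ a.2 _ b.2 ha hb]
  · by_contra hn
    simp [hn] at h

theorem mem_zp {b y : G} (h : y ∈ zpowers b) : ∃ j : ℕ, y = b ^ j :=
  let ⟨j, e⟩ := (mem_powers_iff_mem_zpowers.2 h : y ∈ Submonoid.powers b)
  ⟨j, e.symm⟩

theorem nm_pow {b s : G} {k : ℕ} (sb : s * b * s⁻¹ = b ^ k) : Nm s (zpowers b) := fun d hd => by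
  obtain ⟨j, rfl⟩ := mem_zp hd
  rw [← conj_pow, sb]
  exact pow_mem (pow_mem (mem_zpowers b) k) j

theorem eq_mul {w s u : G} (s2 : s * s = 1) (h : w * s = u) : w = u * s := by
  rw [← h, mul_assoc, s2, mul_one]

/-- Two commuting involutions acting on a cyclic group. -/
theorem two_step {c s x : G} {k l : ℕ} (hc : E2 c) (s2 : s * s = 1) (x2 : x * x = 1) (sx : s * x = x * s)
    (sc : s * c * s⁻¹ = c ^ k) (xc : x * c * x⁻¹ = c ^ l) :
    Nm x (zpowers c ⊔ zpowers s) ∧ IsPGroup 2 (zpowers c ⊔ zpowers s ⊔ zpowers x : Subgroup G) ∧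
      (∀ w ∈ zpowers c ⊔ zpowers s, ∃ j : ℕ, w = c ^ j ∨ w = c ^ j * s) ∧
      (s ∉ zpowers c → x ∉ zpowers c ⊔ zpowers s →
        Nat.card (zpowers c ⊔ zpowers s ⊔ zpowers x : Subgroup G) = 4 * orderOf c) := by
  have n1 := nm_pow sc
  have n2 : Nm x (zpowers c ⊔ zpowers s) :=
    nm_sup n1 (s2 ▸ one_mem _) (fun a ha => mem_sup_left (nm_pow xc a ha))
      (by rw [cj_eq sx.symm]; exact mem_sup_right (mem_zpowers s))
  refine ⟨n2, pg_sup (pg_sup hc.pg n1 (.of_sq s2)) n2 (.of_sq x2), fun w hw => ?_, fun h1 h2 => ?_⟩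
  · rcases (mem_sup2 n1 (s2 ▸ one_mem _)).1 hw with e | e <;> obtain ⟨j, e⟩ := mem_zp e
    exacts [⟨j, .inl e⟩, ⟨j, .inr (eq_mul s2 e)⟩]
  · rw [card_sup2 n2 (x2 ▸ one_mem _) h2, card_sup2 n1 (s2 ▸ one_mem _) h1, Nat.card_zpowers]
    ring

variable {b s x : G} (b8 : b ^ 8 = 1) (b4 : b ^ 4 ≠ 1) (s2 : s * s = 1)
  (x2 : x * x = 1) (sx : s * x = x * s) (sb : s * b * s⁻¹ = b ^ 3) (xb : x * b * x⁻¹ = b ^ 5)
include b8 b4

theorem ob : orderOf b = 8 :=
  haveI : Fact (Nat.Prime 2) := ⟨Nat.prime_two⟩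
  orderOf_eq_prime_pow (p := 2) (n := 2) b4 b8

theorem pw {m n : ℕ} : b ^ m = b ^ n ↔ m % 8 = n % 8 := by
  rw [pow_eq_pow_iff_modEq, ob b8 b4]; rfl

theorem four {j : ℕ} (h : j % 4 = 0) : b ^ j = 1 ∨ b ^ j = b ^ 4 := by
  rw [← pow_zero b, pw b8 b4, pw b8 b4]; omega

include s2 x2 sx sb xb

/-- The involutions that commute with `b²`. -/
theorem invs {w : G} (hw : w ∈ zpowers b ⊔ zpowers s ⊔ zpowers x) (w2 : w * w = 1)
    (hc : b ^ 2 * w = w * b ^ 2) : w = 1 ∨ w = b ^ 4 ∨ w = x ∨ w = b ^ 4 * x := by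
  obtain ⟨n2, -, f, -⟩ := two_step ⟨3, b8⟩ s2 x2 sx sb xb
  have cx : Commute (b ^ 2) x := (comm_of_cj (by
    rw [← conj_pow, xb, ← pow_mul, pw b8 b4])).symm
  have ns : ∀ j : ℕ, ¬ Commute (b ^ 2) (b ^ j * s) := fun j e => by
    have e1 := ((Commute.refl b).pow_pow 2 j).inv_right.mul_right e
    rw [inv_mul_cancel_left] at e1
    have := cj_eq e1.symm
    rw [← conj_pow, sb, ← pow_mul, pw b8 b4] at this
    omega
  rcases (mem_sup2 n2 (x2 ▸ one_mem _)).1 hw with e | e <;> obtain ⟨j, e | e⟩ := f _ e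
  · rw [e, ← pow_add, ← pow_zero b, pw b8 b4] at w2
    rcases four b8 b4 (j := j) (by omega) with h | h <;> simp [e, h]
  · exact absurd (e ▸ hc) (ns j)
  · have e := eq_mul x2 e
    have : b ^ j * (x * b ^ j * x⁻¹) = 1 := by rw [inv_self x2, ← w2, e]; group
    rw [← conj_pow, xb, ← pow_mul, ← pow_add, ← pow_zero b, pw b8 b4] at this
    rcases four b8 b4 (j := j) (by omega) with h | h <;> simp [e, h]
  · exact absurd (e ▸ (show Commute (b ^ 2) w from hc).mul_right cx) (ns j)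

theorem zc {g : G} (hg : g ∈ zpowers b ⊔ zpowers s ⊔ zpowers x) : g * b ^ 4 = b ^ 4 * g :=
  mem_centralizer_singleton_iff.1 ((sup_le (sup_le
    (zpowers_le.2 (mem_centralizer_singleton_iff.2 ((Commute.refl b).pow_right 4)))
    (zpowers_le.2 (mem_centralizer_singleton_iff.2 (comm_of_cj (by
      rw [← conj_pow, sb, ← pow_mul, pw b8 b4])))))
    (zpowers_le.2 (mem_centralizer_singleton_iff.2 (comm_of_cj (by
      rw [← conj_pow, xb, ← pow_mul, pw b8 b4])))) : _ ≤ centralizer {b ^ 4}) hg)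

theorem bx : b * x * b⁻¹ = b ^ 4 * x := by
  have e : x * b = b ^ 5 * x := by rw [← xb]; group
  have e2 : x * b ^ 5 = b * x := by
    have : x * b ^ 5 * x⁻¹ = b ^ 1 := by rw [← conj_pow, xb, ← pow_mul, pw b8 b4]
    rw [mul_inv_eq_iff_eq_mul, pow_one] at this
    exact this
  have z := zc b8 b4 s2 x2 sx sb xb (mem_sup_right (mem_zpowers x))
  rw [← e2, ← z]; group

/-- Squares centralise `x`. -/
theorem sqx {g : G} (hg : g ∈ zpowers b ⊔ zpowers s ⊔ zpowers x) : g * g * x = x * (g * g) := by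
  obtain ⟨n2, -, f, -⟩ := two_step ⟨3, b8⟩ s2 x2 sx sb xb
  have cx : ∀ j : ℕ, j % 2 = 0 → b ^ j * x = x * b ^ j := fun j hj => (comm_of_cj (by
    rw [← conj_pow, xb, ← pow_mul, pw b8 b4]; omega)).symm
  rcases (mem_sup2 n2 (x2 ▸ one_mem _)).1 hg with e | e <;> obtain ⟨j, e | e⟩ := f _ e
  · rw [e, ← pow_add]; exact cx _ (by omega)
  · have : g * g = b ^ j * (s * b ^ j * s⁻¹) := by rw [inv_self s2, e]; group
    rw [this, ← conj_pow, sb, ← pow_mul, ← pow_add]; exact cx _ (by omega)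
  · have : g * g = b ^ j * (x * b ^ j * x⁻¹) := by rw [inv_self x2, eq_mul x2 e]; group
    rw [this, ← conj_pow, xb, ← pow_mul, ← pow_add]; exact cx _ (by omega)
  · have : g * g = b ^ j * (s * (x * b ^ j * x⁻¹) * s⁻¹) := by
      rw [inv_self x2, inv_self s2, eq_mul x2 e, mul_assoc s, mul_assoc (x * _), ← sx]; group
    rw [this, ← conj_pow, xb, ← pow_mul, ← conj_pow, sb, ← pow_mul, ← pow_add]; exact cx _ (by omega)

theorem x_not : x ∉ zpowers b ⊔ zpowers s := fun h => by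
  obtain ⟨-, -, f, -⟩ := two_step ⟨3, b8⟩ s2 x2 sx sb xb
  obtain ⟨j, e | e⟩ := f _ h
  · rw [e, cj_eq ((Commute.refl b).pow_left j), ← pow_one b, ← pow_mul, pw b8 b4] at xb
    omega
  · have : x * b * x⁻¹ = b ^ j * (s * b * s⁻¹) * (b ^ j)⁻¹ := by rw [e]; group
    rw [xb, sb, cj_eq ((Commute.refl b).pow_pow j 3), pw b8 b4] at this
    omega

theorem s_not : s ∉ zpowers b := fun h => by
  obtain ⟨j, e⟩ := mem_zp h
  rw [e, cj_eq ((Commute.refl b).pow_left j), ← pow_one b, ← pow_mul, pw b8 b4] at sb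
  omega

end HOL

open HOL in
/-- The holomorph of the cyclic group of order eight. -/
theorem hol (no2 : ∀ N : Subgroup G, N.index ≠ 2) {b s x : G} (b8 : b ^ 8 = 1) (b4 : b ^ 4 ≠ 1) (s2 : s * s = 1)
    (x2 : x * x = 1) (sx : s * x = x * s) (sb : s * b * s⁻¹ = b ^ 3) (xb : x * b * x⁻¹ = b ^ 5) (hB : Bd x 16) :
    False := by
  obtain ⟨n2, pS, -, cS⟩ := two_step ⟨3, b8⟩ s2 x2 sx sb xb
  have xM := x_not b8 b4 s2 x2 sx sb xb
  have sB := s_not b8 b4 s2 x2 sx sb xb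
  have cS := cS sB xM
  have iv := @invs _ _ _ _ _ _ b8 b4 s2 x2 sx sb xb
  have zc := @zc _ _ _ _ _ _ b8 b4 s2 x2 sx sb xb
  have sq := @sqx _ _ _ _ _ _ b8 b4 s2 x2 sx sb xb
  have bx := bx b8 b4 s2 x2 sx sb xb
  have l2 := le2_sup n2 (x2 ▸ one_mem _)
  have x1 : x ≠ 1 := fun e => xM (e ▸ one_mem _)
  have le2 : zpowers (b ^ 2) ≤ zpowers b := zpowers_le.2 (pow_mem (mem_zpowers b) 2)
  have xb2 : x * b ^ 2 * x⁻¹ = (b ^ 2) ^ 1 := by
    rw [← conj_pow, xb, ← pow_mul, ← pow_mul, pw b8 b4]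
  obtain ⟨-, pR, -, cR⟩ := two_step (c := b ^ 2) (k := 3) (l := 1) ⟨2, by rw [← pow_mul]; exact b8⟩ s2 x2 sx
    (by rw [← conj_pow, sb, ← pow_mul, ← pow_mul]) xb2
  have cR := cR (fun h => sB (le2 h)) fun h => xM (sup_le_sup_right le2 _ h)
  rw [orderOf_pow, ob b8 b4, show Nat.gcd 8 2 = 2 from rfl] at cR
  rw [ob b8 b4] at cS
  have RS : zpowers (b ^ 2) ⊔ zpowers s ⊔ zpowers x ≤ zpowers b ⊔ zpowers s ⊔ zpowers x :=
    sup_le_sup_right (sup_le_sup_right le2 _) _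
  have Rx : zpowers (b ^ 2) ⊔ zpowers s ⊔ zpowers x ≤ centralizer {x} :=
    sup_le (sup_le (zpowers_le.2 (mem_centralizer_singleton_iff.2
      (comm_of_cj (by rw [xb2, pow_one])).symm)) (zpowers_le.2 (mem_centralizer_singleton_iff.2 sx)))
      (zpowers_le.2 (mem_centralizer_singleton_iff.2 rfl))
  have xR : x ∈ zpowers (b ^ 2) ⊔ zpowers s ⊔ zpowers x := mem_sup_right (mem_zpowers x)
  have bM : b ∈ zpowers b ⊔ zpowers s := mem_sup_left (mem_zpowers b)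
  have bS : b ∈ zpowers b ⊔ zpowers s ⊔ zpowers x := mem_sup_left bM
  generalize zpowers (b ^ 2) ⊔ zpowers s ⊔ zpowers x = R at *
  have nz : ¬ Tc x (b ^ 4) := fun h => by
    have := hB.tc h _ pS fun y hy => zc hy
    omega
  generalize zpowers b ⊔ zpowers s = M at *
  generalize M ⊔ zpowers x = S at *
  obtain ⟨P, rfl⟩ := exists_syl pS fun Y hY hS n hn nn => by
    have k : ∀ m ∈ Y, m * x = x * m → m ∈ S := fun m hm e => by
      have h1 : R ≤ Cn Y x := le_inf (RS.trans hS) Rx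
      have h2 := hB (Cn Y x) (hY.to_le inf_le_left) fun y hy => (mem_Cn.1 hy).2
      exact RS (eq_of_le_of_card_ge h1 (by omega) ▸ mem_Cn.2 ⟨hm, e⟩)
    have c := comm_cj (sq (nn.inv b bS)) n
    rw [show n * (n⁻¹ * b * n⁻¹⁻¹ * (n⁻¹ * b * n⁻¹⁻¹)) * n⁻¹ = b ^ 2 by rw [pow_two]; group] at c
    rcases iv (nn x (RS xR)) (sq_cj x2 n) c with e | e | e | e
    · exact absurd e (cj_ne_one x1 n)
    · exact absurd ⟨n, e⟩ nz
    · exact k n hn (comm_of_cj e)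
    · have := k (b⁻¹ * n) (mul_mem (inv_mem (hS bS)) hn) (comm_of_cj (by
        calc _ = b⁻¹ * (n * x * n⁻¹) * b := by group
          _ = x := by rw [e, ← bx]; group))
      exact (mul_mem_cancel_left (inv_mem bS)).1 this
  obtain ⟨φ, hφ⟩ := exists_hom l2
  obtain ⟨g, h, e, hr⟩ := H58.exists_extremal_conj no2 P φ (-1) (fun s _ => Int.units_eq_one_or _)
    (by rw [pow_two, x2]) R pR xR Rx
  have hM := hφ _ e
  have c : R.map (MulAut.conj g⁻¹).toMonoidHom ≤ Cn P (g⁻¹ * x * g) := by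
    rintro _ ⟨r, hr', rfl⟩
    refine mem_Cn.2 ⟨by simpa using hr r hr', ?_⟩
    simpa using comm_cj (mem_centralizer_singleton_iff.1 (Rx hr')) g⁻¹
  have c1 := card_le_of_le c
  rw [H72.card_map_conj] at c1
  have l : Le2 (Cn P (g⁻¹ * x * g)) P := le2_of_card_le (by
    rw [inf_eq_left.2 (show Cn P (g⁻¹ * x * g) ≤ P from inf_le_left)]; omega)
  have c2 : b * b ∈ Cn P (g⁻¹ * x * g) := by
    by_cases hb : b ∈ Cn P (g⁻¹ * x * g)
    exacts [mul_mem hb hb, l b bS b bS hb hb]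
  have q : g⁻¹ * x * g = g⁻¹ * x * g⁻¹⁻¹ := by rw [inv_inv]
  rcases iv h (q ▸ sq_cj x2 _) (by rw [pow_two]; exact (mem_Cn.1 c2).2) with e | e | e | e
  · exact cj_ne_one x1 _ (q ▸ e)
  · exact nz ⟨g⁻¹, q ▸ e⟩
  · exact xM (e ▸ hM)
  · exact xM ((mul_mem_cancel_left (pow_mem bM 4)).1 (e ▸ hM))

end H58.ME
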