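import Mathlib
import Cfsg.Agent.Lib.M11T.Bas

set_option autoImplicit false
set_option linter.unusedSectionVars false
set_option linter.unusedVariables false

namespace H58.ME

open Subgroup H70 H50.SC6

variable {G : Type*} [Group G] [Finite G]

namespace I1
variable {a i z t g h : G} (H : Hy a i z t g h) {Q : Subgroup G} (c : C1 z t g Q)
include H c

theorem two {r : G} (r2 : E2 r) (rt : r * t = t * r) (rz : r * z = z * r) : r ∈ Q ∨ r * z ∈ Q := by
  refine or_iff_not_imp_left.2 fun n => c.le2 (zpowers z ⊔ zpowers r) (pg_sup (pg2 H.z2) (nm_zt H.z2 rz) r2)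
    (fun y hy => mem_centralizer_singleton_iff.1 (V4_le (X := centralizer {t})
      (mem_centralizer_singleton_iff.2 H.zt) (mem_centralizer_singleton_iff.2 rt) hy)) r s_V4 z t_V4 n c.zQ

theorem dd {d : G} (hd : d ∈ Q) (dz : d * z = z * d) : d ∈ D0 Q i ∨ d * t ∈ D0 Q i := by
  have dt := c.Qt d hd
  have e1 : i * d * i⁻¹ * t = t * (i * d * i⁻¹) := H.itz ▸ comm_cj ((show Commute d t from dt).mul_right dz) i
  have e2 : i * d * i⁻¹ * z = z * (i * d * i⁻¹) := cj_eq H.izc ▸ comm_cj dz i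
  rcases two H c ((E2.of_mem c.pQ hd).cj i) e1 e2 with m | m
  · exact .inl ⟨hd, m⟩
  · refine .inr (mem_D0.2 ⟨mul_mem hd c.tQ, ?_⟩)
    rw [show i * (d * t) * i⁻¹ = i * d * i⁻¹ * (i * t * i⁻¹) by group, H.it, ← H.zt, ← mul_assoc]
    exact mul_mem m c.tQ

theorem fin {X : Subgroup G} (tX : t ∈ X) (zX : z ∈ X) (hD : D0 Q i ≤ X) : CV z t X := fun r r2 rt rz => by
  have k : ∀ d ∈ Q, d * z = z * d → d ∈ X := fun d hd dz =>
    (dd H c hd dz).elim (fun m => hD m) fun m => (mul_mem_cancel_right tX).1 (hD m)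
  exact (two H c r2 rt rz).elim (fun m => k r m rz) fun m =>
    (mul_mem_cancel_right zX).1 (k _ m ((show Commute r z from rz).mul_left rfl))

end I1

theorem Hy.cv_V {a i z t g h : G} (H : Hy a i z t g h) {Q : Subgroup G} (c : C1 z t g Q) (hD : D0 Q i = ⊥) :
    CV z t (V4 t z) := I1.fin H c t_V4 s_V4 (hD ▸ bot_le)

theorem Hy.cv_E {a i z t g h : G} (H : Hy a i z t g h) {Q : Subgroup G} (c : C1 z t g Q) {x w ρ : G}
    (X : XD i z t g x w ρ Q) : CV z t (W8 t z x) := by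
  refine I1.fin H c (V4_W8 t_V4) (V4_W8 s_V4) ?_
  let R : Subgroup G := Cn Q z ⊔ zpowers z
  have nz : Nm z (Cn Q z) := fun d hd => by rwa [cj_eq (mem_Cn.1 hd).2.symm]
  have pR : IsPGroup 2 R := pg_sup (c.pQ.to_le Cn_le) nz (.of_sq H.z2)
  have mR : ∀ r, E2 r → r * t = t * r → r * z = z * r → r ∈ R := fun r r2 rt rz =>
    (mem_sup2 nz (H.z2 ▸ one_mem _)).2 ((I1.two H c r2 rt rz).imp (fun m => mem_Cn.2 ⟨m, rz⟩)
      fun m => mem_Cn.2 ⟨m, (show Commute r z from rz).mul_left rfl⟩)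
  have cR : ∀ u, z * u = u * z → (∀ d ∈ Q, d * z = z * d → d * u = u * d) → ∀ r ∈ R, r * u = u * r :=
    fun u e1 e2 r hr => mem_centralizer_singleton_iff.1 (sup_le (fun d hd => mem_centralizer_singleton_iff.2
      (e2 d (mem_Cn.1 hd).1 (mem_Cn.1 hd).2)) (zpowers_le.2 (mem_centralizer_singleton_iff.2 e1)) hr :
        r ∈ centralizer {u})
  have Rt := cR t H.zt fun d hd _ => c.Qt d hd
  have Rz := cR z rfl fun d _ e => e
  have Rx := cR x X.xz.symm fun d hd dz => (I1.dd H c hd dz).elim (X.xc d) fun m => by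
    have := ((show Commute _ x from X.xc _ m).mul_left (show Commute t x from X.xt.symm).inv_left).eq
    rwa [mul_inv_cancel_right] at this
  have ρR : Nm ρ R := fun r hr => by
    have e1 : Commute (ρ * r * ρ⁻¹) (t * z) := X.ρt ▸ comm_cj (Rt r hr) ρ
    have e2 : Commute (ρ * r * ρ⁻¹) t := X.ρw ▸ comm_cj ((show Commute r z from Rz r hr).mul_right (Rx r hr)) ρ
    exact mR _ ((E2.of_mem pR hr).cj ρ) e2 (by simpa using (e2.inv_right.mul_right e1).eq)
  have f := H.fp X.ρ3 X.ρ1 pR ρR (mR x (.of_sq X.x2) X.xt X.xz) X.x2 X.x1 X.ρx Rx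
  have sw : ∀ {u v y : G}, u * (v⁻¹ * t * v) * u⁻¹ = t → v * y * v⁻¹ ∈ Q → u * y * u⁻¹ ∈ Q := fun {u v y} e m => by
    have := c.nQ (u * v⁻¹) (comm_of_cj (by rw [← e]; nth_rewrite 1 [e]; group)) _ m
    simpa [mul_assoc] using this
  have b1 : i⁻¹ * t * i = t * z := by nth_rewrite 1 [← H.itz]; group
  have b2 : ρ⁻¹ * t * ρ = z * x := by rw [← X.ρw]; group
  have nD : Nm i (D0 Q i) := fun y hy => ⟨hy.2, by
    have := c.nQ z H.zt y hy.1
    show i * (i * y * i⁻¹) * i⁻¹ ∈ Q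
    rwa [← H.iz, show i * i * y * (i * i)⁻¹ = i * (i * y * i⁻¹) * i⁻¹ by simp [mul_assoc]] at this⟩
  have Dz : ∀ y ∈ D0 Q i, y * z = z * y := fun y hy => by
    have := comm_cj (c.Qt _ hy.2) i⁻¹
    rw [inv_inv, b1, show i⁻¹ * ((MulAut.conj i).toMonoidHom y) * i = y by simp [mul_assoc]] at this
    simpa using ((show Commute y t from c.Qt y hy.1).inv_right.mul_right this).eq
  have wD : ∀ y ∈ D0 Q i, y * w = w * y := fun y hy => by
    have yR := mR y (.of_mem c.pQ hy.1) (c.Qt y hy.1) (Dz y hy)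
    have m2 : ρ * (ρ * y * ρ⁻¹) * ρ⁻¹ ∈ Q := by
      have := sw (u := ρ * ρ) (v := i) (y := y) (by
        rw [b1, mul_inv_rev, mul_assoc ρ ρ, ← mul_assoc, mul_assoc ρ (ρ * _), X.ρz, X.ρw]) hy.2
      simpa [mul_assoc] using this
    have m1 : ρ * y * ρ⁻¹ ∈ Q := (mul_mem_cancel_left (mem_D0.1 hy).1).1
      ((mul_mem_cancel_right m2).1 ((zpowers_le.2 X.xQ : zpowers x ≤ Q) (f.norm yR)))
    have m3 : w * y * w⁻¹ ∈ D0 Q i := mem_D0.2 ⟨Nm.of_mem X.wQ y hy.1, by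
      have := sw (u := i * w) (v := ρ) (y := y) (by
        rw [b2, ← X.wz, ← H.itz]
        nth_rewrite 1 [H.itz]
        simp [mul_assoc, inv_self X.w2, ← mul_assoc w w, X.w2]) m1
      simpa [mul_assoc] using this⟩
    have fq : FP Q (zpowers t) g := H.fp H.g3 H.g1 c.pQ (c.nQ g H.gt) c.tQ H.t2 H.t1 H.gt c.Qt
    have := fq.cent (mul_mem c.tQ X.xQ) hy.1 (by
      rw [cj_eq ((show Commute t y from (c.Qt y hy.1).symm).mul_left (X.xc y hy).symm)]; simp)
    rw [X.hw] at this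
    rcases (mem_zt H.t2).1 this with e | e
    · exact (comm_of_cj (mul_inv_eq_one.1 e)).symm
    · have m4 : i * t * i⁻¹ ∈ Q := (mem_D0.1 (e ▸ mul_mem m3 (inv_mem hy))).2
      rw [H.it] at m4
      exact absurd ((mul_mem_cancel_left c.tQ).1 m4) c.zQ
  intro y hy
  rcases H.sm.fix X.ρ3 X.ρ1 c.pQ X.xQ X.x1 X.ρx hy.1 (X.cρ y (wD y hy) (by
    simpa [mul_assoc] using comm_cj (wD _ (nD.inv y hy)) i)).symm with e | e <;> rw [e]
  exacts [one_mem _, s1_W8]

end H58.ME
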