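import Mathlib
import Cfsg.Agent.Lib.M11T.Bas
import Cfsg.Agent.Lib.LocStruct.SylowIn

/-! The key lemma: `3²` normalises no nontrivial 2-subgroup. -/

set_option autoImplicit false
set_option linter.unusedSectionVars false
set_option linter.unusedVariables false

namespace H58.ME

open Subgroup H70 H50.SC6

variable {G : Type*} [Group G] [Finite G]

namespace KL

theorem row {σ : G ≃* G} {y : G} (y2 : y * y = 1) (e : y * σ y * σ (σ y) = 1) :
    y * σ y = σ y * y ∧ σ (σ y) = y * σ y := by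
  have b2 : σ y * σ y = 1 := by rw [← map_mul, y2, map_one]
  have c2 : σ (σ y) * σ (σ y) = 1 := by rw [← map_mul, b2, map_one]
  have e1 : y * σ y = σ (σ y) := by rw [eq_inv_of_mul_eq_one_left e, inv_self c2]
  exact ⟨comm_of_sq y2 b2 (by rw [e1, c2]), e1.symm⟩

theorem aux (hs : Sm G) {m g v : G} (m3 : m * m * m = 1) (m1 : m ≠ 1) (mg : m * g = g * m)
    (v2 : v * v = 1) (c : m * v = v * m) (c2 : v * (g * v * g⁻¹) = g * v * g⁻¹ * v) :
    v = 1 ∨ g * v * g⁻¹ = v := by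
  by_contra hc
  push Not at hc
  refine hs.not_dvd v2 (sq_cj v2 g) hc.1 (cj_ne_one hc.1 g) hc.2.symm c2 c ?_ (ord3 m3 m1).symm.dvd
  have := comm_cj c g
  rwa [cj_eq mg.symm] at this

theorem mem_z3 {ρ x : G} (r3 : ρ * ρ * ρ = 1) (hx : x ∈ zpowers ρ) : x = 1 ∨ x = ρ ∨ x = ρ * ρ := by
  obtain ⟨k, rfl⟩ := mem_powers_iff_mem_zpowers.2 hx
  exact pow_cases r3 k

end KL

open KL

namespace Hy
variable {a i z t g h : G} (H : Hy a i z t g h)
include H

theorem KL_ne {k : G} (kt : k * t = t * k) (e : k = h ∨ k = h⁻¹) : False := by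
  have : h * t = t * h := by
    rcases e with rfl | rfl
    exacts [kt, (Commute.inv_left (a := h⁻¹) kt : Commute h⁻¹⁻¹ t) |> (inv_inv h ▸ ·)]
  have e1 := H.th
  rw [cj_eq this.symm] at e1
  have h3 := H.h3
  rw [mul_eq_one_iff_eq_inv.2 e1, one_mul] at h3
  exact H.h1 h3

/-- An involution that is even for both `g` and `h` is trivial. -/
theorem key {y : G} (y2 : y * y = 1) (e1 : y * (g * y * g⁻¹) * (g * (g * y * g⁻¹) * g⁻¹) = 1)
    (e2 : y * (h * y * h⁻¹) * (h * (h * y * h⁻¹) * h⁻¹) = 1) : y = 1 := by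
  have gh : Commute g h := H.gh
  set σ := MulAut.conj g with hσ
  set τ := MulAut.conj h with hτ
  have st : ∀ x, σ (τ x) = τ (σ x) := fun x => by
    rw [← MulAut.mul_apply, ← map_mul, gh.eq, map_mul, MulAut.mul_apply]
  obtain ⟨ab, r1⟩ := row (σ := σ) y2 e1
  obtain ⟨ac, r2⟩ := row (σ := τ) y2 e2
  set b := σ y with hb
  set c := τ y with hc
  set d := σ c with hd
  have hd' : τ b = d := (st y).symm
  have b2 : b * b = 1 := by rw [hb, ← map_mul, y2, map_one]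
  have c2 : c * c = 1 := by rw [hc, ← map_mul, y2, map_one]
  have cd : c * d = d * c := by rw [← hd', hc, ← map_mul, ab, map_mul]
  have bd : b * d = d * b := by rw [hd, hb, ← map_mul, ac, map_mul]
  have r3 : σ d = c * d := by rw [← hd', st, r1, map_mul]
  have r4 : τ d = b * d := by rw [hd, ← st, r2, map_mul]
  have k : y * c * (b * d) = y * b * (c * d) := by
    calc y * c * (b * d) = τ (σ d) := by rw [r3, map_mul, r2, r4]
      _ = σ (τ d) := (st d).symm
      _ = _ := by rw [r4, map_mul, r1, r3]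
  have bc : Commute b c := by
    rw [mul_assoc, mul_assoc, mul_right_inj, ← mul_assoc, ← mul_assoc, mul_left_inj] at k
    exact k.symm
  have ad : Commute y d := by
    have k2 : b * d * (y * c) = y * c * (b * d) := by
      rw [← r2, ← r4, ← map_mul, ← map_mul, ← hd', hc, ← map_mul, ← map_mul, ab]
    rw [k, ab, cd, mul_assoc, mul_assoc, mul_right_inj, ← mul_assoc, ← mul_assoc, mul_left_inj] at k2
    exact k2.symm
  have ab' : Commute y b := ab
  have ac' : Commute y c := ac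
  have v1 : σ (b * (y * c)) = y * d := by
    rw [map_mul, map_mul, r1, ← hb, ← hd, mul_assoc, ← mul_assoc b, b2, one_mul]
  have v2 : τ (b * (y * c)) = y * d := by
    rw [map_mul, map_mul, r2, hd', ← hc, ← mul_assoc c, ← ac, mul_assoc y, c2, mul_one, ad.eq]
  have v3 : b * (y * c) * (b * (y * c)) = 1 :=
    sq_of_comm b2 (sq_of_comm y2 c2 ac) (ab'.symm.mul_right bc)
  have v4 : g * (b * (y * c)) * g⁻¹ = h * (b * (y * c)) * h⁻¹ := v1.trans v2.symm
  have v5 : b * (y * c) = 1 := by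
    rcases aux H.sm (m := g⁻¹ * h) (g := g) (by
        rw [← pow_three', gh.inv_left.mul_pow, inv_pow, pow_three', pow_three', H.g3, H.h3]; simp)
      (fun e => H.KL_ne H.gt (Or.inl (inv_mul_eq_one.1 e)))
      ((Commute.refl g).inv_left.mul_left gh.symm) v3
      (comm_of_cj (by
        calc _ = g⁻¹ * (h * (b * (y * c)) * h⁻¹) * g := by group
          _ = _ := by rw [← v4]; group))
      (by
        change _ * σ _ = σ _ * _
        rw [v1]
        exact (ab'.symm.mul_right bd).mul_left (((Commute.refl y).mul_right ad).mul_left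
          (ac'.symm.mul_right cd))) with e | e
    · exact e
    · exact H.gh_one v3 (comm_of_cj e).symm (comm_of_cj (v4.symm.trans e)).symm
  have w1 : d = y := by
    rw [v5, map_one] at v1
    rw [eq_inv_of_mul_eq_one_right v1.symm, inv_self y2]
  have w2 : g * h * y = y * (g * h) := comm_of_cj (by
    calc g * h * y * (g * h)⁻¹ = d := by rw [hd, hc]; simp [hσ, hτ, mul_assoc]
      _ = y := w1)
  rcases aux H.sm (m := g * h) (g := g) (by
      rw [← pow_three', gh.mul_pow, pow_three', pow_three', H.g3, H.h3, one_mul])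
    (fun e => H.KL_ne H.gt (Or.inr (eq_inv_of_mul_eq_one_left e)))
    ((Commute.refl g).mul_left gh.symm) y2 w2 ab with e | e
  · exact e
  · refine H.gh_one y2 (comm_of_cj e).symm ?_
    have := comm_of_cj e
    rw [← mul_assoc, ← this, mul_assoc, mul_assoc, mul_right_inj] at w2
    exact w2.symm

theorem a2 {Y : Subgroup G} (hY : IsPGroup 2 Y) (n1 : Nm g Y) (n2 : Nm h Y) : Y = ⊥ := by
  by_contra hc
  obtain ⟨y, hy, y2, y1, yc⟩ := exists_inv_cent hY le_rfl (fun g hg => .of_mem hg) hc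
  have m : y ∈ Oz Y := ⟨hy, y2, yc⟩
  have k : ∀ {p q : G}, p * p * p = 1 → p ≠ 1 → p * q = q * p → Nm p Y → Nm q Y →
      (∀ v, v * v = 1 → v * p = p * v → v * q = q * v → v = 1) →
      y * (p * y * p⁻¹) * (p * (p * y * p⁻¹) * p⁻¹) = 1 := fun {p q} p3 p1 pq np nq hv => by
    have m1 := nm_Oz np y m
    have m2 := nm_Oz np _ m1
    have m3 := mul_mem (mul_mem m m1) m2
    set v := y * (p * y * p⁻¹) * (p * (p * y * p⁻¹) * p⁻¹) with hv'
    have c : p * v = v * p := comm_of_cj (by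
      calc p * v * p⁻¹ = p * y * p⁻¹ * (p * (p * y * p⁻¹) * p⁻¹) *
            (p * (p * (p * y * p⁻¹) * p⁻¹) * p⁻¹) := by rw [hv']; group
        _ = v := by rw [cj3 p3, yc _ (mul_mem m1.1 m2.1), hv', mul_assoc y])
    by_contra v1
    have c' := comm_cj c q
    rw [cj_eq pq.symm] at c'
    rcases H.sm.fix p3 p1 hY m3.1 v1 c (nq _ m3.1) c' with e | e
    · exact cj_ne_one v1 q e
    · exact v1 (hv v m3.2.1 c.symm (comm_of_cj e).symm)
  exact y1 (H.key y2 (k H.g3 H.g1 H.gh n1 n2 fun v a b c => H.gh_one a b c)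
    (k H.h3 H.h1 H.gh.symm n2 n1 fun v a b c => H.gh_one a c b))

theorem KL_syl {L Y : Subgroup G} (hY : IsPGroup 2 Y) (Y1 : Y ≠ ⊥) (hL : ∀ n ∈ L, Nm n Y) {ρ : G}
    (rL : ρ ∈ L) (r3 : ρ * ρ * ρ = 1) (r1 : ρ ≠ 1) : H69.IsSylowIn 3 (zpowers ρ) L := by
  refine ⟨zpowers_le.2 rL, pg3 r3 r1, fun P h1 h2 hP => le_antisymm ?_ h1⟩
  by_contra hn
  obtain ⟨r, rP, rn, rc⟩ : ∃ r ∈ P, r ∉ zpowers ρ ∧ r * ρ = ρ * r := by
    obtain ⟨u, hu, u1⟩ := exists_ne_one_of_ne_bot (H69.center_ne_bot hP fun e =>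
      r1 (mem_bot.1 (e ▸ h1 (mem_zpowers ρ))))
    by_cases m : u ∈ zpowers ρ
    · obtain ⟨r, a, b⟩ := exists_not_mem_of_not_le hn
      refine ⟨r, a, b, ?_⟩
      have c : Commute r u := hu.2 r a
      rcases mem_z3 r3 m with e | e | e
      · exact absurd e u1
      · exact e ▸ c
      · rw [← sq_sq r3, ← e]
        exact c.mul_right c
    · exact ⟨u, hu.1, m, (hu.2 ρ (h1 (mem_zpowers ρ))).symm⟩
  obtain ⟨c, rfl⟩ := H.c3 ρ r3 r1
  have nm : ∀ n ∈ L, c⁻¹ * n * c ∈ normalizer (Y.comap (MulAut.conj c).toMonoidHom : Set G) :=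
    fun n hn => Nm.norm fun d hd => by
      have := hL n hn _ hd
      change c * _ * c⁻¹ ∈ Y
      convert this using 1
      simp [mul_assoc]
  have ng := nm _ rL
  rw [show c⁻¹ * (c * g * c⁻¹) * c = g by group] at ng
  have gh : Commute g h := H.gh
  obtain ⟨j, k, e | e⟩ := H.cg (c⁻¹ * r * c) (by
    calc c⁻¹ * r * c * g = c⁻¹ * (r * (c * g * c⁻¹)) * c := by group
      _ = _ := by rw [rc]; group)
  · have nr := nm r (h2 rP)
    rw [e, mul_mem_cancel_left (pow_mem ng j)] at nr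
    have nh : h ∈ normalizer (Y.comap (MulAut.conj c).toMonoidHom : Set G) := by
      rcases pow_cases H.h3 k with e1 | e1 | e1 <;> rw [e1] at nr e
      · refine absurd ⟨j, ?_⟩ rn
        change (c * g * c⁻¹) ^ (j : ℤ) = r
        rw [zpow_natCast, conj_pow, ← mul_one (g ^ j), ← e]
        group
      · exact nr
      · exact sq_sq H.h3 ▸ mul_mem nr nr
    have := H.a2 (hY.comap_of_injective _ (MulAut.conj c).injective) (.of_norm ng) (.of_norm nh)
    refine Y1 (eq_bot_iff.2 fun y hy => ?_)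
    have m : c⁻¹ * y * c ∈ Y.comap (MulAut.conj c).toMonoidHom := by
      change c * _ * c⁻¹ ∈ Y
      simpa [mul_assoc] using hy
    rw [this, mem_bot] at m
    simpa using cj_eq (a := c) (b := 1) (by simp) ▸ (by rw [← m]; group : y = c * 1 * c⁻¹)
  · have s1 : h ^ k * t * (h ^ k * t) = 1 := by
      calc _ = h ^ k * (t * h * t⁻¹) ^ k * (t * t) := by rw [conj_pow]; group
        _ = 1 := by rw [H.th, H.t2]; group
    have c1 : Commute (g ^ j) (h ^ k * t) :=
      (gh.pow_pow j k).mul_right (Commute.pow_left H.gt j)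
    have s2 : (c⁻¹ * r * c) ^ 3 = h ^ k * t := by
      rw [e, mul_assoc, c1.mul_pow, pow_three', pow_three', H50.SC6.pow3 H.g3, s1, one_mul, one_mul]
    have o : Odd (orderOf (h ^ k * t)) := by
      rw [← s2]
      refine (odd_of_three hP rP).of_dvd_nat ((orderOf_pow_dvd 3).trans ?_)
      rw [show c⁻¹ * r * c = (MulAut.conj c⁻¹) r by simp, MulEquiv.orderOf_eq]
    have s3 := eq_one_of_odd (k := 1) o (by rw [pow_one, pow_two, s1])
    refine H.t1 (eq_one_of_two_three (k := 1) (by rw [pow_one, pow_two, H.t2]) ?_)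
    rw [eq_inv_of_mul_eq_one_right s3, ← mul_inv_rev, ← mul_inv_rev, ← mul_assoc, H50.SC6.pow3 H.h3,
      inv_one]

/-- In a 2-local subgroup the subgroups of order three are conjugate. -/
theorem conj3 {L Y : Subgroup G} (hY : IsPGroup 2 Y) (Y1 : Y ≠ ⊥) (hL : ∀ n ∈ L, Nm n Y) {ρ σ : G} (rL : ρ ∈ L)
    (sL : σ ∈ L) (r3 : ρ * ρ * ρ = 1) (r1 : ρ ≠ 1) (s3 : σ * σ * σ = 1) (s1 : σ ≠ 1) :
    ∃ k ∈ L, k * ρ * k⁻¹ = σ ∨ k * ρ * k⁻¹ = σ⁻¹ := by
  obtain ⟨k, hk, e⟩ := (H.KL_syl hY Y1 hL rL r3 r1).conj (H.KL_syl hY Y1 hL sL s3 s1)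
  refine ⟨k, hk, ?_⟩
  rcases mem_z3 s3 (e ▸ H69.cj_mem k (mem_zpowers ρ)) with e | e | e
  · exact absurd e (cj_ne_one r1 k)
  · exact Or.inl e
  · exact Or.inr (e.trans (eq_inv_of_mul_eq_one_left s3))

theorem inv {y ρ : G} (yt : y * t = t * y) (y2 : y * y = 1) (rt : ρ * t = t * ρ) (r3 : ρ * ρ * ρ = 1) (r1 : ρ ≠ 1)
    (e : y * ρ * y⁻¹ = ρ⁻¹) : ∃ k, k * t = t * k ∧ (k * ρ * k⁻¹ = g ∨ k * ρ * k⁻¹ = g⁻¹) ∧
      (k * y * k⁻¹ = z ∨ k * y * k⁻¹ = t * z) := by
  obtain ⟨k, hk, hρ⟩ := H.conj3 (L := centralizer {t}) (pg2 H.t2) (by rw [Ne, zpowers_eq_bot]; exact H.t1)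
    (fun n hn => nm_zt H.t2 (mem_centralizer_singleton_iff.1 hn)) (mem_centralizer_singleton_iff.2 rt)
    (mem_centralizer_singleton_iff.2 H.gt) r3 r1 H.g3 H.g1
  have kt := mem_centralizer_singleton_iff.1 hk
  have e1 : k * y * k⁻¹ * (k * ρ * k⁻¹) * (k * y * k⁻¹)⁻¹ = (k * ρ * k⁻¹)⁻¹ := by
    calc _ = k * (y * ρ * y⁻¹) * k⁻¹ := by group
      _ = _ := by rw [e]; group
  have e2 : k * y * k⁻¹ * g⁻¹ * (k * y * k⁻¹)⁻¹ = g := by
    rcases hρ with c | c <;> rw [c] at e1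
    · rw [← conj_inv, e1, inv_inv]
    · rw [e1, inv_inv]
  have y't : Commute (k * y * k⁻¹) t := by
    have := comm_cj yt k
    rwa [cj_eq kt] at this
  obtain ⟨j, hj⟩ := H.six (k * y * k⁻¹ * z) (y't.mul_left H.zt) (comm_of_cj (by
    calc _ = k * y * k⁻¹ * (z * g * z⁻¹) * (k * y * k⁻¹)⁻¹ := by group
      _ = g := by rw [H.zg, e2]))
  have gt : Commute (g ^ j) t := Commute.pow_left H.gt j
  have zz : g ^ j * (g ^ j * z) * (g ^ j)⁻¹ = z := by
    calc _ = g ^ j * g ^ j * (z * g * z⁻¹)⁻¹ ^ j * z := by rw [conj_inv, conj_pow]; group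
      _ = z := by rw [H.zg, inv_inv, H50.SC6.pow3 H.g3, one_mul]
  refine ⟨g ^ j * k, gt.mul_left kt, ?_, ?_⟩
  · refine hρ.imp (fun c => ?_) fun c => ?_
    · calc _ = g ^ j * (k * ρ * k⁻¹) * (g ^ j)⁻¹ := by group
        _ = _ := by rw [c]; group
    · calc _ = g ^ j * (k * ρ * k⁻¹) * (g ^ j)⁻¹ := by group
        _ = _ := by rw [c]; group
  · have e3 : g ^ j * k * y * (g ^ j * k)⁻¹ = g ^ j * (k * y * k⁻¹ * z * z) * (g ^ j)⁻¹ := by
      rw [mul_assoc _ z, H.z2]; group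
    rw [e3]
    refine hj.imp (fun c => by rw [c, zz]) fun c => ?_
    rw [c, mul_assoc t, ← mul_assoc, gt.eq, mul_assoc t, mul_assoc t, zz]

theorem out {Q : Subgroup G} (c : C1 z t g Q) {y : G} (yt : y * t = t * y) (y2 : y * y = 1) (yQ : y ∉ Q) :
    ∃ k, k * t = t * k ∧ (k * y * k⁻¹ = z ∨ k * y * k⁻¹ = t * z) := by
  obtain ⟨k, -, r3, r1⟩ := H.pow3 (c.inv y yt y2 yQ)
  have y't : Commute (g * y * g⁻¹) t := by
    have := comm_cj yt g
    rwa [cj_eq H.gt] at this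
  obtain ⟨l, h1, -, h2⟩ := H.inv yt y2 ((Commute.mul_left yt y't).pow_left k) r3 r1 (by
    rw [← conj_pow, ← inv_pow, ← mul_assoc y y, y2, one_mul, mul_inv_rev, inv_self (sq_cj y2 g)])
  exact ⟨l, h1, h2⟩

end Hy

end H58.ME
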