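import Mathlib
import Cfsg.Agent.Lib.M11T.Defs

/-! The product lemma for an action of `S₃` whose element of order three is fixed point free. -/

set_option autoImplicit false
set_option linter.unusedSectionVars false
set_option linter.unusedVariables false

namespace H58.ME

open Subgroup H70 H50.SC6

variable {G : Type*} [Group G] [Finite G]

namespace PRD

theorem abs1 {K : Type*} [Group K] [Finite K] (σ ζ : K →* K) (hf : ∀ x, σ x = x → x = 1)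
    (h3 : ∀ x, σ (σ (σ x)) = x) (z2 : ∀ x, ζ (ζ x) = x) (zs : ∀ x, ζ (σ x) = σ (σ (ζ x))) {j : K}
    (hj : ζ j = j⁻¹) : ∃ y, y⁻¹ * σ y = j ∧ ζ y = σ y := by
  have inj : Function.Injective fun y : K => y⁻¹ * σ y := fun y y' (e : y⁻¹ * σ y = y'⁻¹ * σ y') =>
    mul_inv_eq_one.1 (hf _ (by
      rw [map_mul, map_inv, inv_mul_eq_iff_eq_mul.1 e]
      group))
  obtain ⟨y, hy⟩ := Finite.surjective_of_injective inj j
  have hy' : y⁻¹ * σ y = j := hy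
  have e : ζ (σ y) = y := inj (by
    change (ζ (σ y))⁻¹ * σ (ζ (σ y)) = y⁻¹ * σ y
    have e0 : (σ y)⁻¹ * y = j⁻¹ := by rw [← hy', mul_inv_rev, inv_inv]
    rw [hy', zs, h3, ← zs, ← map_inv, ← map_mul, e0, map_inv, hj, inv_inv])
  exact ⟨y, hy', by rw [← z2 (σ y), e]⟩

theorem abs2 {K : Type*} [Group K] [Finite K] (σ ζ : K →* K) (hf : ∀ x, σ x = x → x = 1)
    (h3 : ∀ x, σ (σ (σ x)) = x) (z2 : ∀ x, ζ (ζ x) = x) (zs : ∀ x, ζ (σ x) = σ (σ (ζ x))) (q : K) :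
    ∃ u', ζ (q * (σ u')⁻¹) = q * (σ u')⁻¹ ∧ ζ u' = u' := by
  obtain ⟨y, h1, h2⟩ := abs1 σ ζ hf h3 z2 zs (j := q⁻¹ * ζ q) (by
    rw [map_mul, map_inv, z2, mul_inv_rev, inv_inv])
  refine ⟨σ (σ y), ?_, by rw [zs, ← h2, z2, h2]⟩
  rw [h3, map_mul, map_inv, h2, ← mul_inv_cancel_left q (ζ q), ← h1]
  group

/-- conjugation restricted to an invariant subgroup -/
def cjh {D : Subgroup G} {ρ : G} (h : Nm ρ D) : D →* D where
  toFun d := ⟨ρ * d * ρ⁻¹, h d d.2⟩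
  map_one' := Subtype.ext (by simp)
  map_mul' a b := Subtype.ext (by simp [mul_assoc])

theorem zs {ρ ζ : G} (h3 : ρ * ρ * ρ = 1) (zr : ζ * ρ * ζ⁻¹ = ρ⁻¹) (x : G) :
    ζ * (ρ * x * ρ⁻¹) * ζ⁻¹ = ρ * (ρ * (ζ * x * ζ⁻¹) * ρ⁻¹) * ρ⁻¹ := by
  have e : ρ⁻¹ = ρ * ρ := inv_eq_of_mul_eq_one_left h3
  calc ζ * (ρ * x * ρ⁻¹) * ζ⁻¹ = ζ * ρ * ζ⁻¹ * (ζ * x * ζ⁻¹) * (ζ * ρ * ζ⁻¹)⁻¹ := by group
    _ = ρ * ρ * (ζ * x * ζ⁻¹) * (ρ * ρ)⁻¹ := by rw [zr, e]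
    _ = _ := by group

theorem z2' {ζ : G} (z2 : ζ * ζ = 1) (x : G) : ζ * (ζ * x * ζ⁻¹) * ζ⁻¹ = x := by
  calc _ = ζ * ζ * x * (ζ * ζ)⁻¹ := by group
    _ = x := by rw [z2]; group

end PRD

open PRD

/-- The product lemma for an action of `S₃`. -/
theorem prd {D N : Subgroup G} {ρ ζ : G} (f : FP D N ρ) (hN : N ≤ D) (z2 : ζ * ζ = 1) (zD : Nm ζ D) (zN : Nm ζ N)
    (zr : ζ * ρ * ζ⁻¹ = ρ⁻¹) {q : G} (hq : q ∈ D) : ∃ u ∈ D, ∃ u' ∈ D, ζ * u * ζ⁻¹ * u⁻¹ ∈ N ∧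
      ζ * u' * ζ⁻¹ * u'⁻¹ ∈ N ∧ q = u * (ρ * u' * ρ⁻¹) := by
  have hn : (N.subgroupOf D).Normal := ⟨fun n hn g => by
    rw [mem_subgroupOf] at hn ⊢
    exact f.nn g g.2 n hn⟩
  let σ : D ⧸ N.subgroupOf D →* D ⧸ N.subgroupOf D := QuotientGroup.map _ _ (cjh f.nD) fun n hn => by
    rw [mem_comap, mem_subgroupOf]
    exact f.nN n hn
  let τ : D ⧸ N.subgroupOf D →* D ⧸ N.subgroupOf D := QuotientGroup.map _ _ (cjh zD) fun n hn => by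
    rw [mem_comap, mem_subgroupOf]
    exact zN n hn
  have hs : ∀ d : D, σ (d : D ⧸ N.subgroupOf D) = (cjh f.nD d : D ⧸ N.subgroupOf D) := fun d => rfl
  have ht : ∀ d : D, τ (d : D ⧸ N.subgroupOf D) = (cjh zD d : D ⧸ N.subgroupOf D) := fun d => rfl
  have key : ∀ a b : D, (a : D ⧸ N.subgroupOf D) = b ↔ (a * (b : G)⁻¹ : G) ∈ N := fun a b => by
    rw [← mul_inv_eq_one, ← QuotientGroup.mk_inv, ← QuotientGroup.mk_mul, QuotientGroup.eq_one_iff,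
      mem_subgroupOf]
    rfl
  obtain ⟨u', h1, h2⟩ := abs2 σ τ (fun g hg => by
      obtain ⟨d, rfl⟩ := QuotientGroup.mk_surjective g
      rw [QuotientGroup.eq_one_iff, mem_subgroupOf]
      exact f.fp d d.2 ((key _ _).1 hg))
    (fun g => by
      obtain ⟨d, rfl⟩ := QuotientGroup.mk_surjective g
      rw [hs, hs, hs]
      exact congrArg _ (Subtype.ext (cj3 f.h3 d)))
    (fun g => by
      obtain ⟨d, rfl⟩ := QuotientGroup.mk_surjective g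
      rw [ht, ht]
      exact congrArg _ (Subtype.ext (z2' z2 d)))
    (fun g => by
      obtain ⟨d, rfl⟩ := QuotientGroup.mk_surjective g
      rw [hs, ht, ht, hs, hs]
      exact congrArg _ (Subtype.ext (zs f.h3 zr d))) ((⟨q, hq⟩ : D) : D ⧸ N.subgroupOf D)
  obtain ⟨d, rfl⟩ := QuotientGroup.mk_surjective u'
  rw [hs, ← QuotientGroup.mk_inv, ← QuotientGroup.mk_mul, ht, key] at h1
  rw [ht, key] at h2
  exact ⟨q * (ρ * d * ρ⁻¹)⁻¹, mul_mem hq (inv_mem (f.nD d d.2)), d, d.2, h1, h2, by group⟩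

/-- The involutions in the coset `A s` are conjugate under `A`. -/
theorem cos {A : Subgroup G} {ρ s y : G} (f : FP A ⊥ ρ) (s2 : s * s = 1) (sA : Nm s A) (sr : s * ρ * s⁻¹ = ρ⁻¹)
    (hy : y * s ∈ A) (y2 : y * y = 1) : ∃ k ∈ A, k * s * k⁻¹ = y := by
  obtain ⟨k, h1, h2⟩ := abs1 (cjh f.nD) (cjh sA)
    (fun d hd => Subtype.ext (mem_bot.1 (f.fp d d.2 (mem_bot.2 (mul_inv_eq_one.2
      (congrArg Subtype.val hd)))))) (fun d => Subtype.ext (cj3 f.h3 d))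
    (fun d => Subtype.ext (z2' s2 d)) (fun d => Subtype.ext (zs f.h3 sr d)) (j := ⟨y * s, hy⟩)
    (Subtype.ext (by
      change s * (y * s) * s⁻¹ = (y * s)⁻¹
      rw [mul_inv_rev, inv_self y2, mul_assoc, mul_inv_cancel_right, inv_self s2]))
  rw [← h2] at h1
  have e : (k : G)⁻¹ * (s * k * s⁻¹) = y * s := congrArg Subtype.val h1
  refine ⟨(k : G)⁻¹, inv_mem k.2, ?_⟩
  calc (k : G)⁻¹ * s * (k : G)⁻¹⁻¹ = (k : G)⁻¹ * (s * k * s⁻¹) * s := by group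
    _ = y := by rw [e, mul_assoc, s2, mul_one]

end H58.ME
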