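import Mathlib
import Cfsg.Agent.Lib.M11T.KL
import Cfsg.Agent.Lib.M11T.PRD

set_option autoImplicit false
set_option linter.unusedSectionVars false
set_option linter.unusedVariables false

namespace H58.ME

open Subgroup H70 H50.SC6

variable {G : Type*} [Group G] [Finite G]

theorem B0.fp {a i z t g h : G} (H : Hy a i z t g h) {Q : Subgroup G} (c : B0 z t Q) : FP Q (zpowers t) g :=
  H.fp H.g3 H.g1 c.pQ (c.nQ g H.gt) c.tQ H.t2 H.t1 H.gt c.Qt

namespace Hy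
variable {a i z t g h : G} (H : Hy a i z t g h) {Q : Subgroup G} (c : C1 z t g Q) {x w ρ : G}
  (X : XD i z t g x w ρ Q) (cv : CV z t (W8 t z x))
include H c X cv

theorem dV {d : G} (hd : d ∈ Q) (e : d * z = z * d) : d ∈ V4 t x := by
  have k : ∀ v ∈ Q, v ∈ V4 t z → v ∈ zpowers t := fun v hv m => by
    rcases (V4_cases H.t2 H.z2 H.zt).1 m with r | r | r | r <;> rw [r] at hv ⊢
    exacts [one_mem _, mem_zpowers _, absurd hv c.zQ, absurd ((mul_mem_cancel_right c.tQ).1 hv) c.zQ]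
  rcases (mem_W8 H.t2 H.z2 X.x2 H.zt X.xt X.xz).1 (cv d (.of_mem c.pQ hd) (c.Qt d hd) e) with m | m
  · exact zpowers_le.2 t_V4 (k d hd m)
  · exact (mul_mem_cancel_right s_V4).1 (zpowers_le.2 t_V4 (k _ (mul_mem hd X.xQ) m))

theorem xcen {q : G} (hq : q ∈ Q) : Md t (q * x * q⁻¹) x := by
  have f := c.toB0.fp H
  have k : ∀ u ∈ Q, z * u * z⁻¹ * u⁻¹ ∈ zpowers t → u ∈ Cm Q (zpowers t) x f.nn := fun u hu m => by
    refine ⟨hu, Md.to_right ?_ X.xt⟩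
    have uz : Md t (u⁻¹ * z * u⁻¹⁻¹) z := .of_left H.t2 (by
      simpa [mul_assoc, inv_self H.z2] using f.nn _ (inv_mem hu) _ (inv_mem m))
    have := comm_cj (uz.comm X.xt X.xz) u
    rw [show u * (u⁻¹ * z * u⁻¹⁻¹) * u⁻¹ = z by group] at this
    rcases (V4_cases H.t2 X.x2 X.xt).1 (H.dV c X cv (Nm.of_mem hu x X.xQ) this) with r | r | r | r
    · exact absurd r (cj_ne_one X.x1 u)
    · exact absurd (r.trans (cj_eq (c.Qt u hu)).symm) (cj_ne X.xt1 u)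
    · exact .inl r
    · exact .inr r
  obtain ⟨u, hu, v, hv, m1, m2, rfl⟩ := prd f (zpowers_le.2 c.tQ) H.z2 (c.nQ z H.zt) (nm_zt H.t2 H.zt) H.zg hq
  exact .of_right H.t2 X.xt (mul_mem (k u hu m1) (⟨f.nD v hv, f.cent hv X.xQ (k v hv m2).2⟩ :
    _ ∈ Cm Q (zpowers t) x f.nn)).2

theorem del : ∃ d, d * x * d⁻¹ = t ∧ Md t (d * t * d⁻¹) x ∧ ∀ r, E2 r → r * t = t * r → r * x = x * r →
    r * (g * x * g⁻¹) = g * x * g⁻¹ * r → r ∈ W8 t x (g * x * g⁻¹) := by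
  obtain ⟨e, he⟩ := X.tx
  have b : ∀ y, y * x = x * y → e⁻¹ * y * e⁻¹⁻¹ * t = t * (e⁻¹ * y * e⁻¹⁻¹) := fun y hy => by
    have := comm_cj hy e⁻¹
    rwa [← he, show e⁻¹ * (e * t * e⁻¹) * e⁻¹⁻¹ = t by group] at this
  obtain ⟨k, kt, kρ, kw⟩ := H.inv (b w X.wx) (sq_cj X.w2 _) (b ρ X.ρx) (cube_cj X.ρ3 _) (cj_ne_one X.ρ1 _) (by
    calc _ = e⁻¹ * (w * ρ * w⁻¹) * e := by group
      _ = _ := by rw [X.wρ]; group)
  set d := k * e⁻¹ with hd
  have cj : ∀ y, k * (e⁻¹ * y * e⁻¹⁻¹) * k⁻¹ = d * y * d⁻¹ := fun y => by rw [hd]; group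
  rw [cj] at kρ kw
  have dx : d * x * d⁻¹ = t := by rw [← cj, ← he, show e⁻¹ * (e * t * e⁻¹) * e⁻¹⁻¹ = t by group, cj_eq kt]
  set s := d * t * d⁻¹ with hs
  have st : s * t = t * s := dx ▸ comm_cj X.xt.symm d
  have s2 : s * s = 1 := sq_cj H.t2 d
  have sz : s * z = z * s := by
    have := comm_cj X.wt.symm d
    rcases kw with r | r <;> rw [r] at this
    · exact this
    · simpa using ((show Commute s t from st).inv_right.mul_right this).eq
  have cρ : ∀ u v, ρ * u * ρ⁻¹ = v → d * ρ * d⁻¹ * (d * u * d⁻¹) * (d * ρ * d⁻¹)⁻¹ = d * v * d⁻¹ := fun u v r => by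
    rw [← r]; group
  have e1 := cρ _ _ X.ρt
  have e2 := cρ _ _ X.ρw
  have c1 : s * (d * (t * z) * d⁻¹) = d * (t * z) * d⁻¹ * s := comm_cj ((Commute.refl t).mul_right H.zt.symm) d
  have c2 : s * (d * (z * x) * d⁻¹) = d * (z * x) * d⁻¹ * s :=
    comm_cj ((show Commute t z from H.zt.symm).mul_right X.xt.symm) d
  have sg : s * (g * s * g⁻¹) = g * s * g⁻¹ * s := by
    rcases kρ with r | r <;> rw [r] at e1 e2
    · rwa [e1]
    · rwa [show g * s * g⁻¹ = d * (z * x) * d⁻¹ by rw [hs, ← e2]; group]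
  have sQ : s ∈ Q := by
    by_contra n
    exact (E2.of_sq (sq_of_comm s2 (sq_cj s2 g) sg)).not_three (c.inv s st s2 n)
  have ms : Md t s x := by
    rcases (V4_cases H.t2 X.x2 X.xt).1 (H.dV c X cv sQ sz) with r | r | r | r
    · exact absurd r (cj_ne_one H.t1 d)
    · exact absurd (r.trans dx.symm) (cj_ne X.xt1.symm d)
    · exact .inl r
    · exact .inr r
  refine ⟨d, dx, ms, fun r r2 rt rx r1 => ?_⟩
  have tW : t ∈ W8 t x (g * x * g⁻¹) := V4_W8 t_V4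
  have xW : x ∈ W8 t x (g * x * g⁻¹) := V4_W8 s_V4
  have uW : d * (t * z) * d⁻¹ ∈ W8 t x (g * x * g⁻¹) := by
    rcases kρ with r | r <;> rw [r] at e1 <;> rw [← e1]
    · exact (ms.cj H.gt).mem tW s1_W8
    · refine (ms.cj (show Commute g t from H.gt).inv_left).mem tW ?_
      have : g⁻¹ * x * g⁻¹⁻¹ = (x * (g * x * g⁻¹))⁻¹ * t := by
        rw [← X.od, inv_mul_cancel_left, inv_inv]
        nth_rewrite 1 [← cj3 H.g3 x]
        group
      rw [this]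
      exact mul_mem (inv_mem (mul_mem xW s1_W8)) tW
  have b' : ∀ y, r * (d * y * d⁻¹) = d * y * d⁻¹ * r → d⁻¹ * r * d⁻¹⁻¹ * y = y * (d⁻¹ * r * d⁻¹⁻¹) := fun y hy => by
    simpa [mul_assoc] using comm_cj hy d⁻¹
  have q1 := b' t (ms.comm rt rx)
  have q2 := b' _ (comm_W8 rt rx r1 uW)
  have := W8_le (X := (W8 t x (g * x * g⁻¹)).comap (MulAut.conj d).toMonoidHom)
    (show d * t * d⁻¹ ∈ W8 t x (g * x * g⁻¹) from ms.mem tW xW)
    (show d * z * d⁻¹ ∈ W8 t x (g * x * g⁻¹) by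
      have := mul_mem (inv_mem (ms.mem tW xW)) uW
      simpa [hs, mul_assoc] using this) (show d * x * d⁻¹ ∈ W8 t x (g * x * g⁻¹) from dx ▸ tW)
    (cv _ (r2.cj d⁻¹) q1 (by simpa using ((show Commute _ t from q1).inv_right.mul_right q2).eq))
  simpa [mul_assoc] using this

end Hy

end H58.ME
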