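import Mathlib
import Cfsg.Agent.Lib.M11T.I2A

set_option autoImplicit false
set_option linter.unusedSectionVars false
set_option linter.unusedVariables false

namespace H58.ME

open Subgroup H70 H50.SC6

variable {G : Type*} [Group G] [Finite G]

theorem Hy.a1 {a i z t g h : G} (H : Hy a i z t g h) {Q : Subgroup G} (c : C1 z t g Q) {x w ρ : G}
    (X : XD i z t g x w ρ Q) (cv : CV z t (W8 t z x)) {q : G} (hq : q ∈ Q) (e : q * z * q⁻¹ = z * t)
    {y : G} (y2 : y * y = 1) (y1 : y ≠ 1) (yt : y * t = t * y) : Tc t y := by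
  obtain ⟨d, dx, dt, cw⟩ := H.del c X cv
  have gQ := c.nQ g H.gt
  have od := X.od
  have nx : ∀ {u}, (∀ r ∈ Q, Md t (r * u * r⁻¹) u) → ∀ r ∈ Q, Md t (r * (g * u * g⁻¹) * r⁻¹) (g * u * g⁻¹) :=
    fun {u} m r hr => by simpa [mul_assoc] using (m _ (gQ.inv r hr)).cj H.gt
  have m0 : ∀ r ∈ Q, Md t (r * x * r⁻¹) x := fun r hr => H.xcen c X cv hr
  have m1 := nx m0
  have m2 := nx m1
  have hw : w = t * (g * x * g⁻¹) := by rw [← X.hw]; nth_rewrite 2 [← cj_eq H.gt]; group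
  have x1Q := gQ x X.xQ
  have x2Q := gQ _ x1Q
  set x1 := g * x * g⁻¹ with hx1
  set x2 := g * x1 * g⁻¹ with hx2
  clear_value x2 x1
  have q1 : x1 * x1 = 1 := hx1 ▸ sq_cj X.x2 g
  have t1 := c.Qt _ x1Q
  have c01 : x * x1 = x1 * x := (norm_inv H.t2 X.x2 q1 (hx2 ▸ sq_cj q1 g) (c.Qt _ x2Q) (od ▸ mem_zpowers t)).1
  have e2 : x2 = x * t * x1 := by
    rw [show x2 = (x * x1)⁻¹ * t by rw [← od]; group, inv_self (sq_of_comm X.x2 q1 c01), mul_assoc, t1, mul_assoc]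
  have mW : ∀ {v}, v ∈ W8 t x x1 ↔ v ∈ V4 t x ∨ v * x1 ∈ V4 t x := mem_W8 H.t2 X.x2 q1 X.xt t1 c01.symm
  have mV : ∀ {v}, v ∈ V4 t x ↔ v = 1 ∨ v = t ∨ v = x ∨ v = x * t := V4_cases H.t2 X.x2 X.xt
  have k1 : ∀ {u v}, u * x1 = v → u = v * x1 := fun {u v} r => by rw [← r, mul_assoc, q1, mul_one]
  have Tz : Tc t z := .of_cj (c := q) (by rw [e, H.zt]; exact H.Ttz)
  have out : ∀ u, u * u = 1 → u * t = t * u → ¬ Tc t u → u ∈ Q := fun u u2 ut n => by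
    by_contra m
    obtain ⟨k, -, r | r⟩ := H.out c ut u2 m
    exacts [n (.of_cj (r ▸ Tz)), n (.of_cj (r ▸ H.Ttz))]
  obtain ⟨q0, h0, e0⟩ : ∃ q0 ∈ Q, q0 * x * q0⁻¹ = x * t := by
    by_contra hn
    have a0 : ∀ r ∈ Q, r * x = x * r := fun r hr => comm_of_cj ((m0 r hr).resolve_right fun s => hn ⟨r, hr, s⟩)
    have Vz : ∀ {v}, v ∈ V4 t x → v * z = z * v := fun hv => (comm_V4 H.zt X.xz.symm hv).symm
    rcases mW.1 (cw q (.of_mem c.pQ hq) (c.Qt q hq) (a0 q hq) (by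
      simpa [hx1, mul_assoc] using comm_cj (a0 _ (gQ.inv q hq)) g)) with m | m
    · rw [cj_eq (Vz m)] at e
      exact H.t1 (left_eq_mul.1 e)
    · have s1 : x1 * (t * z) * x1⁻¹ = z * x := by
        have := X.wz
        rw [hw, ← t1] at this
        rw [← this]
        calc _ = x1 * (t * (t * z) * t⁻¹) * x1⁻¹ := by rw [cj_eq ((Commute.refl t).mul_right H.zt.symm)]
          _ = _ := by group
      have s2 : q * (t * z) * q⁻¹ = z * x := by
        calc _ = q * x1 * (x1 * (t * z) * x1⁻¹) * (q * x1)⁻¹ := by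
              rw [mul_inv_rev, inv_self q1]; simp [mul_assoc, ← mul_assoc x1 x1, q1]
          _ = _ := by
            rw [s1, cj_eq ((show Commute _ z from Vz m).mul_right (comm_V4 X.xt rfl m).symm)]
      rw [show q * (t * z) * q⁻¹ = q * t * q⁻¹ * (q * z * q⁻¹) by group, cj_eq (c.Qt q hq), e, ← mul_assoc, ← H.zt,
        mul_assoc, H.t2, mul_one] at s2
      exact X.x1 (left_eq_mul.1 s2)
  have Txt : Tc t (x * t) := X.tx.of_eq e0
  have gxt : g * (x * t) * g⁻¹ = x1 * t := by nth_rewrite 2 [← cj_eq H.gt]; rw [hx1]; group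
  have WT : ∀ v ∈ W8 t x x1, v ≠ 1 → Tc t v := fun v hv v1 => by
    rcases mW.1 hv with m | m <;> rcases mV.1 m with r | r | r | r
    · exact absurd r v1
    · exact r ▸ .rfl'
    · exact r ▸ X.tx
    · exact r ▸ Txt
    · rw [k1 r, one_mul, hx1]; exact X.tx.cj g
    · rw [k1 r, ← t1, ← gxt]; exact Txt.cj g
    · refine ((Txt.cj g).cj g).of_eq (c := 1) ?_
      rw [gxt, k1 r, show g * (x1 * t) * g⁻¹ = x2 * (g * t * g⁻¹) by rw [hx2]; group, cj_eq H.gt, e2,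
        mul_assoc (x * t), t1, ← mul_assoc (x * t), mul_assoc x t t, H.t2]
      simp
    · rw [k1 r, ← e2, hx2, hx1]; exact (X.tx.cj g).cj g
  have p1 : d⁻¹ * q0 * d * x * (d⁻¹ * q0 * d)⁻¹ = x := by
    calc _ = d⁻¹ * (q0 * (d * x * d⁻¹) * q0⁻¹) * d := by group
      _ = _ := by rw [dx, cj_eq (c.Qt q0 h0), ← dx]; group
  have e0' : q0 * (x * t) * q0⁻¹ = x := by
    rw [show q0 * (x * t) * q0⁻¹ = q0 * x * q0⁻¹ * (q0 * t * q0⁻¹) by group, e0, cj_eq (c.Qt q0 h0), mul_assoc, H.t2,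
      mul_one]
  have p2 : d⁻¹ * q0 * d * t * (d⁻¹ * q0 * d)⁻¹ = x * t := by
    have : q0 * (d * t * d⁻¹) * q0⁻¹ = t * (d * t * d⁻¹) := by
      rcases dt with r | r <;> rw [r]
      · rw [e0, X.xt]
      · rw [e0', X.xt, ← mul_assoc, H.t2, one_mul]
    calc _ = d⁻¹ * (q0 * (d * t * d⁻¹) * q0⁻¹) * d := by group
      _ = _ := by rw [this]; nth_rewrite 1 [← dx]; group
  set r0 := d⁻¹ * q0 * d
  have cj2 : ∀ u, q0 * r0 * u * (q0 * r0)⁻¹ = q0 * (r0 * u * r0⁻¹) * q0⁻¹ := fun u => by group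
  obtain ⟨k, σ3, σ1, σt, σx, σy⟩ := H.cyc3 (p := q0 * r0) (u := t) (v := x) (w := x * t) (by rw [cj2, p2, e0'])
    (by rw [cj2, p1, e0]) (by
      rw [cj2, show r0 * (x * t) * r0⁻¹ = r0 * x * r0⁻¹ * (r0 * t * r0⁻¹) by group, p1, p2, ← mul_assoc x x, X.x2, one_mul,
        cj_eq (c.Qt q0 h0)]) X.xt1
  set σ := (q0 * r0) ^ k
  have key : ∀ u, u * u = 1 → u ≠ 1 → u * t = t * u → u * x = x * u → Tc t u := fun u u2 u1 ut ux => by
    by_contra n
    have fl : ∀ v ∈ Q, v ≠ 1 → v * x = x * v → ¬ Tc t v → v * x1 * v⁻¹ = x1 * t := fun v hv v1 vx nv =>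
      (m1 v hv).resolve_left fun r => nv (WT v (cw v (.of_mem c.pQ hv) (c.Qt v hv) vx (comm_of_cj r)) v1)
    have uQ := out u u2 ut n
    have n' : ¬ Tc t (σ * u * σ⁻¹) := fun r => n r.of_cj
    have vx : σ * u * σ⁻¹ * x = x * (σ * u * σ⁻¹) := σt ▸ comm_cj ut σ
    have vt : σ * u * σ⁻¹ * t = t * (σ * u * σ⁻¹) := σy ▸ comm_cj ((show Commute u x from ux).mul_right ut) σ
    have vQ := out _ (sq_cj u2 σ) vt n'
    have f1 := fl u uQ u1 ux n
    have f2 := fl _ vQ (cj_ne_one u1 σ) vx n'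
    obtain ⟨f, hf⟩ : ∃ f, f = u * (σ * u * σ⁻¹) := ⟨_, rfl⟩
    have fQ : f ∈ Q := hf ▸ mul_mem uQ vQ
    have fW : f ∈ W8 t x x1 := cw f (.of_mem c.pQ fQ) (c.Qt f fQ) (hf ▸ (show Commute u x from ux).mul_left vx)
      (comm_of_cj (by
        calc _ = u * (σ * u * σ⁻¹ * x1 * (σ * u * σ⁻¹)⁻¹) * u⁻¹ := by rw [hf]; group
          _ = u * x1 * u⁻¹ * (u * t * u⁻¹) := by rw [f2]; group
          _ = _ := by rw [f1, cj_eq ut, mul_assoc, H.t2, mul_one]))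
    have uf : u * f = f * u := by
      have := comm_of_sq u2 (sq_cj u2 σ) (hf ▸ sq_W8 H.t2 X.x2 q1 X.xt t1 c01.symm fW)
      rw [hf]; exact (Commute.refl u).mul_right this
    have σu : σ * u * σ⁻¹ = u * f := by rw [hf, ← mul_assoc, u2, one_mul]
    have fV : f ∈ V4 t x := (mW.1 fW).resolve_right fun m => by
      have := (show Commute u f from uf).inv_right.mul_right (comm_V4 ut ux m)
      rw [inv_mul_cancel_left] at this
      rw [cj_eq this] at f1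
      exact H.t1 (left_eq_mul.1 f1)
    have mul : ∀ {v v'}, σ * v * σ⁻¹ = v' → σ * (u * v) * σ⁻¹ = u * (f * v') := fun {v v'} r => by
      rw [← mul_assoc u, ← σu, ← r]; group
    have fin : ∀ v ∈ V4 t x, σ * (u * v) * σ⁻¹ = u * v → Tc t (u * v) ∧ Tc t (u * v * t) := fun v hv r => by
      have vQ : v ∈ Q := V4_le c.tQ X.xQ hv
      have v2 := sq_V4 H.t2 X.x2 X.xt hv
      have T1 := H.fixT σ3 σ1 (sq_of_comm u2 v2 (comm_V4 ut ux hv)) (fun s => n (WT u (by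
        rw [eq_inv_of_mul_eq_one_left s]; exact inv_mem (V4_W8 hv)) u1)) (comm_of_cj r)
      refine ⟨T1, T1.of_eq (c := x1) ?_⟩
      calc _ = x1 * (u * x1 * u⁻¹) * u * (x1 * v * x1⁻¹) * (x1 * x1)⁻¹ := by
            rw [mul_assoc u x1, mul_assoc x1 (u * _)]; simp [mul_assoc, q1, inv_self q1,
              comm_V4 t1 c01.symm hv]
        _ = _ := by
          rw [f1, cj_eq (comm_V4 t1 c01.symm hv), q1, ← mul_assoc x1, q1, one_mul, inv_one, mul_one,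
            mul_assoc, ← c.Qt _ (mul_mem uQ vQ)]
    rcases mV.1 fV with r | r | r | r <;> subst r
    · exact n (by simpa using (fin 1 (one_mem _) (by simpa using σu)).1)
    · have := (fin x s_V4 (by rw [mul σx, X.xt, ← mul_assoc f, H.t2, one_mul])).2
      refine n (.of_cj (c := σ) (.of_cj (c := σ) ?_))
      rwa [σu, mul σt, ← X.xt, ← mul_assoc]
    · have := (fin (f * t) (mul_mem s_V4 t_V4) (by rw [mul σy])).2
      rw [mul_assoc, mul_assoc, H.t2, mul_one, ← σu] at this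
      exact n' this
    · have := (fin t t_V4 (by rw [mul σt, X.xt, mul_assoc t, X.x2, mul_one])).2
      rw [mul_assoc, H.t2, mul_one] at this
      exact n this
  by_contra n
  have yQ := out y y2 yt n
  have gi := (show Commute g t from H.gt).inv_left
  have bk : ∀ {u v}, u * t = t * u → u * (g * v * g⁻¹) = g * v * g⁻¹ * u →
      g⁻¹ * u * g⁻¹⁻¹ * t = t * (g⁻¹ * u * g⁻¹⁻¹) ∧ g⁻¹ * u * g⁻¹⁻¹ * v = v * (g⁻¹ * u * g⁻¹⁻¹) := fun {u v} ut r =>
    ⟨by have := comm_cj ut g⁻¹; rwa [cj_eq gi.eq] at this,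
      by simpa [mul_assoc] using comm_cj r g⁻¹⟩
  rcases m0 y yQ with r0 | r0
  · exact n (key y y2 y1 yt (comm_of_cj r0))
  rcases m1 y yQ with r1 | r1
  · obtain ⟨s1, s2⟩ := bk yt (hx1 ▸ comm_of_cj r1)
    exact n (key _ (sq_cj y2 _) (cj_ne_one y1 _) s1 s2).of_cj
  have r2 : y * x2 = x2 * y := comm_of_cj (by
    rw [e2, show y * (x * t * x1) * y⁻¹ = y * x * y⁻¹ * (y * t * y⁻¹) * (y * x1 * y⁻¹) by group, r0, r1, cj_eq yt,
      mul_assoc x, H.t2, mul_one, t1, mul_assoc])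
  obtain ⟨s1, s2⟩ := bk yt (hx2 ▸ r2)
  obtain ⟨s3, s4⟩ := bk s1 (hx1 ▸ s2)
  exact n (key _ (sq_cj (sq_cj y2 _) _) (cj_ne_one (cj_ne_one y1 _) _) s3 s4).of_cj.of_cj

end H58.ME
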