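import Mathlib
import Cfsg.Agent.Lib.M11T.I2A
import Cfsg.Agent.Lib.M11T.HOL
import Cfsg.Agent.Lib.M11T.PRD

/-! Case (i) when `z` is not conjugate to `z t` under `Q`. -/

set_option autoImplicit false
set_option linter.unusedSectionVars false
set_option linter.unusedVariables false

namespace H58.ME

open Subgroup H70 H50.SC6

variable {G : Type*} [Group G] [Finite G]

theorem Hy.b1 {a i z t g h : G} (H : Hy a i z t g h) {Q : Subgroup G} (c : C1 z t g Q) {x w ρ : G}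
    (X : XD i z t g x w ρ Q) (cv : CV z t (W8 t z x)) (e : ∀ q ∈ Q, q * z * q⁻¹ ≠ z * t) : False := by
  have fp := H.fp H.g3 H.g1 c.pQ (c.nQ g H.gt) c.tQ H.t2 H.t1 H.gt c.Qt
  have k : ∀ u ∈ Q, z * u * z⁻¹ * u⁻¹ ∈ zpowers t → u ∈ V4 t x := fun u hu m => by
    refine H.dV c X cv hu ?_
    rcases (mem_zt H.t2).1 m with m | m
    · exact (comm_of_cj (mul_inv_eq_one.1 m)).symm
    · refine absurd ?_ (e u⁻¹ (inv_mem hu))
      calc _ = u⁻¹ * (z * u * z⁻¹ * u⁻¹) * u⁻¹⁻¹ * z := by group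
        _ = _ := by rw [m, cj_eq (c.Qt _ (inv_mem hu)), H.zt]
  have x1t : g * x * g⁻¹ * t = t * (g * x * g⁻¹) := c.Qt _ (c.nQ g H.gt x X.xQ)
  have x1x : g * x * g⁻¹ * x = x * (g * x * g⁻¹) := by
    have e1 : w = t * (g * x * g⁻¹) := by
      rw [← X.hw]
      nth_rewrite 2 [← cj_eq H.gt]
      group
    have := X.wx
    rwa [e1, mul_assoc t, ← mul_assoc x t, X.xt, mul_assoc t, mul_right_inj] at this
  have QW : Q ≤ W8 t x (g * x * g⁻¹) := fun q hq => by
    obtain ⟨u, hu, u', hu', h1, h2, rfl⟩ := prd fp (zpowers_le.2 c.tQ) H.z2 (c.nQ z H.zt)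
      (nm_zt H.t2 H.zt) H.zg hq
    refine mul_mem (V4_W8 (k u hu h1)) (V4_le (X := (W8 t x (g * x * g⁻¹)).comap
      (MulAut.conj g).toMonoidHom) ?_ s1_W8 (k u' hu' h2))
    change g * t * g⁻¹ ∈ W8 t x (g * x * g⁻¹)
    rw [cj_eq H.gt]
    exact V4_W8 t_V4
  have x4 : X4 t := fun y yt hy => by
    have m : y * y ∈ Q := by
      by_cases m : y ∈ Q
      · exact mul_mem m m
      · exact c.le2 _ hy.pg (fun v hv => mem_centralizer_singleton_iff.1
          (zpowers_le.2 (mem_centralizer_singleton_iff.2 yt) hv)) y (mem_zpowers y) y (mem_zpowers y) m m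
    rw [← sq_W8 H.t2 X.x2 (sq_cj X.x2 g) X.xt x1t x1x (QW m)]
    simp [pow_succ, mul_assoc]
  have bd : Bd t 16 := fun Y hY hc => by
    have h1 := (c.le2 Y hY hc).card_le
    have h2 := (card_le_of_le (inf_le_left.trans QW : Q ⊓ Y ≤ _)).trans
      (card_W8_le H.t2 X.x2 (sq_cj X.x2 g) X.xt x1t x1x)
    omega
  have c1 : a * x * a⁻¹ * t = t * (a * x * a⁻¹) := by
    have := comm_cj (Commute.mul_right X.ix.symm X.xt : Commute x (i * t)) a
    rwa [← H.ata, show a * (a⁻¹ * t * a) * a⁻¹ = t by group] at this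
  have c2 : a * x * a⁻¹ * z = z * (a * x * a⁻¹) := by
    have := comm_cj X.xz a
    rwa [cj_eq H.az] at this
  have c3 : Commute i (a * x * a⁻¹) := by
    have := comm_cj X.ix a
    rwa [cj_eq (by rw [← H.ai, mul_assoc] : a * i = i * a)] at this
  have kV : ∀ v ∈ V4 t z, i * v = v * i → v = 1 ∨ v = z := fun v hv cm => by
    have n : i * t ≠ t * i := fun c => H.z1 (left_eq_mul.1 ((cj_eq c).symm.trans H.it))
    rcases (V4_cases H.t2 H.z2 H.zt).1 hv with rfl | rfl | rfl | rfl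
    · exact Or.inl rfl
    · exact absurd cm n
    · exact Or.inr rfl
    · rw [← mul_assoc, H.izc, mul_assoc, mul_assoc, mul_right_inj] at cm
      exact absurd cm n
  rcases (mem_W8 H.t2 H.z2 X.x2 H.zt X.xt X.xz).1 (cv _ (.of_sq (sq_cj X.x2 a)) c1 c2) with m | m
  · rcases kV _ m c3 with m | m
    · exact cj_ne_one X.x1 a m
    · rw [← cj_eq H.az, mul_left_inj, mul_right_inj] at m
      exact c.zQ (m ▸ X.xQ)
  · rcases kV _ m (c3.mul_right X.ix) with m | m
    · rw [mul_eq_one_iff_eq_inv, inv_self X.x2] at m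
      exact H.z1 (H.a4.symm.trans (x4.tc X.tx a (comm_of_cj m) H.ea))
    · refine hol H.no2 H.a8 (H.a4 ▸ H.z1) H.t2 X.x2 X.xt.symm
        (by rw [H.ta, ← H.ai, pow_three]) ?_ (bd.tc X.tx)
      calc x * a * x⁻¹ = (a * x * a⁻¹ * x)⁻¹ * (a * x * a⁻¹ * (x * x) * a * x⁻¹) := by group
        _ = z * a := by rw [m, inv_self H.z2, X.x2]; group
        _ = _ := by rw [pow_succ, H.a4]

end H58.ME
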