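import Mathlib
import Cfsg.Agent.Lib.M11T.Bas

set_option autoImplicit false
set_option linter.unusedSectionVars false
set_option linter.unusedVariables false

namespace H58.ME

open Subgroup H70 H50.SC6

variable {G : Type*} [Group G] [Finite G]

namespace Hy
variable {a i z t g h : G} (H : Hy a i z t g h) {z1 γ : G} {Q T : Subgroup G} (c : C2 z t z1 γ Q T)
include H c

theorem fpT : FP T (zpowers t) γ := H.fp c.γ3 c.γ1 c.pT c.γT (c.QT c.tQ) H.t2 H.t1 c.γt c.Tt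

theorem z1q : z1 * z1 = 1 := c.γz ▸ sq_cj H.z2 γ

theorem z1T : z1 ∈ T := c.γz ▸ c.γT z c.zT

theorem qcomm {q r : G} (hq : q ∈ Q) (hr : r ∈ Q) : Md t (q * r * q⁻¹) r := .of_right H.t2 (c.Qt r hr) (by
  have := mul_mem (mul_mem (c.sq q hq) (c.sq _ (mul_mem (inv_mem hq) hr))) (inv_mem (c.sq r hr))
  simpa [mul_assoc] using this)

theorem zz1 : z * z1 = z1 * z ∧ Md t (γ * z1 * γ⁻¹) (z * z1) :=
  norm_inv H.t2 H.z2 (H.z1q c) (sq_cj (H.z1q c) γ) (c.Tt _ (c.γT _ (H.z1T c))) (c.γz ▸ (H.fpT c).norm c.zT)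

theorem zinv {q : G} (hq : q ∈ Q) (e : z * q * z⁻¹ * q⁻¹ ∈ zpowers t) : z * q * z⁻¹ = q⁻¹ := by
  have f : FP Q (zpowers t) g := H.fp H.g3 H.g1 c.pQ (c.nQ g H.gt) c.tQ H.t2 H.t1 H.gt c.Qt
  have ct : ∀ {u v}, u ∈ zpowers t → v * t = t * v → v * u * v⁻¹ = u := fun {u v} hu hv => by
    rcases (mem_zt H.t2).1 hu with r | r <;> rw [r]
    exacts [by simp, cj_eq hv]
  obtain ⟨y, hy⟩ : ∃ y, y = g * q * g⁻¹ := ⟨_, rfl⟩
  have yQ : y ∈ Q := hy ▸ f.nD q hq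
  have e1 : z * y * z⁻¹ = z * q * z⁻¹ * q⁻¹ * (g * y * g⁻¹) := by
    calc _ = z * g * z⁻¹ * (z * q * z⁻¹ * q⁻¹) * (z * g * z⁻¹)⁻¹ * (z * g * z⁻¹ * q * (z * g * z⁻¹)⁻¹) := by
          rw [hy]; group
      _ = _ := by
        rw [H.zg, ct e (show Commute g t from H.gt).inv_left, hy]
        nth_rewrite 1 2 [inv_cube H.g3]
        simp [mul_assoc]
  have m : q * (y * (z * y * z⁻¹)) ∈ zpowers t := by
    rw [e1, ← ct e (show Commute y t from c.Qt y yQ).inv_left, ← ct e (show Commute q t from c.Qt q hq).inv_left]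
    have := mul_mem e (f.norm hq)
    rw [← hy] at this
    simpa [mul_assoc] using this
  obtain ⟨s, hs⟩ : ∃ s, s = q * (y * (z * y * z⁻¹)) := ⟨_, rfl⟩
  rw [← hs] at m
  have s2 : s * s = 1 := by rcases (mem_zt H.t2).1 m with r | r <;> simp [r, H.t2]
  have y2 := c.sq y yQ
  have y4 : y * y * (y * y) = 1 := by rcases (mem_zt H.t2).1 y2 with r | r <;> simp [r, H.t2]
  have e2 : q = s * (y * (z * y * z⁻¹))⁻¹ := by rw [hs]; group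
  have e3 : z * (y * (z * y * z⁻¹)) * z⁻¹ * (y * (z * y * z⁻¹)) = 1 := by
    calc _ = z * y * (z * (y * (z * z)⁻¹ * y) * z⁻¹) * (z * z) * y * z⁻¹ := by group
      _ = z * (y * y * (y * y)) * z⁻¹ := by rw [H.z2, inv_one, mul_one, mul_one, ct y2 H.zt]; group
      _ = _ := by rw [y4]; group
  have e4 := ct m (c.Qt _ (mul_mem yQ (c.nQ z H.zt y yQ)))
  calc z * q * z⁻¹ = z * s * z⁻¹ * (z * (y * (z * y * z⁻¹)) * z⁻¹)⁻¹ := by rw [e2]; group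
    _ = y * (z * y * z⁻¹) * s⁻¹ := by
      rw [ct m H.zt, eq_inv_of_mul_eq_one_left e3, inv_inv, inv_self s2, comm_of_cj e4]
    _ = _ := by rw [e2]; group

theorem dγ {q : G} (hq : q ∈ Cn Q z) : q * q = 1 ∧ γ * q * γ⁻¹ ∈ Cn Q z := by
  have k : ∀ u ∈ Q, u * z * u⁻¹ * z⁻¹ ∈ zpowers t → z * u * z⁻¹ * u⁻¹ ∈ zpowers t := fun u hu m => by
    simpa [mul_assoc] using inv_mem m
  obtain ⟨h1, h2⟩ := mem_Cn.1 hq
  have m : q * z * q⁻¹ * z⁻¹ ∈ zpowers t := by rw [h2]; simp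
  have q2 : q * q = 1 := by
    have := H.zinv c h1 (k q h1 m)
    rw [cj_eq h2.symm] at this
    exact mul_eq_one_iff_eq_inv.2 this
  have := H.zinv c (c.nQ γ c.γt q h1) (k _ (c.nQ γ c.γt q h1) ((H.fpT c).cent (c.QT h1) c.zT m))
  rw [inv_self (sq_cj q2 γ)] at this
  exact ⟨q2, mem_Cn.2 ⟨c.nQ γ c.γt q h1, (comm_of_cj this).symm⟩⟩

theorem d1 {q : G} (hq : q ∈ Q) (e : z * q * z⁻¹ * q⁻¹ ∈ zpowers t) :
    q * z = z * q ∧ q * q = 1 ∧ q * z1 = z1 * q := by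
  have fT := H.fpT c
  have nn : ∀ d ∈ Q, Nm d (zpowers t) := fun d hd => fT.nn d (c.QT hd)
  have nD : Nm γ (Cn Q z) := fun d hd => (H.dγ c hd).2
  have f : FP (Cm Q (zpowers t) z nn) (zpowers t) γ := ⟨c.γ3, fun d hd => ⟨c.nQ γ c.γt d hd.1,
    fT.cent (c.QT hd.1) c.zT hd.2⟩, fT.nN, fun d hd => nn d hd.1, fun d hd => fT.fp d (c.QT hd.1)⟩
  have m : q ∈ Cn Q z := f.le_of_le2 nD (zpowers_le.2 (mem_Cn.2 ⟨c.tQ, H.zt.symm⟩))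
    ((le2_Cn (P := Cm Q (zpowers t) z nn) H.t2 (fun d hd => c.Qt d hd.1)
      fun d hd => Md.of_right H.t2 H.zt hd.2).mono_left fun d hd => mem_Cn.2 ⟨(mem_Cn.1 hd).1.1, (mem_Cn.1 hd).2⟩)
    ⟨hq, by simpa [mul_assoc] using inv_mem e⟩
  refine ⟨(mem_Cn.1 m).2, (H.dγ c m).1, ?_⟩
  have := comm_cj (mem_Cn.1 (nD.inv q m)).2 γ
  rw [c.γz] at this
  simpa [mul_assoc] using this

theorem decR {r : G} (hr : r ∈ T) : ∃ q ∈ Q, ∃ f ∈ V4 z z1, r = q * f := by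
  have k : ∀ f ∈ V4 z z1, r * f ∈ Q → ∃ q ∈ Q, ∃ f ∈ V4 z z1, r = q * f := fun f hf m =>
    ⟨_, m, _, inv_mem hf, by group⟩
  rcases c.dec r hr with m | m | m | m
  exacts [k 1 (one_mem _) (by simpa using m), k _ t_V4 m, k _ s_V4 m, k _ (mul_mem t_V4 s_V4) m]

theorem FR : V4 z z1 ≤ Cn T z := V4_le (mem_Cn.2 ⟨c.zT, rfl⟩) (mem_Cn.2 ⟨H.z1T c, (H.zz1 c).1.symm⟩)

theorem decD {r : G} (hr : r ∈ Cn T z) : ∃ q ∈ Cn Q z, ∃ f ∈ V4 z z1, r = q * f := by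
  obtain ⟨q, hq, f, hf, rfl⟩ := H.decR c (Cn_le hr)
  refine ⟨q, mem_Cn.2 ⟨hq, ?_⟩, f, hf, rfl⟩
  exact (mem_Cn.1 ((mul_mem_cancel_right (H.FR c hf)).1 hr)).2

theorem DR : Cn Q z ≤ Cn T z := fun d hd => mem_Cn.2 ⟨c.QT (mem_Cn.1 hd).1, (mem_Cn.1 hd).2⟩

theorem r2 {r : G} (hr : r ∈ Cn T z) : r * r = 1 := by
  obtain ⟨q, hq, f, hf, rfl⟩ := H.decD c hr
  obtain ⟨h1, h2⟩ := mem_Cn.1 hq
  obtain ⟨-, q2, q1⟩ := H.d1 c h1 (by rw [← h2]; simp)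
  exact sq_of_comm q2 (sq_V4 H.z2 (H.z1q c) (H.zz1 c).1.symm hf) (comm_V4 h2 q1 hf)

theorem γR : Nm γ (Cn T z) := fun r hr => by
  obtain ⟨q, hq, f, hf, rfl⟩ := H.decD c hr
  rw [show γ * (q * f) * γ⁻¹ = γ * q * γ⁻¹ * (γ * f * γ⁻¹) by group]
  refine mul_mem (H.DR c (H.dγ c hq).2) ?_
  exact V4_le (X := (Cn T z).comap (MulAut.conj γ).toMonoidHom)
    (show γ * z * γ⁻¹ ∈ Cn T z from c.γz ▸ H.FR c s_V4)
    (show γ * z1 * γ⁻¹ ∈ Cn T z from (H.zz1 c).2.mem (mem_Cn.2 ⟨c.QT c.tQ, H.zt.symm⟩) (H.FR c (mul_mem t_V4 s_V4))) hf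

theorem TR {r : G} (hr : r ∈ T) : Nm r (Cn T z) := by
  obtain ⟨q, hq, f, hf, rfl⟩ := H.decR c hr
  refine Nm.mul (fun u hu => ?_) (.of_mem (H.FR c hf))
  have tR : t ∈ Cn T z := mem_Cn.2 ⟨c.QT c.tQ, H.zt.symm⟩
  have k : ∀ q ∈ Q, q * z * q⁻¹ ∈ Cn T z := fun q hq => by
    have uQ : q * (z * q⁻¹ * z⁻¹) ∈ Q := mul_mem hq (c.nQ z H.zt _ (inv_mem hq))
    have := (H.d1 c uQ (by
      have := inv_mem (c.sq _ uQ)
      simpa [mul_assoc, inv_self H.z2, ← mul_assoc z z, H.z2] using this)).1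
    simpa [mul_assoc] using mul_mem (H.DR c (mem_Cn.2 ⟨uQ, this⟩)) (H.FR c t_V4)
  obtain ⟨d, hd, f, hf, rfl⟩ := H.decD c hu
  rw [show q * (d * f) * q⁻¹ = q * d * q⁻¹ * (q * f * q⁻¹) by group]
  refine mul_mem ((H.qcomm c hq (mem_Cn.1 hd).1).mem tR (H.DR c hd)) ?_
  exact V4_le (X := (Cn T z).comap (MulAut.conj q).toMonoidHom) (k q hq) (show q * z1 * q⁻¹ ∈ Cn T z by
    have := H.γR c _ (k _ ((c.nQ γ c.γt).inv q hq))
    rw [← c.γz]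
    simpa [mul_assoc] using this) hf

end Hy

end H58.ME
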