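import Mathlib
import Cfsg.Agent.Lib.M11T.II1
import Cfsg.Agent.Lib.M11T.KL

/-! Case (ii): `D0` is trivial. -/

set_option autoImplicit false
set_option linter.unusedSectionVars false
set_option linter.unusedVariables false

namespace H58.ME

open Subgroup H70 H50.SC6

variable {G : Type*} [Group G] [Finite G]

theorem Hy.ii2 {a i z t g h : G} (H : Hy a i z t g h) {z1 γ : G} {Q T : Subgroup G} (c : C2 z t z1 γ Q T)
    {x w ρ : G} (X : XD i z t g x w ρ Q) : False := by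
  have tT := c.QT c.tQ
  have xR : x ∈ Cn T z := mem_Cn.2 ⟨c.QT X.xQ, X.xz⟩
  have tR : t ∈ Cn T z := mem_Cn.2 ⟨tT, H.zt.symm⟩
  have zR : z ∈ Cn T z := mem_Cn.2 ⟨c.zT, rfl⟩
  have pR : IsPGroup 2 (Cn T z) := c.pT.to_le Cn_le
  have ρR : Nm ρ (Cn T z) := fun r hr => by
    have c1 : Commute r t := c.Tt r hr.1
    have a1 := comm_cj c1 ρ
    have a2 := comm_cj (c1.mul_right (mem_Cn.1 hr).2) ρ
    have a3 := comm_cj (comm_of_sq (H.r2 c hr) X.x2 (H.r2 c (mul_mem hr xR))) ρ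
    rw [X.ρt] at a1
    rw [X.ρz] at a2
    rw [cj_eq X.ρx] at a3
    have b1 := Commute.mul_right a2 (Commute.inv_right a3)
    rw [mul_inv_cancel_right] at b1
    have b2 := Commute.mul_right a1 b1.inv_right
    rw [mul_inv_cancel_right] at b2
    exact mem_Cn.2 ⟨c.cz _ b2 b1, b1⟩
  obtain ⟨l, hl, e⟩ := H.conj3 (L := normalizer (Cn T z : Set G)) pR
    (fun e => H.t1 (mem_bot.1 (e ▸ tR))) (fun n hn => .of_norm hn) (H.γR c).norm ρR.norm c.γ3 c.γ1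
    X.ρ3 X.ρ1
  have lR : Nm l (Cn T z) := .of_norm hl
  have lt : l * t * l⁻¹ = x := by
    refine (H.sm.fix X.ρ3 X.ρ1 pR xR X.x1 X.ρx (lR t tR) ?_).resolve_left (cj_ne_one H.t1 l)
    have := comm_cj c.γt l
    rcases e with e | e <;> rw [e] at this
    exacts [this, Commute.inv_left_iff.1 this]
  set Tx := T.map (MulAut.conj l).toMonoidHom
  have mT : ∀ {y}, y ∈ Tx ↔ l⁻¹ * y * l ∈ T := H72.mem_map_conj
  have ρT : Nm ρ Tx := by
    have : Nm (l * γ * l⁻¹) Tx := fun d hd => mT.2 (by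
      convert c.γT _ (mT.1 hd) using 1
      group)
    rcases e with e | e <;> rw [e] at this
    exacts [this, inv_inv ρ ▸ this.inv]
  have CT : Cn T x ≤ Tx := fun y hy => mT.2 (by
    have m := (lR.inv.mul (H.TR c hy.1)).mul lR z zR
    refine c.nz _ (comm_of_cj ?_) (by simpa using (E2.of_mem c.pT hy.1).cj l⁻¹) m.1
    calc _ = l⁻¹ * (y * (l * t * l⁻¹) * y⁻¹) * l := by group
      _ = t := by rw [lt, cj_eq (mem_Cn.1 hy).2, ← lt]; group)
  have xz1 : Commute z1 x :=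
    (H.d1 c X.xQ (by rw [cj_eq X.xz.symm, mul_inv_cancel]; exact one_mem _)).2.2.symm
  have xz : Commute z x := X.xz.symm
  have l1 : Le2 (Cn T x) T := le2_Cn H.t2 c.Tt fun r hr => by
    have k : ∀ f, Commute f x → r * f ∈ Q → r * x * r⁻¹ = x ∨ r * x * r⁻¹ = x * t := fun f h1 h2 => by
      have := H.qcomm c h2 X.xQ
      rwa [show r * f * x * (r * f)⁻¹ = r * (f * x * f⁻¹) * r⁻¹ by group, cj_eq h1] at this
    rcases c.dec r hr with m | m | m | m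
    exacts [H.qcomm c m X.xQ, k _ xz m, k _ xz1 m, k _ (xz.mul_left xz1) m]
  have l2 : Le2 (Cn T x) Tx := le2_of_card_le (by
    have := l1.card_le
    rw [inf_eq_left.2 Cn_le] at this
    rwa [inf_eq_left.2 CT, H72.card_map_conj])
  have xT : x ∈ Tx := CT (mem_Cn.2 ⟨xR.1, rfl⟩)
  have fp := H.fp X.ρ3 X.ρ1 (H72.isPGroup_map_conj c.pT l) ρT xT X.x2 X.x1 X.ρx fun d hd => by
    have := comm_cj (c.Tt _ (mT.1 hd)) l
    rwa [lt, show l * (l⁻¹ * d * l) * l⁻¹ = d by group] at this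
  have m := nm_zt X.x2 X.ρx _ (fp.comm_of_le2 (zpowers_le.2 xT) (CT (mem_Cn.2 ⟨tT, X.xt.symm⟩)) l2
    (fun y hy _ => by rw [cj_eq (c.Tt y hy.1), mul_inv_cancel]; exact one_mem _)
    (ρT.inv w (CT (mem_Cn.2 ⟨c.QT X.wQ, X.wx⟩))))
  have e1 : ρ * (ρ⁻¹ * w * ρ⁻¹⁻¹ * t * (ρ⁻¹ * w * ρ⁻¹⁻¹)⁻¹ * t⁻¹) * ρ⁻¹ = x * t⁻¹ := by
    calc _ = w * (ρ * t * ρ⁻¹) * w⁻¹ * (ρ * t * ρ⁻¹)⁻¹ := by group
      _ = _ := by rw [X.ρt, X.wz, xz.eq]; group
  rw [e1, mem_zt X.x2] at m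
  rcases m with m | m
  · exact X.xt1 (mul_inv_eq_one.1 m)
  · exact H.t1 (inv_eq_one.1 (mul_eq_left.1 m))

end H58.ME
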