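import Mathlib
import Cfsg.Agent.Lib.M11T.II1
import Cfsg.Agent.Lib.M11T.PRD

set_option autoImplicit false
set_option linter.unusedSectionVars false
set_option linter.unusedVariables false

namespace H58.ME

open Subgroup H70 H50.SC6

variable {G : Type*} [Group G] [Finite G]

theorem Hy.iR {a i z t g h : G} (H : Hy a i z t g h) {z1 γ : G} {Q T : Subgroup G} (c : C2 z t z1 γ Q T) :
    Nm i (Cn T z) := fun r hr => by
  obtain ⟨h1, h2⟩ := mem_Cn.1 hr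
  have e1 : i * r * i⁻¹ * t = t * (i * r * i⁻¹) := H.itz ▸ comm_cj ((show Commute r t from c.Tt r h1).mul_right h2) i
  have e2 : i * r * i⁻¹ * z = z * (i * r * i⁻¹) := cj_eq H.izc ▸ comm_cj h2 i
  exact mem_Cn.2 ⟨c.cz _ e1 e2, e2⟩

theorem Hy.ii3 {a i z t g h : G} (H : Hy a i z t g h) {z1 γ : G} {Q T : Subgroup G} (c : C2 z t z1 γ Q T)
    (hD : D0 Q i = ⊥) : Q ≤ zpowers t := by
  have o : ∀ y ∈ Q, i * y * i⁻¹ ∈ Q → y = 1 := fun y h1 h2 => mem_bot.1 (hD ▸ mem_D0.2 ⟨h1, h2⟩)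
  have it : ∀ y, i * (y * t) * i⁻¹ = i * y * i⁻¹ * z * t := fun y => by
    rw [mul_assoc _ z, H.zt, ← H.it]; group
  have k : ∀ y ∈ Cn Q z, y ∉ zpowers t → ∃ u ∈ Q, Md t u y ∧ i * u * i⁻¹ * z1 ∈ Q := fun y hy n => by
    have yQ := Cn_le hy
    rcases c.dec _ (Cn_le (H.iR c y (H.DR c hy))) with m | m | m | m
    · exact absurd (o y yQ m ▸ one_mem _) n
    · have := o _ (mul_mem yQ c.tQ) (it y ▸ mul_mem m c.tQ)
      exact absurd (eq_inv_of_mul_eq_one_left this ▸ inv_mem (mem_zpowers t)) n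
    · exact ⟨y, yQ, .inl rfl, m⟩
    · refine ⟨y * t, mul_mem yQ c.tQ, .inr rfl, ?_⟩
      rw [it, mul_assoc _ t, ← c.Tt z1 (H.z1T c), ← mul_assoc, mul_assoc _ z]
      exact mul_mem m c.tQ
  have hd : ∀ d ∈ Cn Q z, d ∈ zpowers t := fun d hd => by
    by_contra n
    have f := H.fpT c
    obtain ⟨u, hu, m1, e1⟩ := k d hd n
    obtain ⟨v, hv, m2, e2⟩ := k _ (H.dγ c hd).2 fun m => n (f.nN.iff.1 m)
    have := o _ (mul_mem hu (inv_mem hv)) (by simpa [mul_assoc] using mul_mem e1 (inv_mem e2))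
    rw [mul_inv_eq_one] at this
    subst this
    exact n (f.fp d (c.QT (Cn_le hd)) (((m2.symm H.t2).trans H.t2 m1).to_right (c.Qt d (Cn_le hd))))
  intro q hq
  have f : FP Q (zpowers t) g := H.fp H.g3 H.g1 c.pQ (c.nQ g H.gt) c.tQ H.t2 H.t1 H.gt c.Qt
  obtain ⟨u, hu, v, hv, m1, m2, rfl⟩ := prd f (zpowers_le.2 c.tQ) H.z2 (c.nQ z H.zt) (nm_zt H.t2 H.zt) H.zg hq
  exact mul_mem (hd u (mem_Cn.2 ⟨hu, (H.d1 c hu m1).1⟩)) (f.nN v (hd v (mem_Cn.2 ⟨hv, (H.d1 c hv m2).1⟩)))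

theorem Hy.ii4 {a i z t g h : G} (H : Hy a i z t g h) {z1 γ : G} {Q T : Subgroup G} (c : C2 z t z1 γ Q T)
    (hQ : Q ≤ zpowers t) : FD z t z1 γ i ∧ ∀ y, y * t = t * y → y * z = z * y → y * z1 = z1 * y := by
  have q1 := H.z1q c
  obtain ⟨c1, m1⟩ := H.zz1 c
  have t1 := c.Tt z1 (H.z1T c)
  have nT : ¬ Tc t z := H.nT fun y yt y2 => by
    rw [show 4 = 2 * 2 from rfl, pow_mul, pow_two, pow_two]
    rcases (mem_zt H.t2).1 (hQ (c.sq2 y yt y2)) with e | e <;> simp [e, H.t2]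
  have TW : T ≤ W8 z z1 t := fun r hr => by
    obtain ⟨q, hq, f, hf, rfl⟩ := H.decR c hr
    exact mul_mem ((zpowers_le.2 s1_W8 : zpowers t ≤ W8 z z1 t) (hQ hq)) (V4_W8 hf)
  have r3 : R3 t := Bd.r3 fun Y hY hc => (c.bd Y hY hc).trans ((card_le_of_le TW).trans
    (card_W8_le H.z2 q1 H.t2 c1.symm H.zt.symm t1.symm))
  have γt : ∀ y, γ * (t * y) * γ⁻¹ = t * (γ * y * γ⁻¹) := fun y => by nth_rewrite 2 [← cj_eq c.γt]; group
  have it : ∀ y, i * (t * y) * i⁻¹ = t * z * (i * y * i⁻¹) := fun y => by rw [← H.it]; group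
  have T1 : Tc t (t * z1) := H.Ttz.of_eq (by rw [γt, c.γz])
  have T2 : Tc t (t * (γ * z1 * γ⁻¹)) := T1.of_eq (γt z1)
  have n1 : ¬ Tc t z1 := fun e => nT (.of_cj (c.γz ▸ e))
  have n2 : ¬ Tc t (γ * z1 * γ⁻¹) := fun e => n1 e.of_cj
  have n3 : ¬ Tc t (i * z1 * i⁻¹) := fun e => n1 e.of_cj
  have kt : ∀ {u v}, u * t = v → u = v * t := fun {u v} r => by rw [← r, mul_assoc, H.t2, mul_one]
  have iz := cj_eq H.izc
  have cs : i * z1 * i⁻¹ = z1 ∨ i * z1 * i⁻¹ = z1 * z ∨ i * z1 * i⁻¹ = z1 * z * t := by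
    rcases (mem_W8 H.z2 q1 H.t2 c1.symm H.zt.symm t1.symm).1 (TW (Cn_le (H.iR c z1 (H.FR c s_V4)))) with m | m <;>
      rcases (V4_cases H.z2 q1 c1.symm).1 m with r | r | r | r
    · exact absurd r (cj_ne_one (c.γz ▸ cj_ne_one H.z1 γ) i)
    · refine absurd (r.trans iz.symm) (cj_ne (fun e => c.zQ ?_) i)
      exact (zpowers_le.2 c.tQ : zpowers t ≤ Q) ((H.fpT c).fp z c.zT (by rw [c.γz, e]; simp))
    · exact .inl r
    · exact .inr (.inl r)
    · exact absurd (by rw [kt r, one_mul]; exact .rfl') n3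
    · exact absurd (by rw [kt r, H.zt]; exact H.Ttz) n3
    · exact absurd (by rw [kt r, t1]; exact T1) n3
    · exact .inr (.inr (kt r))
  have czt : Commute (z * z1) t := (show Commute z t from H.zt).mul_left t1
  have ev : γ * z1 * γ⁻¹ = z * z1 := m1.resolve_right fun e => by
    rcases cs with r | r | r
    · exact n2 (T1.of_eq (c := i) (by rw [it, r, e, czt.eq, mul_assoc]))
    · exact n3 (by rwa [r, ← c1, ← one_mul (z * z1), ← H.t2, mul_assoc, ← czt.eq, ← e])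
    · have : z * z1 * z⁻¹ = z1 * z := by
        calc _ = i * (i * z1 * i⁻¹) * i⁻¹ := by rw [← H.iz]; simp [mul_assoc]
          _ = i * z1 * i⁻¹ * (i * z * i⁻¹) * (i * t * i⁻¹) := by nth_rewrite 1 [r]; group
          _ = z1 * z * (t * z * (t * z)) := by rw [r, iz, H.it]; simp only [mul_assoc]
          _ = _ := by rw [H.tz2, mul_one]
      rw [cj_eq c1] at this
      exact H.z1 (left_eq_mul.1 this)
  have iz1 : i * z1 * i⁻¹ = z1 := by
    rcases cs with r | r | r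
    · exact r
    · obtain ⟨d, hd⟩ := T1
      have e : i * (t * z1) = t * z1 * i := comm_of_cj (by
        rw [it, r, ← c1, mul_assoc, ← mul_assoc z, H.z2, one_mul])
      have := hQ (c.sq2 (d⁻¹ * i * d⁻¹⁻¹) (by
        have := comm_cj e d⁻¹
        rwa [← hd, show d⁻¹ * (d * t * d⁻¹) * d⁻¹⁻¹ = t by group] at this) (H.ei.cj _))
      rw [show d⁻¹ * i * d⁻¹⁻¹ * (d⁻¹ * i * d⁻¹⁻¹) = d⁻¹ * (i * i) * d⁻¹⁻¹ by group, H.iz] at this
      rcases (mem_zt H.t2).1 this with s | s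
      · exact absurd s (cj_ne_one H.z1 _)
      · exact absurd (.of_cj (c := d⁻¹) (by rw [s]; exact .rfl')) nT
    · exact absurd (by rwa [r, ← c1, czt.eq, ← ev]) n3
  exact ⟨⟨c.γ3, c.γ1, c.γt, c.γz, ev, c1, fun y yt yz _ => TW (c.cz y yt yz), H.izc, comm_of_cj iz1, H.it, nT, r3⟩,
    fun y yt yz => by
      have m : y ∈ Cn T z := mem_Cn.2 ⟨c.cz y yt yz, yz⟩
      exact comm_of_sq (H.r2 c m) q1 (H.r2 c (mul_mem m (H.FR c s_V4)))⟩

end H58.ME
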