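import Mathlib
import Cfsg.Agent.Lib.M11T.Bas

/-! An invariant complement to the fixed involution of an element of order three. -/

set_option autoImplicit false
set_option linter.unusedSectionVars false
set_option linter.unusedVariables false

namespace H58.ME

open Subgroup H70 H50.SC6

variable {G : Type*} [Group G] [Finite G]

namespace L1

variable {K : Type*} [Group K] [Finite K] {σ : K →* K} {τ : K}

theorem cen (h3 : ∀ x, σ (σ (σ x)) = x) (t1 : τ ≠ 1) (st : σ τ = τ) (fx : ∀ x, σ x = x → x = 1 ∨ x = τ)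
    (mn : ∀ N : Subgroup K, N.Normal → (∀ n ∈ N, σ n ∈ N) → N ≠ ⊥ → τ ∈ N) {y : K} (y2 : y * y = 1)
    (yc : ∀ g, g * y = y * g) : y = 1 ∨ y = τ := by
  have c1 : ∀ {y : K}, (∀ g, g * y = y * g) → ∀ g, g * σ y = σ y * g := fun hy g => by
    rw [← h3 g, ← map_mul, hy, map_mul]
  have s1 : ∀ {y : K}, y * y = 1 → σ y * σ y = 1 := fun hy => by rw [← map_mul, hy, map_one]
  have vc : ∀ g, g * (y * σ y) = y * σ y * g := fun g => by
    rw [← mul_assoc, yc, mul_assoc, c1 yc, mul_assoc]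
  have v2 := sq_of_comm y2 (s1 y2) (c1 yc y)
  have e : σ (σ (y * σ y)) = σ (y * σ y) * (y * σ y) := by
    rw [map_mul σ y, map_mul, h3, c1 (c1 yc) (σ y), ← yc (σ y), mul_assoc, ← mul_assoc (σ y), s1 y2,
      one_mul]
  refine fx y ?_
  by_contra hn
  have n : σ (y * σ y) ≠ y * σ y := fun c => hn (by
    rw [map_mul, c1 (c1 yc), mul_left_inj] at c
    rw [← c, h3, c])
  have inj : Function.Injective σ := fun a b c => by rw [← h3 a, c, h3]
  have n1 : σ (σ (y * σ y)) ≠ σ (y * σ y) := fun c => n (inj c)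
  have n2 : σ (σ (σ (y * σ y))) ≠ σ (σ (y * σ y)) := fun c => n1 (inj c)
  set v := y * σ y
  have mV := fun x => V4_cases (x := x) v2 (s1 v2) (vc _)
  rcases (mV τ).1 (mn (V4 v (σ v)) ⟨fun x hx g => by
      rwa [comm_V4 (vc g) (c1 vc g) hx, mul_inv_cancel_right]⟩
    (fun x hx => (V4_le (X := (V4 v (σ v)).comap σ) s_V4 ((mV _).2 (by simp [e]))) hx)
    fun c => n (by rw [mem_bot.1 (c ▸ t_V4 : v ∈ ⊥), map_one])) with c | c | c | c
  · exact t1 c
  · exact n (c ▸ st)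
  · exact n1 (c ▸ st)
  · exact n2 (by rw [e, ← c, st])

theorem ab (hK : IsPGroup 2 K) (h3 : ∀ x, σ (σ (σ x)) = x) (t1 : τ ≠ 1) (st : σ τ = τ)
    (fx : ∀ x, σ x = x → x = 1 ∨ x = τ)
    (mn : ∀ N : Subgroup K, N.Normal → (∀ n ∈ N, σ n ∈ N) → N ≠ ⊥ → τ ∈ N) :
    (∀ g, g * τ = τ * g) ∧
      (Nat.card K ≤ 8 → (∀ x, x = 1 ∨ x = τ) ∨ (Nat.card K = 8 ∧ ∃ p, p * p = τ)) := by
  classical
  constructor
  · obtain ⟨y, -, y2, y1, yc⟩ := exists_inv_cent (P := ⊤) (W := ⊤) (hK.to_subgroup ⊤) le_rfl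
      (fun _ _ _ _ => mem_top _) fun e => t1 (mem_bot.1 (e ▸ mem_top τ))
    exact (cen h3 t1 st fx mn y2 fun g => yc g (mem_top g)).resolve_left y1 ▸ fun g => yc g (mem_top g)
  intro h8
  by_cases ha : ∀ x : K, x * x = 1
  · exact Or.inl fun x => cen h3 t1 st fx mn (ha x) fun g => comm_of_sq (ha g) (ha x) (ha _)
  right
  have := Fintype.ofFinite K
  have : Fact (Nat.Prime 3) := ⟨Nat.prime_three⟩
  have hm := Equiv.Perm.card_fixedPoints_modEq (f := (⇑σ : Function.End K)) (p := 3) (n := 1)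
    (funext h3)
  have e2 : Fintype.card (Function.fixedPoints (⇑σ : Function.End K)) = 2 := by
    rw [← Nat.card_eq_fintype_card, Nat.card_eq_two_iff]
    refine ⟨⟨1, map_one σ⟩, ⟨τ, st⟩, fun e => t1 (congrArg Subtype.val e).symm, ?_⟩
    refine Set.eq_univ_of_forall fun x => (fx x x.2).imp Subtype.ext Subtype.ext
  rw [e2, ← Nat.card_eq_fintype_card] at hm
  obtain ⟨n, hn⟩ := hK.exists_card_eq
  obtain ⟨q, hq⟩ := not_forall.1 ha
  have c8 : Nat.card K = 8 := by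
    have n3 : n ≤ 3 := (Nat.pow_le_pow_iff_right (by decide)).1 (hn.ge.trans h8 : 2 ^ n ≤ 2 ^ 3)
    rw [hn] at hm ⊢
    interval_cases n
    · exact absurd hm (by decide)
    · exact absurd (by rw [← pow_two]; exact (hn ▸ pow_card_eq_one' : q ^ 2 ^ 1 = 1)) hq
    · exact absurd hm (by decide)
    · rfl
  obtain ⟨p, p2, p4⟩ : ∃ p : K, p ^ 2 ≠ 1 ∧ p ^ 4 = 1 := by
    by_cases h4 : q ^ 4 = 1
    · exact ⟨q, by rwa [pow_two], h4⟩
    · exact ⟨q ^ 2, by rwa [← pow_mul], by rw [← pow_mul]; exact (c8 ▸ pow_card_eq_one' : q ^ 8 = 1)⟩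
  have o : orderOf p = 4 := orderOf_eq_prime_pow (p := 2) (n := 1) p2 p4
  have i2 : (zpowers p).index = 2 := by
    have := (zpowers p).card_mul_index
    rw [Nat.card_zpowers, o, c8] at this
    omega
  have pp : p * p * (p * p) = 1 := by rw [← p4]; simp [pow_succ, mul_assoc]
  refine ⟨c8, p, (cen h3 t1 st fx mn pp fun g => comm_of_cj ?_).resolve_left (by rwa [← pow_two])⟩
  obtain ⟨k, hk⟩ := mem_zpowers_iff.1 ((normal_of_index_eq_two i2).conj_mem p (mem_zpowers p) g)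
  have m : g * (p * p) * g⁻¹ ∈ zpowers (p * p) := ⟨k, by
    change (p * p) ^ k = _
    rw [(Commute.refl p).mul_zpow, hk]; group⟩
  exact ((mem_zt pp).1 m).resolve_left (cj_ne_one (by rwa [← pow_two]) g)

end L1

theorem l1 {P : Subgroup G} {ρ t : G} (hP : IsPGroup 2 P) (r3 : ρ * ρ * ρ = 1) (nP : Nm ρ P) (tP : t ∈ P)
    (t2 : t * t = 1) (t1 : t ≠ 1) (rt : ρ * t = t * ρ) (fx : ∀ p ∈ P, ρ * p = p * ρ → p = 1 ∨ p = t)
    (c8 : Nat.card (Cn P t) ≤ 8) (sq : ∀ p ∈ P, p * p ≠ t) : ∃ A ≤ P, Le2 A P ∧ t ∉ A ∧ Nm ρ A := by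
  classical
  obtain ⟨A, ⟨AP, nn, nA, tA⟩, mx⟩ := (Set.toFinite {A : Subgroup G | A ≤ P ∧ (∀ p ∈ P, Nm p A) ∧
    Nm ρ A ∧ t ∉ A}).exists_maximal ⟨⊥, bot_le, fun p _ d hd => by simp [mem_bot.1 hd],
      fun d hd => by simp [mem_bot.1 hd], fun e => t1 (mem_bot.1 e)⟩
  have hn : (A.subgroupOf P).Normal := ⟨fun n hn g => nn g g.2 n hn⟩
  let s : P →* P :=
    { toFun := fun d => ⟨ρ * d * ρ⁻¹, nP d d.2⟩
      map_one' := Subtype.ext (by simp)
      map_mul' := fun a b => Subtype.ext (by simp [mul_assoc]) }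
  let π := QuotientGroup.mk' (A.subgroupOf P)
  let σ : P ⧸ A.subgroupOf P →* P ⧸ A.subgroupOf P := QuotientGroup.map _ _ s fun n hn => nA n hn
  have hs : ∀ d : P, σ (π d) = π (s d) := fun d => rfl
  have key : ∀ a b : P, π a = π b ↔ (a * (b : G)⁻¹ : G) ∈ A := fun a b => by
    rw [← mul_inv_eq_one, ← map_inv, ← map_mul]
    exact QuotientGroup.eq_one_iff _
  have k1 : ∀ a : P, π a = 1 ↔ (a : G) ∈ A := fun a => QuotientGroup.eq_one_iff _
  have su := QuotientGroup.mk'_surjective (A.subgroupOf P)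
  obtain ⟨h1, h2⟩ := L1.ab (σ := σ) (τ := π ⟨t, tP⟩) (hP.to_quotient _)
    (fun g => by
      obtain ⟨d, rfl⟩ := su g
      exact congrArg π (Subtype.ext (cj3 r3 d)))
    (fun e => tA ((k1 _).1 e)) (congrArg π (Subtype.ext (cj_eq rt)))
    (fun g hg => by
      obtain ⟨d, rfl⟩ := su g
      obtain ⟨n, hn, e⟩ := exists_fix_coset (hP.to_le AP) r3 nA ((key _ _).1 hg)
      refine (fx _ (mul_mem (AP hn) d.2) e).imp (fun c => (k1 _).2 ?_) fun c => (key _ _).2 ?_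
      · exact (mul_mem_cancel_left hn).1 (c ▸ one_mem _)
      · change (d : G) * t⁻¹ ∈ A
        rw [← c, mul_inv_rev, mul_inv_cancel_left]
        exact inv_mem hn)
    (fun N hN hσ N0 => by
      by_contra hc
      have l := mx (y := (N.comap π).map P.subtype) ⟨map_subtype_le _, fun p hp => by
          rintro _ ⟨d, hd, rfl⟩
          exact ⟨_, (hN.comap π).conj_mem d hd ⟨p, hp⟩, rfl⟩, by
          rintro _ ⟨d, hd, rfl⟩
          exact ⟨s d, hσ _ hd, rfl⟩, by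
          rintro ⟨d, hd, e⟩
          exact hc ((Subtype.ext e : d = ⟨t, tP⟩) ▸ hd)⟩
        fun a ha => ⟨⟨a, AP ha⟩, by
          change π _ ∈ N
          rw [(k1 _).2 ha]
          exact one_mem _, rfl⟩
      refine N0 (eq_bot_iff.2 fun g hg => ?_)
      obtain ⟨d, rfl⟩ := su g
      exact (k1 d).2 (l ⟨d, hg, rfl⟩))
  have := Fintype.ofFinite P
  have := Fintype.ofFinite A
  let f : P → A := fun p => ⟨p * t * (p : G)⁻¹ * t⁻¹, (key (p * ⟨t, tP⟩ * p⁻¹) ⟨t, tP⟩).1 (by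
    rw [map_mul, map_mul, h1, map_inv, mul_inv_cancel_right])⟩
  have b1 : Nat.card P ≤ 8 * (Finset.univ.image f).card := by
    rw [Nat.card_eq_fintype_card, ← Finset.card_univ]
    refine Finset.card_le_mul_card_image _ _ fun b hb => ?_
    obtain ⟨q, -, rfl⟩ := Finset.mem_image.1 hb
    rw [← Fintype.card_subtype, ← Nat.card_eq_fintype_card]
    refine (Nat.card_le_card_of_injective (β := Cn P t)
      (fun p => ⟨(q : G)⁻¹ * p.1, mem_Cn.2 ⟨mul_mem (inv_mem q.2) p.1.2, comm_of_cj ?_⟩⟩)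
      fun p p' e => Subtype.ext (Subtype.ext (mul_left_cancel (congrArg Subtype.val e)))).trans c8
    have e := mul_right_cancel (congrArg Subtype.val p.2)
    calc _ = (q : G)⁻¹ * (p.1 * t * (p.1 : G)⁻¹) * q := by group
      _ = t := by rw [e]; group
  have b2 : (Finset.univ.image f).card ≤ Nat.card A := by
    rw [Nat.card_eq_fintype_card]
    exact Finset.card_le_univ _
  have b3 : Nat.card P = Nat.card (P ⧸ A.subgroupOf P) * Nat.card A := by
    rw [card_eq_card_quotient_mul_card_subgroup (A.subgroupOf P),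
      Nat.card_congr (subgroupOfEquivOfLe AP).toEquiv]
  have a0 : 0 < Nat.card A := Nat.card_pos
  rcases h2 (Nat.le_of_mul_le_mul_right (b3.ge.trans (b1.trans (Nat.mul_le_mul_left 8 b2))) a0) with
    c | ⟨c, p, hp⟩
  · refine ⟨A, AP, fun x hx y hy h3 h4 => (k1 (⟨x, hx⟩ * ⟨y, hy⟩)).1 ?_, tA, nA⟩
    rw [map_mul, (c _).resolve_left fun e => h3 ((k1 ⟨x, hx⟩).1 e),
      (c (π ⟨y, hy⟩)).resolve_left fun e => h4 ((k1 ⟨y, hy⟩).1 e), ← map_mul]
    exact (k1 _).2 (by change t * t ∈ A; rw [t2]; exact one_mem _)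
  · obtain ⟨p, rfl⟩ := su p
    have u : Finset.univ.image f = Finset.univ := Finset.eq_univ_of_card _ (by
      rw [← Nat.card_eq_fintype_card]
      rw [c] at b3
      omega)
    obtain ⟨r, -, e⟩ := Finset.mem_image.1 (u ▸ Finset.mem_univ
      (⟨_, (key (p * p) ⟨t, tP⟩).1 ((map_mul π p p).trans hp)⟩ : A))
    have e1 : (r * t * (r : G)⁻¹ : G) = p * p := mul_right_cancel (congrArg Subtype.val e)
    refine absurd ?_ (sq ((r : G)⁻¹ * p * r) (mul_mem (mul_mem (inv_mem r.2) p.2) r.2))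
    calc _ = (r : G)⁻¹ * (p * p) * r := by group
      _ = t := by rw [← e1]; group

end H58.ME
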