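import Mathlib
import Cfsg.Agent.Lib.M11T.KL
import Cfsg.Agent.Lib.M11T.L1
import Cfsg.Agent.Lib.BG47.Pre

/-! The invariant Sylow 2-subgroup of the centraliser of the four-group `F`. -/

set_option autoImplicit false
set_option linter.unusedSectionVars false
set_option linter.unusedVariables false

namespace H58.ME

open Subgroup H70 H50.SC6

variable {G : Type*} [Group G] [Finite G]

namespace PA

variable {a i z t g h z1 γ j : G} (H : Hy a i z t g h) (f : FD z t z1 γ j)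
include H f

theorem z12 : z1 * z1 = 1 := f.γz ▸ sq_cj H.z2 γ
theorem z11 : z1 ≠ 1 := f.γz ▸ cj_ne_one H.z1 γ
theorem z1t : z1 * t = t * z1 := by
  have := comm_cj H.zt γ
  rwa [f.γz, cj_eq f.γt] at this
theorem γzz : γ * (z1 * z) * γ⁻¹ = z := by
  calc _ = γ * z1 * γ⁻¹ * (γ * z * γ⁻¹) := by group
    _ = z := by rw [f.γz, f.γz1, mul_assoc, z12 H f, mul_one]
theorem z1z : z1 ≠ z := fun e => by
  have h1 := f.γz1
  rw [e, H.z2] at h1
  exact cj_ne_one H.z1 γ h1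
theorem mF {x : G} : x ∈ V4 z z1 ↔ x = 1 ∨ x = z ∨ x = z1 ∨ x = z1 * z :=
  V4_cases H.z2 (z12 H f) f.zz1.symm
theorem nTF {x : G} (hx : x ∈ V4 z z1) : ¬ Tc t x := fun c => by
  rcases (mF H f).1 hx with rfl | rfl | rfl | rfl
  · exact c.ne_one H.t1 rfl
  · exact f.nT c
  · exact f.nT (Tc.of_cj (c := γ) (f.γz.symm ▸ c))
  · exact f.nT (c.of_eq (γzz H f))
theorem nγF : Nm γ (V4 z z1) := nm_V4 H.z2 (z12 H f) f.zz1.symm (f.γz ▸ s_V4)
  (f.γz1 ▸ mul_mem t_V4 s_V4)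

/-- an element acting like an element of order three without fixed points on `F` -/
theorem act {u : G} (nu : Nm u (V4 z z1)) (fx : ∀ x ∈ V4 z z1, u * x * u⁻¹ = x → x = 1) :
    (γ⁻¹ * u * z = z * (γ⁻¹ * u) ∧ γ⁻¹ * u * z1 = z1 * (γ⁻¹ * u)) ∨
      (γ * u * z = z * (γ * u) ∧ γ * u * z1 = z1 * (γ * u)) := by
  have k : ∀ {c x y : G}, u * x * u⁻¹ = y → c * y * c⁻¹ = x → c * u * x = x * (c * u) :=
    fun {c x y} h1 h2 => comm_of_cj (by rw [← h2, ← h1]; nth_rewrite 1 [h1, h2]; group)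
  have k' : ∀ {x y : G}, γ * x * γ⁻¹ = y → γ⁻¹ * y * γ⁻¹⁻¹ = x := fun h => by rw [← h]; group
  have n1 : u * z * u⁻¹ ≠ u * z1 * u⁻¹ := cj_ne (z1z H f).symm u
  rcases (mF H f).1 (nu z t_V4) with e | e | e | e
  · exact absurd e (cj_ne_one H.z1 u)
  · exact absurd (fx z t_V4 e) H.z1
  · rcases (mF H f).1 (nu z1 s_V4) with e' | e' | e' | e'
    · exact absurd e' (cj_ne_one (z11 H f) u)
    · refine absurd (fx (z * z1) (mul_mem t_V4 s_V4) ?_) fun c => z1z H f ?_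
      · calc _ = u * z * u⁻¹ * (u * z1 * u⁻¹) := by group
          _ = _ := by rw [e, e', f.zz1]
      · rw [eq_inv_of_mul_eq_one_right c, inv_self H.z2]
    · exact absurd (e.trans e'.symm) n1
    · exact Or.inl ⟨k e (k' f.γz), k e' (k' (f.γz1.trans f.zz1))⟩
  · rcases (mF H f).1 (nu z1 s_V4) with e' | e' | e' | e'
    · exact absurd e' (cj_ne_one (z11 H f) u)
    · exact Or.inr ⟨k e (γzz H f), k e' f.γz⟩
    · exact absurd (fx z1 s_V4 e') (z11 H f)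
    · exact absurd (e.trans e'.symm) n1

theorem noT {A : Subgroup G} (fp : FP A ⊥ γ) (Az : ∀ p ∈ A, p * z = z * p)
    (Az1 : ∀ p ∈ A, p * z1 = z1 * p) {s : G} (hs : s ∈ A) : ¬ Tc t s := fun c => by
  have s2 := c.sq H.t2
  have hs1 := fp.nD s hs
  have e := mem_bot.1 (fp.norm hs)
  set s1 := γ * s * γ⁻¹ with h1
  have s12 : s1 * s1 = 1 := sq_cj s2 γ
  have e1 : s * s1 = γ * s1 * γ⁻¹ := by
    rw [eq_inv_of_mul_eq_one_left e, inv_self (sq_cj s12 γ)]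
  have cm : s * s1 = s1 * s := comm_of_sq s2 s12 (e1 ▸ sq_cj s12 γ)
  have mW := fun x => mem_W8 (x := x) H.z2 (z12 H f) s2 f.zz1.symm (Az s hs) (Az1 s hs)
  have cW : ∀ x ∈ W8 z z1 s, s1 * x = x * s1 := fun x hx =>
    comm_W8 (Az s1 hs1) (Az1 s1 hs1) cm.symm hx
  have nW : Nm s1 (W8 z z1 s) := fun d hd => by rwa [cj_eq (cW d hd)]
  have qW := fun x => sq_W8 (x := x) H.z2 (z12 H f) s2 f.zz1.symm (Az s hs) (Az1 s hs)
  have c8 : Nat.card (W8 z z1 s) = 8 := by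
    rw [W8, card_sup2 (fun d hd => by rwa [cj_eq (comm_V4 (Az s hs) (Az1 s hs) hd)]) (s2 ▸ one_mem _)
      fun e => nTF H f e c, card_V4 H.z2 (z12 H f) f.zz1.symm H.z1 (z11 H f) (z1z H f)]
  have c16 := card_sup2 nW (s12 ▸ one_mem _) fun e => ((mW s1).1 e).elim
    (fun e => nTF H f e (c.cj γ)) fun e => nTF H f e (by rw [← cm, e1]; exact (c.cj γ).cj γ)
  have := f.r3.tc c (W8 z z1 s ⊔ zpowers s1) (fun y hy => by
    rcases (mem_sup2 nW (s12 ▸ one_mem _)).1 hy with m | m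
    · exact qW y m
    · have := sq_of_comm (qW _ m) s12 (cW _ m).symm
      rwa [mul_assoc y, s12, mul_one] at this) fun y hy => mem_centralizer_singleton_iff.1
    (sup_le (W8_le (X := centralizer {s}) (mem_centralizer_singleton_iff.2 (Az s hs).symm)
      (mem_centralizer_singleton_iff.2 (Az1 s hs).symm) (mem_centralizer_singleton_iff.2 rfl))
      (zpowers_le.2 (mem_centralizer_singleton_iff.2 cm.symm)) hy)
  omega

end PA

open PA in
theorem Hy.pa {a i z t g h : G} (H : Hy a i z t g h) {z1 γ j : G} (f : FD z t z1 γ j) :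
    ∃ b P A, PD z t z1 γ b P A := by
  have z12 := z12 H f
  have z1t := z1t H f
  set K : Subgroup G := centralizer {z} ⊓ centralizer {z1} with hK
  have mK : ∀ {x}, x ∈ K ↔ x * z = z * x ∧ x * z1 = z1 * x := by
    intro x
    rw [hK, mem_inf, mem_centralizer_singleton_iff, mem_centralizer_singleton_iff]
  have nK : ∀ {n}, Nm n (V4 z z1) → Nm n K := fun {n} hn k hk => by
    have c : ∀ x ∈ V4 z z1, n * k * n⁻¹ * x = x * (n * k * n⁻¹) := fun x hx => by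
      have := comm_cj (comm_V4 (mK.1 hk).1 (mK.1 hk).2 (hn.inv x hx)) n
      rwa [show n * (n⁻¹ * x * n⁻¹⁻¹) * n⁻¹ = x by group] at this
    exact mK.2 ⟨c z t_V4, c z1 s_V4⟩
  have mR := fun x => mem_W8 (x := x) H.z2 z12 H.t2 f.zz1.symm H.zt.symm z1t.symm
  have qR := fun x => sq_W8 (x := x) H.z2 z12 H.t2 f.zz1.symm H.zt.symm z1t.symm
  have pR := pg_W8 H.z2 z12 H.t2 f.zz1.symm H.zt.symm z1t.symm
  have tF : Nm t (V4 z z1) := fun d hd => by rwa [cj_eq (comm_V4 H.zt.symm z1t.symm hd)]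
  have RK : W8 z z1 t ≤ K := W8_le (mK.2 ⟨rfl, f.zz1⟩) (mK.2 ⟨f.zz1.symm, rfl⟩)
    (mK.2 ⟨H.zt.symm, z1t.symm⟩)
  have nR : ∀ {n}, Nm n (V4 z z1) → n * t * n⁻¹ ∈ W8 z z1 t → Nm n (W8 z z1 t) := fun hn ht =>
    nm_sup tF (H.t2 ▸ one_mem _) (fun a ha => V4_W8 (hn a ha)) ht
  obtain ⟨P, hP, RP, γP⟩ := H47.exists_invariant_isSylowIn_ge (p := 2) (A := zpowers γ) (K := K)
    (zpowers_le.2 (nK (nγF H f)).norm) (by
      rw [Nat.card_zpowers, ord3 f.γ3 f.γ1, Nat.prime_three.coprime_iff_not_dvd]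
      intro hd
      obtain ⟨x, hx⟩ := exists_prime_orderOf_dvd_card' (G := K) 3 hd
      exact H.sm.not_dvd H.z2 z12 H.z1 (z11 H f) (z1z H f).symm f.zz1 (mK.1 x.2).1 (mK.1 x.2).2
        (by rw [Subgroup.orderOf_coe, hx])) (Or.inl inferInstance) RK pR
    (zpowers_le.2 (nR (nγF H f) (by rw [cj_eq f.γt]; exact s1_W8)).norm)
  have nP : Nm γ P := .of_norm (γP (mem_zpowers γ))
  have tP : t ∈ P := RP s1_W8
  have FP' : V4 z z1 ≤ P := V4_W8.trans RP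
  have Pz := fun p (hp : p ∈ P) => (mK.1 (hP.le hp)).1
  have Pz1 := fun p (hp : p ∈ P) => (mK.1 (hP.le hp)).2
  have fx : ∀ p ∈ P, γ * p = p * γ → p = 1 ∨ p = t := fun p hp c =>
    H.sm.fix f.γ3 f.γ1 hP.isP tP H.t1 f.γt hp c
  obtain ⟨A, AP, le2, tA, nA⟩ := l1 hP.isP f.γ3 nP tP H.t2 H.t1 f.γt fx
    ((card_le_of_le fun x hx => f.cF x (mem_Cn.1 hx).2 (Pz x hx.1) (Pz1 x hx.1)).trans
      (card_W8_le H.z2 z12 H.t2 f.zz1.symm H.zt.symm z1t.symm))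
    fun p hp e => H.t1 (e.symm.trans (qR p (f.cF p (by rw [← e, mul_assoc]) (Pz p hp) (Pz1 p hp))))
  have fp : ∀ {X : Subgroup G}, X ≤ P → Nm γ X → t ∉ X → FP X ⊥ γ := fun XP nX tX =>
    .of_fix f.γ3 nX (fun d hd => by simp [mem_bot.1 hd]) (fun _ _ d hd => by simp [mem_bot.1 hd])
      IsPGroup.of_bot bot_le fun x hx c => mem_bot.2 ((fx x (XP hx) c).resolve_right fun e => tX (e ▸ hx))
  have FA : V4 z z1 ≤ A := (fp FP' (nγF H f) fun e => nTF H f e .rfl').le_of_le2 nA bot_le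
    (le2.mono_right FP')
  obtain ⟨n, nP', nt⟩ : ∃ n ∈ P, n * t * n⁻¹ = t * z := by
    have jF : Nm j (V4 z z1) := fun d hd => by rwa [cj_eq (comm_V4 f.jz f.jz1 hd)]
    have jR := nR jF (f.jt ▸ mul_mem s1_W8 (V4_W8 t_V4))
    have jj : j * j ∈ W8 z z1 t := f.cF _ (comm_of_cj (by
        calc _ = j * (j * t * j⁻¹) * j⁻¹ := by group
          _ = j * t * j⁻¹ * (j * z * j⁻¹) := by rw [f.jt]; nth_rewrite 2 [← f.jt]; group
          _ = t := by rw [f.jt, cj_eq f.jz, mul_assoc, H.z2, mul_one]))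
      (Commute.mul_left f.jz f.jz) (Commute.mul_left f.jz1 f.jz1)
    have lt : W8 z z1 t < P := RP.lt_of_ne fun e => by
      have := hP.max (W8 z z1 t ⊔ zpowers j) (e.ge.trans le_sup_left)
        (sup_le RK (zpowers_le.2 (mK.2 ⟨f.jz, f.jz1⟩))) (pg_sup pR jR (.of_mul_self (.of_sq (qR _ jj))))
      have c := comm_W8 H.zt.symm z1t.symm rfl (e.ge (this.le (mem_sup_right (mem_zpowers j))))
      exact H.z1 (left_eq_mul.1 ((cj_eq c.symm).symm.trans f.jt))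
    obtain ⟨n, hn, hn'⟩ := SetLike.exists_of_lt (H69.lt_inf_normalizer_of_lt hP.isP lt)
    have st : ∀ x : G, (∃ n ∈ P, n * t * n⁻¹ = t * x) → ∃ n ∈ P, n * t * n⁻¹ = t * (γ * x * γ⁻¹) := by
      rintro x ⟨n, hn, e⟩
      refine ⟨_, nP n hn, ?_⟩
      calc _ = γ * (n * (γ⁻¹ * t * γ) * n⁻¹) * γ⁻¹ := by group
        _ = γ * t * γ⁻¹ * (γ * x * γ⁻¹) := by
          rw [mul_assoc γ⁻¹, ← f.γt, inv_mul_cancel_left, e]; group
        _ = _ := by rw [cj_eq f.γt]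
    have m := ((mR _).1 (Nm.of_norm hn.2 t s1_W8)).resolve_left fun e => nTF H f e (Tc.rfl'.cj n)
    have e0 : ∃ n' ∈ P, n' * t * n'⁻¹ = t * (n * t * n⁻¹ * t) := ⟨n, hn.1, by
      rw [comm_V4 H.zt.symm z1t.symm m, mul_assoc _ t t, H.t2, mul_one]⟩
    rcases (mF H f).1 m with e | e | e | e
    · exact absurd (f.cF n (comm_of_cj (by rw [eq_inv_of_mul_eq_one_left e, inv_self H.t2]))
        (Pz n hn.1) (Pz1 n hn.1)) hn'
    · rwa [e] at e0
    · have := st _ (st _ e0)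
      rwa [e, f.γz1, f.zz1, γzz H f] at this
    · have := st _ e0
      rwa [e, γzz H f] at this
  obtain ⟨b, bA, bt⟩ : ∃ b ∈ A, b * t * b⁻¹ = t * z := by
    by_cases m : n ∈ A
    · exact ⟨n, m, nt⟩
    · exact ⟨n * t, le2 n nP' t tP m tA, by rw [← nt]; group⟩
  refine ⟨b, P, A, hP.isP, Pz, Pz1, tP, fun Y hY l h1 h2 =>
    (hP.max Y l (fun y hy => mK.2 ⟨h1 y hy, h2 y hy⟩) hY).le, nP, AP, le2, tA, FA t_V4, FA s_V4,
    fp AP nA tA, bA, bt, fun s hs => noT H f (fp AP nA tA) (fun p hp => Pz p (AP hp))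
      (fun p hp => Pz1 p (AP hp)) hs, fun n hn => ?_⟩
  obtain ⟨c, hc, n', hn', rfl⟩ := hP.frattini (nK hn).norm
  have cF : Nm c (V4 z z1) := fun d hd => by rwa [cj_eq (comm_V4 (mK.1 hc).1 (mK.1 hc).2 hd)]
  have n'F : Nm n' (V4 z z1) := by simpa using cF.inv.mul hn
  have γN := γP (mem_zpowers γ)
  have uN : n' * γ * n'⁻¹ ∈ normalizer (P : Set G) := mul_mem (mul_mem hn' γN) (inv_mem hn')
  have uL : n' * γ * n'⁻¹ ∈ zpowers γ ⊔ K ⊓ normalizer (P : Set G) := by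
    have γL : γ ∈ zpowers γ ⊔ K ⊓ normalizer (P : Set G) := mem_sup_left (mem_zpowers γ)
    rcases act H f ((n'F.mul (nγF H f)).mul n'F.inv) (fun x hx e => by
      have m := n'F.inv x hx
      have := (fx _ (FP' m) (comm_of_cj (by nth_rewrite 2 [← e]; group))).resolve_right
        fun c => nTF H f (c ▸ m) .rfl'
      by_contra x1
      exact cj_ne_one x1 _ this) with e | e
    · exact (mul_mem_cancel_left (inv_mem γL)).1
        (mem_sup_right (mem_inf.2 ⟨mK.2 e, mul_mem (inv_mem γN) uN⟩))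
    · exact (mul_mem_cancel_left γL).1 (mem_sup_right ⟨mK.2 e, mul_mem γN uN⟩)
  obtain ⟨k, hk, e⟩ := H.conj3 (L := zpowers γ ⊔ K ⊓ normalizer (P : Set G)) hP.isP
    (fun e => H.t1 (mem_bot.1 (e ▸ tP))) (fun n hn => .of_norm (sup_le γP inf_le_right hn)) uL
    (mem_sup_left (mem_zpowers γ))
    (by rw [show n' * γ * n'⁻¹ * (n' * γ * n'⁻¹) * (n' * γ * n'⁻¹) = n' * (γ * γ * γ) * n'⁻¹ by group,
      f.γ3]; group) (cj_ne_one f.γ1 n') f.γ3 f.γ1
  obtain ⟨u, hu, c', hc', rfl⟩ := (H69.mem_sup_of_le_normalizer_right (H69.le_normalizer_inf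
    (zpowers_le.2 (nK (nγF H f)).norm) (γP.trans le_normalizer))).1 hk
  have uγ : Commute u⁻¹ γ := by
    obtain ⟨m, rfl⟩ := mem_zpowers_iff.1 hu
    exact ((Commute.refl γ).zpow_left m).inv_left
  have e1 : c' * n' * γ * (c' * n')⁻¹ = u⁻¹ * (u * c' * (n' * γ * n'⁻¹) * (u * c')⁻¹) * u⁻¹⁻¹ := by group
  have e2 : c' * n' * γ * (c' * n')⁻¹ = γ ∨ c' * n' * γ * (c' * n')⁻¹ = γ⁻¹ :=
    e.imp (fun e => by rw [e1, e, cj_eq uγ]) fun e => by rw [e1, e, cj_eq uγ.inv_right]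
  have yP : Nm (c' * n') P := .of_norm (mul_mem hc'.2 hn')
  have cc := mK.1 (mul_mem hc (inv_mem hc'.1))
  refine ⟨c * c'⁻¹, c' * n', cc.1, cc.2, by group, yP, comm_of_cj
    ((fx _ (yP t tP) ?_).resolve_left (cj_ne_one H.t1 _)), e2⟩
  have := comm_cj f.γt (c' * n')
  rcases e2 with e2 | e2 <;> rw [e2] at this
  · exact this
  · exact Commute.inv_left_iff.1 this

end H58.ME
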