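import Mathlib
import Cfsg.Agent.Lib.M11T.PA

/-! Case (ii): `P` is a Sylow subgroup, Thompson transfer. -/

set_option autoImplicit false
set_option linter.unusedSectionVars false
set_option linter.unusedVariables false

namespace H58.ME

open Subgroup H70 H50.SC6

variable {G : Type*} [Group G] [Finite G]

open PA in
theorem Hy.ii5 {a i z t g h : G} (H : Hy a i z t g h) {z1 γ j b : G} {P A : Subgroup G} (f : FD z t z1 γ j)
    (p : PD z t z1 γ b P A) (e : ∀ y, y * t = t * y → y * z = z * y → y * z1 = z1 * y) : False := by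
  have z12 := z12 H f
  have z1t := z1t H f
  have bP := p.AP p.bA
  have Z : ∀ u ∈ P, (∀ q ∈ P, q * u = u * q) → u ∈ V4 z z1 := fun u hu hc => by
    refine ((mem_W8 H.z2 z12 H.t2 f.zz1.symm H.zt.symm z1t.symm).1
      (f.cF u (hc t p.tP).symm (p.Pz u hu) (p.Pz1 u hu))).resolve_right fun m => ?_
    have c := comm_V4 (p.Pz b bP) (p.Pz1 b bP) m
    rw [← mul_assoc, hc b bP, mul_assoc, mul_assoc, mul_right_inj] at c
    exact H.z1 (left_eq_mul.1 ((cj_eq c).symm.trans p.bt))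
  refine H.tr p.pP p.tP p.le2 (fun Y hY l n hn nP => ?_) fun y hy _ => p.noT y hy
  have k : ∀ u ∈ P, (∀ q ∈ P, q * u = u * q) → n * u * n⁻¹ ∈ V4 z z1 := fun u hu hc =>
    Z _ (nP u hu) fun q hq => by
      have := comm_cj (hc _ (nP.inv q hq)) n
      rwa [show n * (n⁻¹ * q * n⁻¹⁻¹) * n⁻¹ = q by group] at this
  have nF : Nm n (V4 z z1) := nm_V4 H.z2 z12 f.zz1.symm (k z (p.AP p.zA) p.Pz)
    (k z1 (p.AP p.z1A) p.Pz1)
  obtain ⟨c, y, c1, c2, rfl, -, yt, -⟩ := p.fr n nF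
  have cF : ∀ d ∈ V4 z z1, c * d * c⁻¹ = d := fun d hd => cj_eq (comm_V4 c1 c2 hd)
  have yF : Nm y (V4 z z1) := by
    simpa using (Nm.inv (g := c) fun d hd => by rwa [cF d hd]).mul nF
  obtain ⟨u, u3, uF, ut, uz⟩ : ∃ u, u * u * u = 1 ∧ Nm u (V4 z z1) ∧ u * t = t * u ∧
      u * (y * z * y⁻¹) * u⁻¹ = z := by
    rcases (mF H f).1 (yF z t_V4) with m | m | m | m <;> rw [m]
    · exact absurd m (cj_ne_one H.z1 y)
    · exact ⟨1, by simp, .one, by simp, by simp⟩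
    · refine ⟨γ * γ, by rw [sq_sq f.γ3, ← mul_assoc, f.γ3], (nγF H f).mul (nγF H f),
        Commute.mul_left f.γt f.γt, ?_⟩
      calc _ = γ * (γ * z1 * γ⁻¹) * γ⁻¹ := by group
        _ = z := by rw [f.γz1, f.zz1, γzz H f]
    · exact ⟨γ, f.γ3, nγF H f, f.γt, γzz H f⟩
  have s1 : u * y * z = z * (u * y) := comm_of_cj (by rw [← uz]; nth_rewrite 1 [uz]; group)
  have s2 := e (u * y) (Commute.mul_left ut yt) s1
  have s3 : ∀ d ∈ V4 z z1, c * y * d * (c * y)⁻¹ = u⁻¹ * d * u⁻¹⁻¹ := fun d hd => by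
    rw [← cF _ (uF.inv d hd)]
    nth_rewrite 2 [← cj_eq (comm_V4 s1 s2 hd)]
    group
  have s4 : ∀ d ∈ V4 z z1, c * y * d = d * (c * y) := fun d hd => by
    by_contra hc
    refine (E2.of_mem hY hn).not_three (three_dvd (fun e => hc (comm_of_cj e)) ?_)
    rw [s3 d hd, s3 _ (uF.inv d hd), s3 _ (uF.inv _ (uF.inv d hd))]
    exact cj3 (by rw [← mul_inv_rev, ← mul_inv_rev, ← mul_assoc, u3, inv_one]) d
  have m : ∀ {w}, (∀ q ∈ P, q * w = w * q) → w ∈ V4 z z1 → ∀ q ∈ P ⊔ zpowers (c * y), q * w = w * q :=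
    fun h1 h2 q hq => mem_centralizer_singleton_iff.1 (sup_le
      (fun q hq => mem_centralizer_singleton_iff.2 (h1 q hq))
      (zpowers_le.2 (mem_centralizer_singleton_iff.2 (s4 _ h2))) hq)
  exact p.mx _ (hY.to_le (sup_le l (zpowers_le.2 hn))) le_sup_left (m p.Pz t_V4) (m p.Pz1 s_V4)
    (mem_sup_right (mem_zpowers _))

end H58.ME
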