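import Mathlib
import Cfsg.Agent.Lib.M11T.HOL

set_option autoImplicit false
set_option linter.unusedSectionVars false
set_option linter.unusedVariables false

namespace H58.ME

open Subgroup H70 H50.SC6

variable {G : Type*} [Group G] [Finite G]

namespace III1

variable {a i z t g h : G} (H : Hy a i z t g h)
include H

theorem cos {y w : G} (w2 : w * w = 1) (m : y * w ∈ V4 t z) :
    y = w ∨ y = t * w ∨ y = z * w ∨ y = z * t * w := by
  have e : y = y * w * w := by rw [mul_assoc, w2, mul_one]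
  rcases (V4_cases H.t2 H.z2 H.zt).1 m with k | k | k | k <;> rw [e, k] <;> simp

/-- the position of the conjugate under `i` -/
theorem loc {w z1 z2 : G} (nT : ¬ Tc t z) (w2 : w * w = 1) (wt : w * t = t * w) (wz : z * w = w * z)
    (nw : ¬ Tc t w) (w1 : w ≠ 1) (w0 : w ≠ z) (n : z1 * z2 * (z1 * z2) ≠ 1)
    (cV : ∀ c, c * t = t * c → c * z = z * c →
      c ∈ V4 t z ∨ c * z1 ∈ V4 t z ∨ c * z2 ∈ V4 t z ∨ c * (z1 * z2) ∈ V4 t z) :
    i * w * i⁻¹ * z1 ∈ V4 t z ∨ i * w * i⁻¹ * z2 ∈ V4 t z := by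
  have yt := comm_cj (show w * (t * z) = t * z * w by rw [← mul_assoc, wt, mul_assoc, ← wz, mul_assoc]) i
  have yz := comm_cj wz.symm i
  rw [H.itz] at yt
  rw [cj_eq H.izc] at yz
  rcases cV _ yt yz with m | m | m | m
  · rcases (V4_cases H.t2 H.z2 H.zt).1 m with k | k | k | k
    · exact (cj_ne_one w1 i k).elim
    · exact (nw (.of_cj (c := i) (by rw [k]; exact .rfl'))).elim
    · exact (cj_ne w0 i (k.trans (cj_eq H.izc).symm)).elim
    · exact (nw (.of_cj (by rw [k, H.zt]; exact H.Ttz))).elim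
  · exact .inl m
  · exact .inr m
  · have := sq_of_comm (sq_cj w2 i) (sq_V4 H.t2 H.z2 H.zt m) (comm_V4 yt yz m)
    rw [← mul_assoc _ _ (z1 * z2), sq_cj w2 i, one_mul] at this
    exact (n this).elim

theorem step {w y : G} (w2 : w * w = 1) (wt : w * t = t * w) (wz : z * w = w * z) (e : i * w * i⁻¹ = y)
    (n : w * y * w⁻¹ = z * y) (bd : Bd t 16) : False := by
  have y2 : y * y = 1 := e ▸ sq_cj w2 i
  have yz : z * y = y * z := by have := comm_cj wz i; rwa [cj_eq H.izc, e] at this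
  have b1 : i * w = y * i := by rw [← e]; group
  have wy : w * y = z * y * w := by rw [← n]; group
  have b2 : i * w * (i * w) = y * z * w := by nth_rewrite 1 [b1]; rw [← H.iz]; group
  have b3 : (i * w) ^ 3 = w * i := by
    rw [pow_three', b2, b1]
    calc _ = y * z * (w * y) * i := by group
      _ = y * (z * z) * y * w * i := by rw [wy]; group
      _ = _ := by rw [H.z2, mul_one, y2, one_mul]
  have b4 : (i * w) ^ 4 = z := by
    rw [pow_succ, b3, mul_assoc, ← mul_assoc i, H.iz, wz, ← mul_assoc, w2, one_mul]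
  refine hol H.no2 (b := i * w) (by rw [show 8 = 4 + 4 from rfl, pow_add, b4, H.z2]) (b4 ▸ H.z1) w2 H.t2 wt
    (by rw [b3]; group) ?_ bd
  rw [pow_succ, b4, ← mul_assoc z, ← H.izc, ← H.ti, ← cj_eq wt.symm]
  nth_rewrite 1 [cj_eq wt.symm]
  group

theorem half {z1 z2 γ : G} (γ3 : γ * γ * γ = 1) (γ1 : γ ≠ 1) (γt : γ * t = t * γ) (γz : γ * z * γ⁻¹ = z1)
    (zz1 : z * z1 = z1 * z) (γz1 : Md t (γ * z1 * γ⁻¹) (z * z1)) (q2 : z2 * z2 = 1) (zz2 : z * z2 = z2 * z)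
    (tz2 : z2 * t = t * z2) (T2 : Tc t (t * z2)) (n : z1 * z2 * z1⁻¹ = z * z2)
    (cV : ∀ c, c * t = t * c → c * z = z * c →
      c ∈ V4 t z ∨ c * z1 ∈ V4 t z ∨ c * z2 ∈ V4 t z ∨ c * (z1 * z2) ∈ V4 t z)
    (bd : Bd t 16) (x4 : X4 t) (r3 : R3 t) : ∃ j, FD z t z1 γ j := by
  have nT := H.nT x4
  have q1 : z1 * z1 = 1 := γz ▸ sq_cj H.z2 γ
  have tz1 : z1 * t = t * z1 := by have := comm_cj H.zt γ; rwa [γz, cj_eq γt] at this
  have U1 : ¬ Tc t z1 := fun k => nT (.of_cj (γz ▸ k))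
  have T1 : Tc t (t * z1) := H.Ttz.of_eq (c := γ) (by rw [← γz, ← cj_eq γt]; nth_rewrite 1 [cj_eq γt]; group)
  have n0 : z1 * z2 = z * z2 * z1 := by rw [← n]; group
  have n' : z2 * z1 * z2⁻¹ = z * z1 := by
    rw [mul_inv_eq_iff_eq_mul, mul_assoc, n0, ← mul_assoc, ← mul_assoc, H.z2, one_mul]
  have nc : z1 * z2 ≠ z2 * z1 := fun k => H.z1 (by simpa [cj_eq k] using n.symm)
  have cj2 : ∀ {u w : G}, u * t = t * u → t * (u * w * u⁻¹) = u * (t * w) * u⁻¹ := fun {u w} k => by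
    rw [← mul_assoc u, k]; group
  have jd : ∃ j, j * z = z * j ∧ j * z1 = z1 * j ∧ j * t * j⁻¹ = t * z := by
    have U := fun k => U1 (.of_cj (c := i) k)
    rcases loc H nT q1 tz1 zz1 U1 (γz ▸ cj_ne_one H.z1 γ)
      (fun k => nT (H.fixT γ3 γ1 H.z2 H.z1 (comm_of_cj (γz.trans k))))
      (fun k => nc (comm_of_sq q1 q2 k)) cV with m | m
    · rcases cos H q1 m with k | k | k | k
      · exact ⟨i, H.izc, comm_of_cj k, H.it⟩
      · exact (U (k ▸ T1)).elim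
      · refine ⟨i * z2, by rw [mul_assoc, ← zz2, ← mul_assoc, H.izc, mul_assoc], comm_of_cj ?_, ?_⟩
        · calc _ = i * (z2 * z1 * z2⁻¹) * i⁻¹ := by group
            _ = i * z * i⁻¹ * (i * z1 * i⁻¹) := by rw [n']; group
            _ = _ := by rw [k, cj_eq H.izc, ← mul_assoc, H.z2, one_mul]
        · rw [← H.it, ← cj_eq tz2]; nth_rewrite 1 [cj_eq tz2]; group
      · exact (U (T1.of_eq (c := z2) (by rw [k, ← cj2 tz2, n', H.zt, mul_assoc]))).elim
    · rcases cos H q2 m with k | k | k | k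
      · exact (step H q1 tz1 zz1 k n bd).elim
      · exact (U (k ▸ T2)).elim
      · refine (step H q1 tz1 zz1 k ?_ bd).elim
        rw [← mul_assoc z1, ← zz1, mul_assoc z, mul_assoc z, n]
      · exact (U (T2.of_eq (c := z1) (by rw [k, ← cj2 tz1, n, H.zt, mul_assoc]))).elim
  obtain ⟨j, j1, j2, j3⟩ := jd
  refine ⟨j, γ3, γ1, γt, γz, γz1.resolve_right fun k => U1 (.of_cj (c := z2) (T1.of_eq (c := γ) ?_)), zz1,
    fun c ct cz c1 => ?_, j1, j2, j3, nT, r3⟩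
  · rw [← cj2 γt, k, n', ← mul_assoc, ← mul_assoc, ← H.zt, mul_assoc z, ← tz1, mul_assoc, mul_assoc, H.t2, mul_one]
  have le : V4 t z ≤ W8 z z1 t := V4_le s1_W8 (V4_W8 t_V4)
  have cm : ∀ d, c * d ∈ V4 t z → z1 * d = d * z1 := fun d m => by
    have := comm_V4 tz1 zz1.symm m
    rwa [← mul_assoc, ← c1, mul_assoc, mul_assoc, mul_right_inj] at this
  rcases cV c ct cz with m | m | m | m
  · exact le m
  · exact (mul_mem_cancel_right (V4_W8 s_V4)).1 (le m)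
  · exact (nc (cm _ m)).elim
  · exact (nc (by simpa [mul_assoc] using cm _ m)).elim

end III1

open III1 in
theorem Hy.iii1 {a i z t g h : G} (H : Hy a i z t g h) {z1 z2 γ δ : G} (c : C3 z t z1 z2 γ δ) :
    ∃ j1 j2, N3 z t z1 z2 γ δ j1 j2 := by
  have nT := H.nT c.x4
  have k : ∀ {w γ : G}, γ * t = t * γ → γ * z * γ⁻¹ = w →
      w * w = 1 ∧ w * t = t * w ∧ ¬ Tc t w ∧ Tc t (t * w) := fun {w γ} γt γz =>
    ⟨γz ▸ sq_cj H.z2 γ, by have := comm_cj H.zt γ; rwa [γz, cj_eq γt] at this, fun k => nT (.of_cj (γz ▸ k)),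
      H.Ttz.of_eq (c := γ) (by rw [← γz, ← cj_eq γt]; nth_rewrite 1 [cj_eq γt]; group)⟩
  obtain ⟨q1, t1, U1, T1⟩ := k c.γt c.γz
  obtain ⟨q2, t2, U2, T2⟩ := k c.δt c.δz
  rcases c.n12 with n | n
  · have e : z2 * z1 = z * (z1 * z2) := by
      rw [show z1 * z2 = z1 * z2 * z1⁻¹ * z1 by group, n, ← mul_assoc, ← mul_assoc, H.z2, one_mul]
    obtain ⟨j1, f1⟩ := half H c.γ3 c.γ1 c.γt c.γz c.zz1 c.γz1 q2 c.zz2 t2 T2 n c.cV c.bd c.x4 c.r3
    obtain ⟨j2, f2⟩ := half H c.δ3 c.δ1 c.δt c.δz c.zz2 c.δz2 q1 c.zz1 t1 T1 (by rw [e]; group)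
      (fun d dt dz => by
        rcases c.cV d dt dz with m | m | m | m
        exacts [.inl m, .inr (.inr (.inl m)), .inr (.inl m), .inr (.inr (.inr (by
          have := mul_mem (s_V4 (t := t) (s := z)) m
          rwa [← mul_assoc, ← dz, mul_assoc, ← e] at this)))]) c.bd c.x4 c.r3
    exact ⟨j1, j2, f1, f2, n, c.cV, c.bd⟩
  exfalso
  have zt2 : z * t * (z * t) = 1 := H.zt ▸ H.tz2
  rw [mul_assoc z, t2, ← mul_assoc z] at n
  have n0 : z1 * z2 = z * t * z2 * z1 := by rw [← n]; group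
  have n' : z2 * z1 * z2⁻¹ = z * t * z1 := by
    rw [mul_inv_eq_iff_eq_mul, mul_assoc, n0, ← mul_assoc, ← mul_assoc, zt2, one_mul]
  have TT : Tc t (z * t * (i * z1 * i⁻¹)) := T1.of_eq (c := i) (by rw [H.zt, ← H.it]; group)
  have fin : ∀ u w : G, w * w = 1 → ¬ Tc t w → Tc t (t * w) → u * t = t * u → u * w * u⁻¹ = z * t * w →
      i * z1 * i⁻¹ * w ∉ V4 t z := fun u w w2 Uw Tw ut e m => by
    rcases cos H w2 m with k | k | k | k
    · exact Uw (.of_cj (c := u) (by rwa [e, ← k]))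
    · exact U1 (.of_cj (c := i) (k ▸ Tw))
    · refine U1 (.of_cj (c := i) (Tw.of_eq (c := u) ?_))
      calc _ = u * t * u⁻¹ * (u * w * u⁻¹) := by group
        _ = _ := by rw [cj_eq ut, e, k, H.zt, ← mul_assoc, ← mul_assoc, H.t2, one_mul]
    · exact Uw (by rwa [k, ← mul_assoc, zt2, one_mul] at TT)
  exact (loc H nT q1 t1 c.zz1 U1 (c.γz ▸ cj_ne_one H.z1 γ)
    (fun k => nT (H.fixT c.γ3 c.γ1 H.z2 H.z1 (comm_of_cj (c.γz.trans k))))
    (fun k => H.tz1 (by simpa [cj_eq (comm_of_sq q1 q2 k), H.zt] using n.symm)) c.cV).elim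
    (fin z2 z1 q1 U1 T1 t2 n') (fin z1 z2 q2 U2 T2 t1 n)

end H58.ME
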