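import Mathlib
import Cfsg.Agent.Lib.M11T.Bas
import Cfsg.Agent.Lib.M11T.PRD

set_option autoImplicit false
set_option linter.unusedSectionVars false
set_option linter.unusedVariables false

namespace H58.ME

open Subgroup H70 H50.SC6

variable {G : Type*} [Group G] [Finite G]

namespace III2
variable {a i z t g h : G} (H : Hy a i z t g h) {z1 γ j : G} (f : FD z t z1 γ j)
include H f

theorem q1 : z1 * z1 = 1 := f.γz ▸ sq_cj H.z2 γ
theorem n1 : z1 ≠ 1 := f.γz ▸ cj_ne_one H.z1 γ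
theorem t1 : z1 * t = t * z1 := by
  have := comm_cj H.zt γ
  rwa [f.γz, cj_eq f.γt] at this
theorem nz : z1 ≠ z := fun e => H.z1 (by
  have := f.γz1
  rw [e, f.γz, e, H.z2] at this
  exact this)
theorem γz2 : γ * (z * z1) * γ⁻¹ = z := by rw [← f.γz1, ← f.γz, cj3 f.γ3]
theorem memF {x : G} : x ∈ V4 z z1 ↔ x = 1 ∨ x = z ∨ x = z1 ∨ x = z * z1 := by
  rw [V4_cases H.z2 (q1 H f) f.zz1.symm, f.zz1]
theorem γF : Nm γ (V4 z z1) :=
  nm_V4 H.z2 (q1 H f) f.zz1.symm (f.γz ▸ s_V4) (f.γz1 ▸ mul_mem t_V4 s_V4)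
theorem nTF {x : G} (hx : x ∈ V4 z z1) : ¬ Tc t x := fun e => by
  rcases (memF H f).1 hx with r | r | r | r <;> rw [r] at e
  · exact e.ne_one H.t1 rfl
  · exact f.nT e
  · exact f.nT (.of_cj (f.γz ▸ e))
  · exact f.nT (e.of_eq (γz2 H f))
theorem γne : γ * z ≠ z * γ := fun e => nz H f (by rw [← f.γz, cj_eq e])
theorem cV1 {v : G} (hv : v ∈ V4 t z) : v * z1 = z1 * v := (comm_V4 (t1 H f) f.zz1.symm hv).symm
theorem memR {x : G} : x ∈ W8 z z1 t ↔ x ∈ V4 z z1 ∨ x * t ∈ V4 z z1 :=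
  mem_W8 H.z2 (q1 H f) H.t2 f.zz1.symm H.zt.symm (t1 H f).symm

variable {b : G} {P A : Subgroup G} (p : PD z t z1 γ b P A)
include p

theorem FA : V4 z z1 ≤ A := V4_le p.zA p.z1A
theorem cF {x y : G} (hx : x ∈ P) (hy : y ∈ V4 z z1) : x * y = y * x := comm_V4 (p.Pz x hx) (p.Pz1 x hx) hy
theorem cA {x : G} (hx : x ∈ A) (e : x * t = t * x) : x ∈ V4 z z1 :=
  ((memR H f).1 (f.cF x e (p.Pz x (p.AP hx)) (p.Pz1 x (p.AP hx)))).resolve_right fun m =>
    p.tA ((mul_mem_cancel_left hx).1 (FA H f p m))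
theorem bF : b ∉ V4 z z1 := fun m => H.z1 (by
  have := p.bt
  rw [cj_eq (cF H f p p.tP m).symm] at this
  exact left_eq_mul.1 this)
theorem nPA {x : G} (hx : x ∈ P) : Nm x A := nm_le2 p.le2 p.AP hx
theorem mA {x : G} (hx : x ∈ P) (n : x ∉ A) : x * t ∈ A := p.le2 x hx t p.tP n p.tA

/-- If `t` is central modulo `F` then `A` is abelian. -/
theorem ab (e : ∀ y ∈ A, y * t * y⁻¹ * t ∈ V4 z z1) {x : G} (hx : x ∈ A) :
    x * (γ * b * γ⁻¹) = γ * b * γ⁻¹ * x := by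
  have bA := p.bA
  have b1A := p.fp.nD b bA
  have c : ∀ u ∈ A, ∀ w ∈ A, u * w = w * u → γ * u * γ⁻¹ * w = w * (γ * u * γ⁻¹) := fun u hu w hw r => by
    have := p.fp.cent hu hw (by rw [r]; simp)
    rw [mem_bot, mul_inv_eq_one] at this
    exact comm_of_cj this
  have k : ∀ u ∈ A, x * t * x⁻¹ = u * t * u⁻¹ → u * (γ * b * γ⁻¹) = γ * b * γ⁻¹ * u →
      x * (γ * b * γ⁻¹) = γ * b * γ⁻¹ * x := fun u hu r s => by
    have m := cA H f p (mul_mem (inv_mem hu) hx) (comm_of_cj (by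
      calc _ = u⁻¹ * (x * t * x⁻¹) * u := by group
        _ = _ := by rw [r]; group))
    have := (show Commute u _ from s).mul_left (cF H f p (p.AP b1A) m).symm
    rwa [mul_inv_cancel_left] at this
  have e1 : γ * b * γ⁻¹ * t * (γ * b * γ⁻¹)⁻¹ = t * z1 := by
    calc _ = γ * (b * (γ⁻¹ * t * γ⁻¹⁻¹) * b⁻¹) * γ⁻¹ := by group
      _ = γ * t * γ⁻¹ * (γ * z * γ⁻¹) := by rw [cj_eq (show Commute γ t from f.γt).inv_left, p.bt]; group
      _ = _ := by rw [cj_eq f.γt, f.γz]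
  have e2 : γ * (γ * b * γ⁻¹) * γ⁻¹ * t * (γ * (γ * b * γ⁻¹) * γ⁻¹)⁻¹ = t * (z * z1) := by
    calc _ = γ * (γ * b * γ⁻¹ * (γ⁻¹ * t * γ⁻¹⁻¹) * (γ * b * γ⁻¹)⁻¹) * γ⁻¹ := by simp [mul_assoc]
      _ = γ * t * γ⁻¹ * (γ * z1 * γ⁻¹) := by rw [cj_eq (show Commute γ t from f.γt).inv_left, e1]; group
      _ = _ := by rw [cj_eq f.γt, f.γz1]
  have r : ∀ u, x * t * x⁻¹ * t = u → u * t = t * u → x * t * x⁻¹ = t * u := fun u r s => by
    rw [← s, ← r, mul_assoc _ t t, H.t2, mul_one]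
  rcases (memF H f).1 (e x hx) with m | m | m | m
  · exact k 1 (one_mem _) (by simpa using r _ m (by simp)) (by simp)
  · exact k b bA ((r _ m H.zt).trans p.bt.symm) (c b bA b bA rfl).symm
  · exact k _ b1A ((r _ m (t1 H f)).trans e1.symm) rfl
  · exact k _ (p.fp.nD _ b1A) ((r _ m ((show Commute z t from H.zt).mul_left (t1 H f))).trans e2.symm)
      (c _ b1A _ b1A rfl)

/-- An element of `P` outside `A` does not have all its commutators in `⟨z⟩`. -/
theorem two {u : G} (hu : u ∈ P) (n : u ∉ A) (e : ∀ y ∈ P, y * u * y⁻¹ * u⁻¹ ∈ zpowers z) : False := by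
  have nn : ∀ d ∈ P, Nm d (V4 z z1) := fun d hd x hx => by rwa [cj_eq (cF H f p hd hx)]
  let Z : Subgroup G := Act P (V4 z z1)
  have FP' : V4 z z1 ≤ P := (FA H f p).trans p.AP
  have mZ : ∀ w ∈ P, w ∈ Z ↔ ∀ y ∈ P, y * w * y⁻¹ * w⁻¹ ∈ V4 z z1 := fun w hw =>
    ⟨fun m y hy => by simpa [mul_assoc] using inv_mem (m.2.2 y hy), fun m => mem_Act FP' fun y hy => by
      simpa [mul_assoc] using inv_mem (m y hy)⟩
  have uZ : u ∈ Z := (mZ u hu).2 fun y hy => zpowers_le.2 t_V4 (e y hy)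
  have nZ : Nm γ Z := nm_Act p.γP (γF H f)
  have n1 : γ * u * γ⁻¹ ∉ A := fun m => n (p.fp.nD.iff.1 m)
  have n2 : γ * (γ * u * γ⁻¹) * γ⁻¹ ∉ A := fun m => n1 (p.fp.nD.iff.1 m)
  have u1 := p.γP u hu
  have u2 := p.γP _ u1
  set w := u * (γ * u * γ⁻¹) * (γ * (γ * u * γ⁻¹) * γ⁻¹) with hw
  have wZ : w ∈ Z := mul_mem (mul_mem uZ (nZ u uZ)) (nZ _ (nZ u uZ))
  have wP : w ∈ P := mul_mem (mul_mem hu u1) u2
  have wA : w ∉ A := fun m => n2 ((mul_mem_cancel_left (p.le2 _ hu _ u1 n n1)).1 m)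
  obtain ⟨m, hm, r⟩ := exists_fix_coset (pg_V4 H.z2 (q1 H f) f.zz1.symm) f.γ3 (γF H f) (x := w) (by
    have := (mZ w wP).1 wZ u⁻¹ (inv_mem hu)
    convert this using 2
    calc _ = γ * u * γ⁻¹ * (γ * (γ * u * γ⁻¹) * γ⁻¹) * (γ * (γ * (γ * u * γ⁻¹) * γ⁻¹) * γ⁻¹) := by
          rw [hw]; group
      _ = _ := by rw [cj3 f.γ3, hw]; group)
  have mt : m * w = t := (H.sm.fix f.γ3 f.γ1 p.pP p.tP H.t1 f.γt (mul_mem (FP' hm) wP) r).resolve_left fun s =>
    wA (by rw [eq_inv_of_mul_eq_one_right s]; exact inv_mem (FA H f p hm))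
  have tZ : t ∈ Z := mt ▸ mul_mem ((mZ m (FP' hm)).2 fun y hy => by rw [cF H f p hy hm]; simp) wZ
  have b1A := p.fp.nD b p.bA
  have c := ab H f p (fun y hy => by simpa [inv_self H.t2] using (mZ t p.tP).1 tZ y (p.AP hy)) (mA H f p hu n)
  have e1 : γ * b * γ⁻¹ * t * (γ * b * γ⁻¹)⁻¹ = t * z1 := by
    calc _ = γ * (b * (γ⁻¹ * t * γ⁻¹⁻¹) * b⁻¹) * γ⁻¹ := by group
      _ = γ * t * γ⁻¹ * (γ * z * γ⁻¹) := by rw [cj_eq (show Commute γ t from f.γt).inv_left, p.bt]; group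
      _ = _ := by rw [cj_eq f.γt, f.γz]
  have := e _ (p.AP b1A)
  rw [show γ * b * γ⁻¹ * u * (γ * b * γ⁻¹)⁻¹ * u⁻¹ = z1 by
    calc _ = γ * b * γ⁻¹ * (u * t) * (γ * b * γ⁻¹)⁻¹ * (γ * b * γ⁻¹ * t * (γ * b * γ⁻¹)⁻¹)⁻¹ * u⁻¹ := by group
      _ = u * z1⁻¹ * u⁻¹ * (u * (t * z1 * (t * z1)⁻¹) * u⁻¹) := by
        rw [cj_eq c.symm, e1, ← t1 H f, mul_inv_cancel, mul_inv_rev]; group
      _ = _ := by rw [inv_self (q1 H f), cj_eq (p.Pz1 u hu)]; group] at this
  exact ((mem_zt H.z2).1 this).elim (III2.n1 H f) (nz H f)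

/-- An involution inverting `γ` does not centralise a subgroup of index two. -/
theorem three {s : G} (sγ : s * γ * s⁻¹ = γ⁻¹) (l : Le2 (Cn A s) A) : False := by
  have l' : Le2 (Cn A (γ * s * γ⁻¹)) A := fun x hx y hy n1 n2 => by
    have k : ∀ u ∈ A, u ∈ Cn A (γ * s * γ⁻¹) ↔ γ⁻¹ * u * γ⁻¹⁻¹ ∈ Cn A s := fun u hu => by
      rw [mem_Cn, mem_Cn]
      exact ⟨fun m => ⟨p.fp.nD.inv u hu, by simpa [mul_assoc] using comm_cj m.2 γ⁻¹⟩,
        fun m => ⟨hu, by simpa [mul_assoc] using comm_cj m.2 γ⟩⟩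
    rw [k _ hx] at n1
    rw [k _ hy] at n2
    rw [k _ (mul_mem hx hy)]
    simpa [mul_assoc] using l _ (p.fp.nD.inv x hx) _ (p.fp.nD.inv y hy) n1 n2
  have h1 := l.card_le
  have h2 := (l'.mono_right (Cn_le : Cn A s ≤ A)).card_le
  have e : Cn A (γ * s * γ⁻¹) ⊓ Cn A s = ⊥ := eq_bot_iff.2 fun u hu => p.fp.fp u (Cn_le hu.2) (by
    have := (show Commute u _ from (mem_Cn.1 hu.1).2).mul_right (show Commute u s from (mem_Cn.1 hu.2).2).inv_right
    rw [show γ * s * γ⁻¹ * s⁻¹ = γ * γ by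
      calc _ = γ * (s * γ * s⁻¹)⁻¹ := by group
        _ = _ := by rw [sγ, inv_inv], ← inv_cube f.γ3] at this
    rw [cj_eq (Commute.inv_right_iff.1 this).symm]; simp)
  rw [e, card_bot] at h2
  rw [inf_eq_left.2 Cn_le] at h1
  have h4 := card_V4 H.z2 (q1 H f) f.zz1.symm H.z1 (n1 H f) (nz H f)
  exact bF H f p ((eq_of_le_of_card_ge (FA H f p) (by omega)).ge p.bA)

end III2

open III2

namespace Hy
variable {a i z t g h : G} (H : Hy a i z t g h) {z1 z2 γ δ j1 j2 b : G} {P A : Subgroup G}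
  (c : N3 z t z1 z2 γ δ j1 j2) (p : PD z t z1 γ b P A)
include H c p

theorem ex_s : ∃ s, (s = z2 ∨ s = z * z2) ∧ s * γ * s⁻¹ = γ⁻¹ ∧ Nm s P ∧ Nm s A := by
  have f := c.f1
  have e21 := (c.symm H).n12
  obtain ⟨d, y, dz, dz1, e, yP, yt, hy⟩ := p.fr z2 (nm_V4 H.z2 (q1 H f) f.zz1.symm
    (by rw [cj_eq c.f2.zz1.symm]; exact t_V4) (e21 ▸ mul_mem t_V4 s_V4))
  have ey : y = d⁻¹ * z2 := by rw [e]; group
  have yz : y * z = z * y := ey ▸ (show Commute d z from dz).inv_left.mul_left c.f2.zz1.symm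
  have y1 : y * z1 * y⁻¹ = z * z1 := by
    calc _ = d⁻¹ * (z2 * z1 * z2⁻¹) * d⁻¹⁻¹ := by rw [ey]; group
      _ = _ := by rw [e21, cj_eq ((show Commute d z from dz).mul_right dz1).inv_left]
  have n1 : y * z1 ≠ z1 * y := fun r => H.z1 (by rw [cj_eq r] at y1; exact right_eq_mul.1 y1)
  have yγ : y * γ * y⁻¹ = γ⁻¹ := hy.resolve_left fun r => n1 (by
    have := comm_cj yz γ
    rwa [f.γz, cj_eq (comm_of_cj r).symm] at this)
  have fin : ∀ s, s * γ * s⁻¹ = γ⁻¹ → Nm s P → Nm s A := fun s sγ sP => by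
    have := p.fp.le_of_le2 (C := A.comap (MulAut.conj s).toMonoidHom) (fun u hu => by
      have := p.fp.nD.inv _ hu
      show s * (γ * u * γ⁻¹) * s⁻¹ ∈ A
      rwa [show s * (γ * u * γ⁻¹) * s⁻¹ = s * γ * s⁻¹ * (s * u * s⁻¹) * (s * γ * s⁻¹)⁻¹ by group, sγ]) bot_le
      fun u hu v hv n1 n2 => by
        have := p.le2 _ (sP u (p.AP hu)) _ (sP v (p.AP hv)) n1 n2
        show s * (u * v) * s⁻¹ ∈ A
        simpa [mul_assoc] using this
    exact fun u hu => this hu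
  have tγ : t * y * γ * (t * y)⁻¹ = γ⁻¹ := by
    calc _ = t * (y * γ * y⁻¹) * t⁻¹ := by group
      _ = _ := by rw [yγ, cj_eq (show Commute t γ from f.γt.symm).inv_right]
  have tP := (Nm.of_mem p.tP).mul yP
  have q2 := q1 H c.f2
  rcases c.cV y yt yz with m | m | m | m
  · exact absurd (cV1 H f m) n1
  · exact absurd (mul_right_cancel (b := z1) (by rw [cV1 H f m, mul_assoc])) n1
  · have k : ∀ v, y * z2 = v → y = v * z2 := fun v r => by rw [← r, mul_assoc, q2, mul_one]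
    rcases (V4_cases H.t2 H.z2 H.zt).1 m with r | r | r | r <;> have r := k _ r
    · exact ⟨y, .inl (by simpa using r), yγ, yP, fin _ yγ yP⟩
    · exact ⟨t * y, .inl (by rw [r, ← mul_assoc, H.t2, one_mul]), tγ, tP, fin _ tγ tP⟩
    · exact ⟨y, .inr r, yγ, yP, fin _ yγ yP⟩
    · exact ⟨t * y, .inr (by rw [r, H.zt, ← mul_assoc, ← mul_assoc, H.t2, one_mul]), tγ, tP, fin _ tγ tP⟩
  · exfalso
    have c12 : Commute (y * (z1 * z2)) (z1 * z2) := (show Commute _ z1 from cV1 H f m).mul_right (cV1 H c.f2 m)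
    have yc : Commute y (z1 * z2) := by
      have := c12.mul_left (Commute.refl (z1 * z2)).inv_left
      rwa [mul_inv_cancel_right] at this
    have s1 := sq_V4 H.t2 H.z2 H.zt m
    have s2 : z1 * z2 * (z1 * z2) = z := by
      calc _ = z1 * z2 * z1⁻¹ * z2 := by rw [inv_self (q1 H f)]; group
        _ = _ := by rw [c.n12, mul_assoc, q2, mul_one]
    have s3 : y * y = z := by
      rw [mul_assoc, ← mul_assoc _ y, ← yc.eq, mul_assoc, s2, ← mul_assoc] at s1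
      rw [eq_inv_of_mul_eq_one_left s1, inv_self H.z2]
    refine γne H f (comm_of_cj ?_).symm
    calc _ = y * (y * γ * y⁻¹) * y⁻¹ := by rw [← s3]; group
      _ = _ := by rw [yγ, ← conj_inv, yγ, inv_inv]

theorem ex_f {s : G} (hs : s = z2 ∨ s = z * z2) (sγ : s * γ * s⁻¹ = γ⁻¹) (sP : Nm s P) (sA : Nm s A) :
    ∃ f ∈ Oz A, f ∉ V4 z z1 := by
  by_contra hc
  push Not at hc
  have f := c.f1
  have e21 := (c.symm H).n12
  have sF : s ∈ V4 z z2 := by rcases hs with r | r <;> rw [r]; exacts [s_V4, mul_mem t_V4 s_V4]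
  have s2 : s * s = 1 := sq_V4 H.z2 (q1 H c.f2) c.f2.zz1.symm sF
  have sz : s * z = z * s := (comm_V4 rfl c.f2.zz1 sF).symm
  have st : s * t = t * s := (comm_V4 H.zt.symm (III2.t1 H c.f2).symm sF).symm
  have s1 : s * z1 * s⁻¹ = z * z1 := by
    rcases hs with r | r <;> rw [r]
    · exact e21
    · calc _ = z * (z2 * z1 * z2⁻¹) * z⁻¹ := by group
        _ = _ := by rw [e21, cj_eq ((Commute.refl z).mul_right f.zz1)]
  have mS : ∀ {x}, x ∈ P ⊔ zpowers s ↔ x ∈ P ∨ x * s ∈ P := mem_sup2 sP (s2 ▸ one_mem _)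
  have mM : ∀ {x}, x ∈ A ⊔ zpowers s ↔ x ∈ A ∨ x * s ∈ A := mem_sup2 sA (s2 ▸ one_mem _)
  have PS : P ≤ P ⊔ zpowers s := le_sup_left
  have sS : s ∈ P ⊔ zpowers s := mem_sup_right (mem_zpowers s)
  have k : ∀ {x v}, x * s = v → x = v * s := fun {x v} r => by rw [← r, mul_assoc, s2, mul_one]
  have Sz : ∀ x ∈ P ⊔ zpowers s, x * z = z * x := fun x hx => by
    rcases mS.1 hx with m | m
    · exact p.Pz x m
    · rw [k (rfl : x * s = _)]; exact (show Commute _ z from p.Pz _ m).mul_left sz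
  have S1 : ∀ x ∈ P ⊔ zpowers s, x * z1 * x⁻¹ * z1⁻¹ ∈ zpowers z := fun x hx => by
    rcases mS.1 hx with m | m
    · rw [cj_eq (p.Pz1 x m)]; simp
    · have : x * z1 * x⁻¹ = z * z1 := by
        calc _ = x * s * (s * z1 * s⁻¹) * (x * s)⁻¹ := by rw [inv_self s2, mul_inv_rev, inv_self s2]; simp [mul_assoc, ← mul_assoc s s, s2]
          _ = _ := by rw [s1, cj_eq ((show Commute _ z from p.Pz _ m).mul_right (p.Pz1 _ m))]
      rw [this]; simp
  refine H.tr (S := P ⊔ zpowers s) (M := A ⊔ zpowers s) (pg_sup p.pP sP (.of_sq s2)) (PS p.tP)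
    (fun x hx y hy n1 n2 => ?_) (fun Y hY SY n hn nS => ?_) fun y hy _ e => ?_
  · rw [mM, not_or] at n1 n2
    rw [mM]
    rcases mS.1 hx with m | m <;> rcases mS.1 hy with m' | m'
    · exact .inl (p.le2 _ m _ m' n1.1 n2.1)
    · exact .inr (by rw [mul_assoc]; exact p.le2 _ m _ m' n1.1 n2.2)
    · refine .inr ?_
      have := p.le2 _ m _ (sP _ m') n1.2 fun r => n2.1 (sA.iff.1 r)
      rwa [inv_self s2, ← mul_assoc, ← mul_assoc, mul_assoc x, s2, mul_one] at this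
    · refine .inl ?_
      have := p.le2 _ m _ (sP _ m') n1.2 fun r => n2.2 (sA.iff.1 r)
      rwa [← mul_assoc, ← mul_assoc, ← mul_assoc, mul_assoc x, s2, mul_one, mul_inv_cancel_right] at this
  · have cn : ∀ x ∈ P ⊔ zpowers s, x * (n * z * n⁻¹) = n * z * n⁻¹ * x := fun x hx => by
      simpa [mul_assoc] using comm_cj (Sz _ (nS.inv x hx)) n
    have z1S := PS (p.AP p.z1A)
    have nz' : n * z * n⁻¹ = z := by
      have n1 : s * z1 ≠ z1 * s := fun r => H.z1 (by rw [cj_eq r] at s1; exact right_eq_mul.1 s1)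
      have c1 := cn _ z1S
      have c2 := cn _ sS
      have V2 : ∀ {v}, v ∈ V4 t z → v * s = s * v := fun hv => (comm_V4 st sz hv).symm
      have n2 : z2 * z1 ≠ z1 * z2 := fun r => H.z1 (by rw [cj_eq r] at e21; exact right_eq_mul.1 e21)
      rcases c.cV _ (cn _ (PS p.tP)).symm (cn _ (PS (p.AP p.zA))).symm with m | m | m | m
      · rcases (V4_cases H.t2 H.z2 H.zt).1 m with r | r | r | r
        · exact absurd r (cj_ne_one H.z1 n)
        · exact absurd (.of_cj (c := n) (by rw [r]; exact .rfl')) f.nT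
        · exact r
        · exact absurd (.of_cj (c := n) (by rw [r, H.zt]; exact H.Ttz)) f.nT
      · have := (show Commute _ s from c2.symm).inv_left.mul_left (V2 m)
        rw [inv_mul_cancel_left] at this
        exact absurd this.symm n1
      · have := (show Commute _ z1 from c1.symm).inv_left.mul_left (cV1 H f m)
        rw [inv_mul_cancel_left] at this
        exact absurd this n2
      · have := (Commute.refl z1).inv_left.mul_left ((show Commute _ z1 from c1.symm).inv_left.mul_left (cV1 H f m))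
        rw [inv_mul_cancel_left, inv_mul_cancel_left] at this
        exact absurd this n2
    have uS := nS _ z1S
    set u := n * z1 * n⁻¹ with hu
    have u2 : u * u = 1 := sq_cj (q1 H f) n
    have Su : ∀ x ∈ P ⊔ zpowers s, x * u * x⁻¹ * u⁻¹ ∈ zpowers z := fun x hx => by
      have := nm_zt H.z2 (comm_of_cj nz') _ (S1 _ (nS.inv x hx))
      simpa [hu, mul_assoc] using this
    have L : Le2 (Cn A u) A := le2_Cn H.z2 (fun x hx => p.Pz x (p.AP hx)) fun x hx =>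
      Md.of_right H.z2 (Sz u uS) (Su x (PS (p.AP hx)))
    have inv : ∀ s', s' * s' = 1 → Nm s' A → s' * γ * s'⁻¹ = γ⁻¹ → u * s' ∉ A := fun s' q nA r m => by
      obtain ⟨k, hk, ek⟩ := cos p.fp q nA r m u2
      refine three H f p r fun x hx y hy n1 n2 => ?_
      have kk : ∀ v ∈ A, v ∈ Cn A s' ↔ k * v * k⁻¹ ∈ Cn A u := fun v hv => by
        rw [mem_Cn, mem_Cn, ← ek]
        exact ⟨fun m => ⟨Nm.of_mem hk v hv, comm_cj m.2 k⟩,
          fun m => ⟨hv, by simpa [mul_assoc] using comm_cj m.2 k⁻¹⟩⟩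
      rw [kk _ hx] at n1
      rw [kk _ hy] at n2
      rw [kk _ (mul_mem hx hy)]
      simpa [mul_assoc] using L _ (Nm.of_mem hk x hx) _ (Nm.of_mem hk y hy) n1 n2
    rcases mS.1 uS with m | m
    · by_cases mA : u ∈ A
      · have fin : ∀ v ∈ Y, v * z = z * v → v * z1 = z1 * v → v ∈ P := fun v hv r1 r2 =>
          p.mx (Y ⊓ (centralizer {z} ⊓ centralizer {z1})) (hY.to_le inf_le_left)
            (fun x hx => ⟨SY (PS hx), mem_centralizer_singleton_iff.2 (p.Pz x hx),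
              mem_centralizer_singleton_iff.2 (p.Pz1 x hx)⟩)
            (fun x hx => mem_centralizer_singleton_iff.1 hx.2.1) (fun x hx => mem_centralizer_singleton_iff.1 hx.2.2)
            ⟨hv, mem_centralizer_singleton_iff.2 r1, mem_centralizer_singleton_iff.2 r2⟩
        rcases (memF H f).1 (hc u ⟨mA, u2, fun q hq => p.fp.comm_of_le2_bot mA L hq⟩) with r | r | r | r
        · exact absurd r (cj_ne_one (n1 H f) n)
        · exact absurd (r.trans nz'.symm) (cj_ne (nz H f) n)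
        · exact PS (fin n hn (comm_of_cj nz') (comm_of_cj r))
        · have := PS (fin (s⁻¹ * n) (mul_mem (inv_mem (SY sS)) hn)
            ((show Commute s z from sz).inv_left.mul_left (comm_of_cj nz')) (comm_of_cj (by
              calc _ = s⁻¹ * u * s := by rw [hu]; group
                _ = _ := by rw [r, ← s1]; group)))
          exact (mul_mem_cancel_left (inv_mem sS)).1 this
      · exact (two H f p m mA fun y hy => Su y (PS hy)).elim
    · by_cases mA : u * s ∈ A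
      · exact absurd mA (inv s s2 sA sγ)
      · refine absurd ?_ (inv (s * t) (sq_of_comm s2 H.t2 st) (sA.mul (nPA H f p p.tP)) (by
          calc _ = s * (t * γ * t⁻¹) * s⁻¹ := by group
            _ = _ := by rw [cj_eq f.γt.symm, sγ]))
        rw [← mul_assoc]
        exact III2.mA H f p m mA
  · rcases mM.1 hy with m | m
    · exact p.noT y m e
    · obtain ⟨k, -, ek⟩ := cos p.fp s2 sA sγ m (e.sq H.t2)
      exact nTF H c.f2 sF (.of_cj (ek ▸ e))

end Hy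

end H58.ME
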