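import Mathlib
import Cfsg.Agent.Lib.M11T.Bas

/-! The final 2-group of order `128` in case (iii) is killed by transfer. -/

set_option autoImplicit false
set_option linter.unusedSectionVars false
set_option linter.unusedVariables false
set_option synthInstance.maxSize 1024

namespace H58.ME

open Subgroup H70 H50.SC6

variable {G : Type*} [Group G] [Finite G]

namespace III4

/-- Exponent vectors. -/
abbrev V := Bool × Bool × Bool × Bool × Bool × Bool × Bool

def lz : V → V | (a, c, p, q, r, s, e) => (!a, c, p, q, r, s, e)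
def lb : V → V | (a, c, p, q, r, s, e) => (a, !c, p, q, r, s, e)
def l1 : V → V | (a, c, p, q, r, s, e) => (a, c, !p, q, r, s, e)
def lb1 : V → V | (a, c, p, q, r, s, e) => (a, c, p, !q, r, s, e)
def l2 : V → V | (a, c, p, q, r, s, e) => (xor a p, xor c q, p, q, !r, s, e)
def lb2 : V → V | (a, c, p, q, r, s, e) => (xor a q, xor c (xor p q), p, q, r, !s, e)
def lt : V → V | (a, c, p, q, r, s, e) => (xor a c, c, xor p q, q, xor r s, s, !e)

def ap (c : Bool) (f : V → V) (v : V) : V := cond c (f v) v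

def mul : V → V → V
  | (a, c, p, q, r, s, e), y => ap a lz (ap c lb (ap p l1 (ap q lb1 (ap r l2 (ap s lb2 (ap e lt y))))))

def o : V := (false, false, false, false, false, false, false)
def ez : V := (true, false, false, false, false, false, false)
def et : V := (false, false, false, false, false, false, true)
def last : V → Bool | (a, c, p, q, r, s, e) => e

def iv : V → V
  | (a, c, p, q, r, s, e) => ap e lt (ap s lb2 (ap r l2 (ap q lb1 (ap p l1 (ap c lb (ap a lz o))))))

def step (g v : V) : V := mul v (mul (mul g v) (iv g))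

def gens : List V := [(false, true, false, false, false, false, false), (false, false, true, false, false, false, false),
  (false, false, false, true, false, false, false), (false, false, false, false, true, false, false),
  (false, false, false, false, false, true, false), et]

theorem iv_mul : ∀ v : V, mul (iv v) v = o := by decide +kernel
theorem mul_iv : ∀ v : V, mul v (iv v) = o := by decide +kernel
theorem reach : ∀ v : V, v = o ∨ v = ez ∨ ∃ g ∈ gens, step g v = ez ∨ ∃ g' ∈ gens, step g' (step g v) = ez := by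
  decide +kernel
theorem eq_of : ∀ v u : V, mul (iv v) u = o → u = v := by decide +kernel
theorem last_mul : ∀ v u : V, last (mul v u) = xor (last v) (last u) := by decide +kernel
theorem last_iv : ∀ v : V, last (iv v) = last v := by decide +kernel
theorem pow8 : ∀ v : V, mul (mul (mul v v) (mul v v)) (mul (mul v v) (mul v v)) = o := by decide +kernel
theorem inU : ∀ a c p q r s : Bool, mul (a, c, p, q, r, s, false) (a, c, p, q, r, s, false) = o →
    (r = false ∧ s = false) ∨ (p = false ∧ q = false) := by decide +kernel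
theorem outU : ∀ v : V, last v = true → mul v v = o → ∃ k : V, mul k et = mul v k := by decide +kernel
theorem cen_mul : ∀ v u : V, mul v et = mul et v → mul u et = mul et u → mul (mul v u) et = mul et (mul v u) := by
  decide +kernel
theorem cen_iv : ∀ v : V, mul v et = mul et v → mul (iv v) et = mul et (iv v) := by decide +kernel
theorem cen_card : Fintype.card {v : V // mul v et = mul et v} = 16 := by decide +kernel

def w (c : Bool) (g x : G) : G := cond c (g * x) x

def nf (z b z1 b1 z2 b2 t : G) : V → G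
  | (a, c, p, q, r, s, e) => w a z (w c b (w p z1 (w q b1 (w r z2 (w s b2 (w e t 1))))))

theorem sw {x y : G} (h : x * y = y * x) (u : G) : x * (y * u) = y * (x * u) := by
  rw [← mul_assoc, h, mul_assoc]

theorem cn {x : G} (h : x * x = 1) (u : G) : x * (x * u) = u := by rw [← mul_assoc, h, one_mul]

section
variable {z t z1 z2 b b1 b2 : G} (u : UD z t z1 z2 b b1 b2 b (b * z))
include u

theorem r21 (x : G) : z2 * (z1 * x) = z * (z1 * (z2 * x)) := by rw [← mul_assoc, u.n12]; simp only [mul_assoc]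
theorem r2b (x : G) : z2 * (b1 * x) = b * (b1 * (z2 * x)) := by rw [← mul_assoc, u.nb1]; simp only [mul_assoc]
theorem rb1 (x : G) : b2 * (z1 * x) = b * (z1 * (b2 * x)) := by rw [← mul_assoc, u.nb2]; simp only [mul_assoc]
theorem rbb (x : G) : b2 * (b1 * x) = z * (b * (b1 * (b2 * x))) := by
  rw [← mul_assoc, u.nk, ← u.zb]; simp only [mul_assoc]
theorem rt {c y : G} (h : c * t = t * y * c) (x : G) : t * (c * x) = y * (c * (t * x)) := by
  have : t * c = y * c * t := by
    calc t * c = t * (c * t) * t := by rw [mul_assoc, mul_assoc, u.tq, mul_one]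
      _ = (t * t) * y * c * t := by rw [h]; simp only [mul_assoc]
      _ = _ := by rw [u.tq, one_mul]
  rw [← mul_assoc, this]; simp only [mul_assoc]

set_option hygiene false in
local macro "coll" : tactic => `(tactic| simp only [nf, w, lz, lb, l1, lb1, l2, lb2, lt, cond_true, cond_false,
  Bool.not_true, Bool.not_false, Bool.xor_true, Bool.xor_false, Bool.true_xor, Bool.false_xor,
  cn u.zq, cn u.tq, cn u.z1q, cn u.z2q, cn u.bq, cn u.b1q, cn u.b2q, sw u.zt.symm, sw u.zz1.symm, sw u.zz2.symm,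
  sw u.zb.symm, sw u.zb1.symm, sw u.zb2.symm, sw u.bz1.symm, sw u.bz2.symm, sw u.bb1.symm, sw u.bb2.symm,
  sw u.z1b1.symm, sw u.z2b2.symm, sw u.tz1, sw u.tz2, r21 u, r2b u, rb1 u, rbb u, rt u u.bt, rt u u.b1t, rt u u.b2t])

theorem hz (v : V) : z * nf z b z1 b1 z2 b2 t v = nf z b z1 b1 z2 b2 t (lz v) := by
  obtain ⟨a, c, p, q, r, s, e⟩ := v
  cases a <;> coll
theorem hb (v : V) : b * nf z b z1 b1 z2 b2 t v = nf z b z1 b1 z2 b2 t (lb v) := by
  obtain ⟨a, c, p, q, r, s, e⟩ := v
  cases a <;> cases c <;> coll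
theorem h1 (v : V) : z1 * nf z b z1 b1 z2 b2 t v = nf z b z1 b1 z2 b2 t (l1 v) := by
  obtain ⟨a, c, p, q, r, s, e⟩ := v
  cases a <;> cases c <;> cases p <;> coll
theorem hb1 (v : V) : b1 * nf z b z1 b1 z2 b2 t v = nf z b z1 b1 z2 b2 t (lb1 v) := by
  obtain ⟨a, c, p, q, r, s, e⟩ := v
  cases a <;> cases c <;> cases p <;> cases q <;> coll
theorem h2 (v : V) : z2 * nf z b z1 b1 z2 b2 t v = nf z b z1 b1 z2 b2 t (l2 v) := by
  obtain ⟨a, c, p, q, r, s, e⟩ := v
  cases a <;> cases c <;> cases p <;> cases q <;> cases r <;> coll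
theorem hb2 (v : V) : b2 * nf z b z1 b1 z2 b2 t v = nf z b z1 b1 z2 b2 t (lb2 v) := by
  obtain ⟨a, c, p, q, r, s, e⟩ := v
  cases a <;> cases c <;> cases p <;> cases q <;> cases r <;> cases s <;> coll
theorem ht (v : V) : t * nf z b z1 b1 z2 b2 t v = nf z b z1 b1 z2 b2 t (lt v) := by
  obtain ⟨a, c, p, q, r, s, e⟩ := v
  cases a <;> cases c <;> cases p <;> cases q <;> cases r <;> cases s <;> cases e <;> coll

theorem w_ap {g : G} {f : V → V} (h : ∀ v, g * nf z b z1 b1 z2 b2 t v = nf z b z1 b1 z2 b2 t (f v)) (c : Bool)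
    {x : G} {y v : V} (e : x * nf z b z1 b1 z2 b2 t y = nf z b z1 b1 z2 b2 t v) :
    w c g x * nf z b z1 b1 z2 b2 t y = nf z b z1 b1 z2 b2 t (ap c f v) := by
  cases c
  · exact e
  · show g * x * _ = nf z b z1 b1 z2 b2 t (f v)
    rw [mul_assoc, e, h]

theorem nf_mul (x y : V) : nf z b z1 b1 z2 b2 t (mul x y) = nf z b z1 b1 z2 b2 t x * nf z b z1 b1 z2 b2 t y := by
  obtain ⟨a, c, p, q, r, s, e⟩ := x
  exact (w_ap u (hz u) a (w_ap u (hb u) c (w_ap u (h1 u) p (w_ap u (hb1 u) q (w_ap u (h2 u) r (w_ap u (hb2 u) s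
    (w_ap u (ht u) e (one_mul _)))))))).symm

theorem nf_o : nf z b z1 b1 z2 b2 t o = 1 := rfl
theorem nf_t : nf z b z1 b1 z2 b2 t et = t := mul_one t
theorem nf_z : nf z b z1 b1 z2 b2 t ez = z := mul_one z

theorem nf_iv (v : V) : nf z b z1 b1 z2 b2 t (iv v) = (nf z b z1 b1 z2 b2 t v)⁻¹ :=
  eq_inv_of_mul_eq_one_left (by rw [← nf_mul u, iv_mul, nf_o u])

theorem nf_step (g : V) {v : V} (h : nf z b z1 b1 z2 b2 t v = 1) : nf z b z1 b1 z2 b2 t (step g v) = 1 := by
  rw [step, nf_mul u, nf_mul u, nf_mul u, nf_iv u, h]; group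

theorem nf_one {v : V} (h : nf z b z1 b1 z2 b2 t v = 1) : v = o := by
  rcases reach v with e | e | ⟨g, -, e | ⟨g', -, e⟩⟩
  · exact e
  · rw [e, nf_z u] at h; exact absurd h u.z1n
  · have := nf_step u g h
    rw [e, nf_z u] at this; exact absurd this u.z1n
  · have := nf_step u g' (nf_step u g h)
    rw [e, nf_z u] at this; exact absurd this u.z1n

theorem nf_inj : Function.Injective (nf z b z1 b1 z2 b2 t) := fun x y h =>
  eq_of y x (nf_one u (by rw [nf_mul u, nf_iv u, h, inv_mul_cancel]))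

/-- The image of a set of exponent vectors closed under the operations. -/
def sub (P : V → Prop) (h0 : P o) (hm : ∀ x y, P x → P y → P (mul x y)) (hi : ∀ x, P x → P (iv x)) : Subgroup G where
  carrier := nf z b z1 b1 z2 b2 t '' {v | P v}
  one_mem' := ⟨o, h0, nf_o u⟩
  mul_mem' := by
    rintro _ _ ⟨x, hx, rfl⟩ ⟨y, hy, rfl⟩
    exact ⟨mul x y, hm x y hx hy, nf_mul u x y⟩
  inv_mem' := by
    rintro _ ⟨x, hx, rfl⟩
    exact ⟨iv x, hi x hx, nf_iv u x⟩

def SS : Subgroup G := sub u (fun _ => True) trivial (fun _ _ _ _ => trivial) fun _ _ => trivial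

def UU : Subgroup G := sub u (fun v => last v = false) rfl (fun x y hx hy => by rw [last_mul, hx, hy]; rfl)
  fun x hx => by rw [last_iv, hx]

def TT : Subgroup G := sub u (fun v => mul v et = mul et v) (by decide +kernel) cen_mul cen_iv

theorem pS : IsPGroup 2 (SS u) := by
  rintro ⟨_, v, -, rfl⟩
  refine ⟨3, Subtype.ext ?_⟩
  have := congrArg (nf z b z1 b1 z2 b2 t) (pow8 v)
  simp only [nf_mul u, nf_o u] at this
  show nf z b z1 b1 z2 b2 t v ^ 2 ^ 3 = 1
  rw [← this]
  norm_num [pow_succ, mul_assoc]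

theorem le2 : Le2 (UU u) (SS u) := by
  rintro _ ⟨x, -, rfl⟩ _ ⟨y, -, rfl⟩ hx hy
  have e1 : last x = true := by
    by_contra e; exact hx ⟨x, by simpa using e, rfl⟩
  have e2 : last y = true := by
    by_contra e; exact hy ⟨y, by simpa using e, rfl⟩
  exact ⟨mul x y, by show last _ = false; rw [last_mul, e1, e2]; rfl, nf_mul u x y⟩

theorem w_mem {X : Subgroup G} {g x : G} (c : Bool) (hg : g ∈ X) (hx : x ∈ X) : w c g x ∈ X := by
  cases c
  exacts [hx, mul_mem hg hx]

theorem noT {y : G} (hy : y ∈ UU u) : ¬ Tc t y := by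
  obtain ⟨⟨a, c, p, q, r, s, e⟩, he, rfl⟩ := hy
  obtain rfl : e = false := he
  intro hT
  have := nf_one u (by rw [nf_mul u]; exact hT.sq u.tq)
  rcases inU a c p q r s this with ⟨rfl, rfl⟩ | ⟨rfl, rfl⟩
  · refine u.nT1 _ ?_ hT
    exact w_mem u a (subset_closure (by simp)) (w_mem u c (subset_closure (by simp)) (w_mem u p
      (subset_closure (by simp)) (w_mem u q (subset_closure (by simp)) (one_mem _))))
  · refine u.nT2 _ ?_ hT
    exact w_mem u a (subset_closure (by simp)) (w_mem u c (subset_closure (by simp)) (w_mem u r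
      (subset_closure (by simp)) (w_mem u s (subset_closure (by simp)) (one_mem _))))

theorem cardT : Nat.card (TT u) = 16 := by
  rw [← cen_card, ← Nat.card_eq_fintype_card]
  exact Nat.card_congr (Equiv.Set.image _ {v : V | mul v et = mul et v} (nf_inj u)).symm

theorem mx (Y : Subgroup G) (hY : IsPGroup 2 Y) (hS : SS u ≤ Y) (n : G) (hn : n ∈ Y) (hN : Nm n (SS u)) :
    n ∈ SS u := by
  obtain ⟨v, -, hv⟩ := hN t ⟨et, trivial, nf_t u⟩
  have hT : Tc t (nf z b z1 b1 z2 b2 t v) := ⟨n, hv.symm⟩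
  have e1 : last v = true := by
    by_contra e; exact noT u ⟨v, by simpa using e, rfl⟩ hT
  obtain ⟨k, hk⟩ := outU v e1 (nf_one u (by rw [nf_mul u]; exact hT.sq u.tq))
  have hk' := congrArg (nf z b z1 b1 z2 b2 t) hk
  rw [nf_mul u, nf_mul u, nf_t u, hv] at hk'
  set κ := nf z b z1 b1 z2 b2 t k with hκ
  have κS : κ ∈ SS u := ⟨k, trivial, rfl⟩
  have hTS : TT u ≤ SS u := by
    rintro _ ⟨x, -, rfl⟩; exact ⟨x, trivial, rfl⟩
  have hle : TT u ≤ Cn Y t := fun y hy => mem_Cn.2 ⟨hS (hTS hy), by
    obtain ⟨x, hx, rfl⟩ := hy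
    have := congrArg (nf z b z1 b1 z2 b2 t) (show mul x et = mul et x from hx)
    rwa [nf_mul u, nf_mul u, nf_t u] at this⟩
  have hc := u.bd (Cn Y t) (hY.to_le Cn_le) fun y hy => (mem_Cn.1 hy).2
  have he : TT u = Cn Y t := Subgroup.eq_of_le_of_card_ge hle (by rw [cardT u]; exact hc)
  have : n⁻¹ * κ ∈ Cn Y t := mem_Cn.2 ⟨mul_mem (inv_mem hn) (hS κS), by
    rw [mul_assoc, hk']; group⟩
  rw [← he] at this
  have h2 := mul_mem κS (inv_mem (hTS this))
  simpa using h2

theorem main {a i g h : G} (H : Hy a i z t g h) : False :=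
  H.tr (pS u) ⟨et, trivial, nf_t u⟩ (le2 u) (mx u) fun y hy _ => noT u hy

end

/-- The two good cases differ by a change of the generator `b2`. -/
theorem shift {z t z1 z2 b b1 b2 : G} (u : UD z t z1 z2 b b1 b2 (b * z) z) :
    UD z t z1 z2 b b1 (b2 * z2) b (b * z) :=
  { u with
    b2q := sq_of_comm u.b2q u.z2q u.z2b2.symm
    zb2 := (show Commute z b2 from u.zb2).mul_right u.zz2
    bb2 := (show Commute b b2 from u.bb2).mul_right u.bz2
    z2b2 := (show Commute z2 b2 from u.z2b2).mul_right rfl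
    b2t := by rw [mul_assoc, ← u.tz2, ← mul_assoc, u.b2t, mul_assoc]
    nb2 := by
      rw [mul_assoc, u.n12, sw u.zb2.symm, ← mul_assoc b2, u.nb2, ← u.zb]
      simp only [mul_assoc]
      rw [cn u.zq]
    nk := by
      rw [mul_assoc, u.nb1, sw u.bb2.symm, ← mul_assoc b2, u.nk]
      simp only [mul_assoc]
    good := .inr ⟨rfl, rfl⟩
    nT2 := fun y hy => u.nT2 y (by
      refine (closure_le _).2 ?_ hy
      intro x hx
      simp only [Set.mem_insert_iff, Set.mem_singleton_iff] at hx
      rcases hx with rfl | rfl | rfl | rfl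
      · exact subset_closure (by simp)
      · exact subset_closure (by simp)
      · exact subset_closure (by simp)
      · exact mul_mem (subset_closure (by simp)) (subset_closure (by simp))) }

end III4

theorem Hy.iii4 {a i z t g h : G} (H : Hy a i z t g h) {z1 z2 b b1 b2 β k : G} (u : UD z t z1 z2 b b1 b2 β k) :
    False := by
  rcases u.good with ⟨rfl, rfl⟩ | ⟨rfl, rfl⟩
  · exact III4.main (III4.shift u) H
  · exact III4.main u H

end H58.ME
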