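import Mathlib
import Cfsg.Agent.Lib.M11T.III2
import Cfsg.Agent.Lib.M11T.III4

/-! The two elementary abelian groups of order sixteen in case (iii) and the group they generate. -/

set_option autoImplicit false
set_option linter.unusedSectionVars false
set_option linter.unusedVariables false

namespace H58.ME

open Subgroup H70 H50.SC6

variable {G : Type*} [Group G] [Finite G]

namespace III3
open III2 III4

theorem cjm (g x y : G) : g * (x * y) * g⁻¹ = g * x * g⁻¹ * (g * y * g⁻¹) := by group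

section
variable {a i z t g h : G} (H : Hy a i z t g h) {z1 z2 γ δ j1 j2 : G} (c : N3 z t z1 z2 γ δ j1 j2)
include H c

theorem n21 : z2 * z1 ≠ z1 * z2 := fun r => H.z1 (by
  have e := c.n12
  rw [cj_eq r.symm] at e
  exact right_eq_mul.1 e)

/-- The centraliser of `t`, `z`, `z1`, `z2`. -/
theorem cen {x : G} (xt : x * t = t * x) (xz : x * z = z * x) (x1 : x * z1 = z1 * x) (x2 : x * z2 = z2 * x) :
    x ∈ V4 t z := by
  rcases c.cV x xt xz with m | m | m | m
  · exact m
  · have := (show Commute x z2 from x2).inv_left.mul_left (cV1 H c.f2 m)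
    rw [inv_mul_cancel_left] at this
    exact absurd this.symm (n21 H c)
  · have := (show Commute x z1 from x1).inv_left.mul_left (cV1 H c.f1 m)
    rw [inv_mul_cancel_left] at this
    exact absurd this (n21 H c)
  · have := (Commute.refl z1).inv_left.mul_left ((show Commute x z1 from x1).inv_left.mul_left (cV1 H c.f1 m))
    rw [inv_mul_cancel_left, inv_mul_cancel_left] at this
    exact absurd this (n21 H c)

theorem T2 : Tc t (t * z2) := H.Ttz.of_eq (c := δ) (by rw [cjm, cj_eq c.f2.γt, c.f2.γz])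
theorem T3 : Tc t (t * (z * z2)) := (T2 H c).of_eq (c := δ) (by rw [cjm, cj_eq c.f2.γt, c.f2.γz1])

/-- An involution of `C(t, z)` not conjugate to `t` that does not commute with `z1`. -/
theorem two {x : G} (xt : x * t = t * x) (xz : x * z = z * x) (x1 : x * z1 ≠ z1 * x) (x2 : x * x = 1)
    (nT : ¬ Tc t x) : x = z2 ∨ x = z * z2 := by
  have q2 := q1 H c.f2
  rcases c.cV x xt xz with m | m | m | m
  · exact absurd (cV1 H c.f1 m) x1
  · exact absurd (mul_right_cancel (b := z1) (by rw [cV1 H c.f1 m, mul_assoc])) x1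
  · have k : ∀ v, x * z2 = v → x = v * z2 := fun v r => by rw [← r, mul_assoc, q2, mul_one]
    rcases (V4_cases H.t2 H.z2 H.zt).1 m with r | r | r | r <;> have r := k _ r
    · exact .inl (by simpa using r)
    · exact absurd (r ▸ T2 H c) nT
    · exact .inr r
    · exact absurd (by rw [r, H.zt, mul_assoc]; exact T3 H c) nT
  · exfalso
    have c12 : Commute (x * (z1 * z2)) (z1 * z2) := (show Commute _ z1 from cV1 H c.f1 m).mul_right (cV1 H c.f2 m)
    have yc : Commute x (z1 * z2) := by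
      have := c12.mul_left (Commute.refl (z1 * z2)).inv_left
      rwa [mul_inv_cancel_right] at this
    have s1 := sq_V4 H.t2 H.z2 H.zt m
    have s2 : z1 * z2 * (z1 * z2) = z := by
      calc _ = z1 * z2 * z1⁻¹ * z2 := by rw [inv_self (q1 H c.f1)]; group
        _ = _ := by rw [c.n12, mul_assoc, q2, mul_one]
    rw [mul_assoc, ← mul_assoc _ x, ← yc.eq, mul_assoc, s2, ← mul_assoc, x2, one_mul] at s1
    exact H.z1 s1

end

section
variable {a i z t g h : G} (H : Hy a i z t g h) {z1 z2 γ j b b' : G} (f : FD z t z1 γ j)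
  (B : BD z t z1 z2 γ b b')
include H f B

theorem sq' : b' * b' = 1 := B.γb ▸ sq_cj B.b2 γ
theorem cz' : z * b' = b' * z := by
  have := comm_cj ((show Commute b z from B.bz).mul_right B.bz1).eq γ
  rw [B.γb, γz2 H f] at this
  exact this.symm
theorem c1' : z1 * b' = b' * z1 := by
  have := comm_cj B.bz γ
  rw [B.γb, f.γz] at this
  exact this.symm
theorem ct' : b' * t * b'⁻¹ = t * z1 := by
  calc _ = γ * (b * (γ⁻¹ * t * γ⁻¹⁻¹) * b⁻¹) * γ⁻¹ := by rw [← B.γb]; group
    _ = γ * t * γ⁻¹ * (γ * z * γ⁻¹) := by rw [cj_eq (show Commute γ t from f.γt).inv_left, B.bt]; group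
    _ = _ := by rw [cj_eq f.γt, f.γz]
theorem c2' : z2 * b' * z2⁻¹ = b * b' := by
  have k : ∀ s : G, s * γ * s⁻¹ = γ⁻¹ → s * b = b * s → s * b' * s⁻¹ = b * b' := fun s e r => by
    calc _ = s * γ * s⁻¹ * (s * b * s⁻¹) * (s * γ * s⁻¹)⁻¹ := by rw [← B.γb]; group
      _ = γ⁻¹ * (γ * (γ * (γ * b * γ⁻¹) * γ⁻¹) * γ⁻¹) * γ⁻¹⁻¹ := by rw [e, cj_eq r, cj3 f.γ3]
      _ = γ * (γ * b * γ⁻¹) * γ⁻¹ := by group
      _ = _ := by rw [B.γb, B.γb']
  rcases B.inv with e | e
  · exact k z2 e B.bz2.symm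
  · have := k _ e ((show Commute z b from B.bz.symm).mul_left B.bz2.symm)
    calc _ = z⁻¹ * (z * z2 * b' * (z * z2)⁻¹) * z⁻¹⁻¹ := by group
      _ = _ := by
        rw [this, cj_eq ((show Commute z b from B.bz.symm).mul_right (cz' H f B)).inv_left]

end

end III3

open III2 III3 III4

theorem Hy.bd {a i z t g h : G} (H : Hy a i z t g h) {z1 z2 γ δ j1 j2 b : G} {P A : Subgroup G}
    (c : N3 z t z1 z2 γ δ j1 j2) (p : PD z t z1 γ b P A) : ∃ b b', BD z t z1 z2 γ b b' := by
  have f := c.f1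
  obtain ⟨s, hs, sγ, sP, sA⟩ := H.ex_s c p
  obtain ⟨f0, hf, nf⟩ := H.ex_f c p hs sγ sP sA
  have nO : Nm γ (Oz A) := nm_Oz p.fp.nD
  have tf := nm_Oz (nPA H f p p.tP) f0 hf
  have yF : t * f0 * t⁻¹ * f0 ∈ V4 z z1 := cA H f p (mul_mem tf.1 hf.1) (by
    have e := tf.2.2 f0 hf.1
    rw [inv_self H.t2] at e ⊢
    calc _ = t * (f0 * (t * f0 * t)) := by group
      _ = _ := by rw [e])
  have ft : f0 * t * f0⁻¹ = t * (t * f0 * t⁻¹ * f0) := by
    rw [inv_self hf.2.1, inv_self H.t2, ← mul_assoc, ← mul_assoc, ← mul_assoc, H.t2, one_mul]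
  have mv : ∀ u y, u * t * u⁻¹ = t * y → γ * u * γ⁻¹ * t * (γ * u * γ⁻¹)⁻¹ = t * (γ * y * γ⁻¹) := fun u y e => by
    calc _ = γ * (u * (γ⁻¹ * t * γ⁻¹⁻¹) * u⁻¹) * γ⁻¹ := by group
      _ = γ * t * γ⁻¹ * (γ * y * γ⁻¹) := by rw [cj_eq (show Commute γ t from f.γt).inv_left, e]; group
      _ = _ := by rw [cj_eq f.γt]
  obtain ⟨b0, hb0, bt0⟩ : ∃ b0 ∈ Oz A, b0 * t * b0⁻¹ = t * z := by
    rcases (memF H f).1 yF with r | r | r | r <;> rw [r] at ft
    · exact absurd (cA H f p hf.1 (comm_of_cj (by simpa using ft))) nf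
    · exact ⟨f0, hf, ft⟩
    · refine ⟨_, nO _ (nO _ hf), ?_⟩
      rw [mv _ _ (mv _ _ ft), f.γz1, γz2 H f]
    · refine ⟨_, nO _ hf, ?_⟩
      rw [mv _ _ ft, γz2 H f]
  have b0z := p.Pz b0 (p.AP hb0.1)
  have b01 := p.Pz1 b0 (p.AP hb0.1)
  have wz : b0 * z2 * b0⁻¹ * z = z * (b0 * z2 * b0⁻¹) := by
    have := comm_cj c.f2.zz1.symm b0
    rwa [cj_eq b0z] at this
  have wt : b0 * z2 * b0⁻¹ * t = t * (b0 * z2 * b0⁻¹) := by
    have := comm_cj (III2.t1 H c.f2) b0
    rw [bt0] at this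
    have := (show Commute _ (t * z) from this).mul_right wz
    rwa [mul_assoc t, H.z2, mul_one] at this
  have w1 : b0 * z2 * b0⁻¹ * z1 ≠ z1 * (b0 * z2 * b0⁻¹) := fun r => n21 H c (by
    have := comm_cj r b0⁻¹
    rw [cj_eq (show Commute b0 z1 from b01).inv_left] at this
    simpa [mul_assoc] using this)
  obtain ⟨b1, hb1, bt1, bz2⟩ : ∃ b1 ∈ Oz A, b1 * t * b1⁻¹ = t * z ∧ b1 * z2 = z2 * b1 := by
    rcases III3.two H c wt wz w1 (sq_cj (q1 H c.f2) b0) (fun e => nTF H c.f2 s_V4 e.of_cj) with r | r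
    · exact ⟨b0, hb0, bt0, comm_of_cj r⟩
    · refine ⟨b0 * z1, mul_mem hb0 ⟨p.z1A, q1 H f, fun q hq => p.Pz1 q (p.AP hq)⟩, ?_, comm_of_cj ?_⟩
      · calc _ = b0 * (z1 * t * z1⁻¹) * b0⁻¹ := by group
          _ = _ := by rw [cj_eq (III2.t1 H f), bt0]
      · calc _ = b0 * (z1 * z2 * z1⁻¹) * b0⁻¹ := by group
          _ = _ := by rw [c.n12, cjm, cj_eq b0z, r, ← mul_assoc, H.z2, one_mul]
  have h1 := nO _ hb1
  refine ⟨b1, γ * b1 * γ⁻¹, hb1.2.1, p.Pz _ (p.AP hb1.1), p.Pz1 _ (p.AP hb1.1), bz2, bt1, rfl, h1.2.2 _ hb1.1, ?_,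
    hs.imp (fun r => by rw [← r]; exact sγ) (fun r => by rw [← r]; exact sγ), fun y hy => p.noT y ?_⟩
  · have := p.fp.norm hb1.1
    rw [mem_bot] at this
    rw [eq_inv_of_mul_eq_one_right this, inv_self (mul_mem hb1 h1).2.1]
  · refine (closure_le A).2 ?_ hy
    intro x hx
    simp only [Set.mem_insert_iff, Set.mem_singleton_iff] at hx
    rcases hx with rfl | rfl | rfl | rfl
    exacts [p.zA, p.z1A, hb1.1, h1.1]

theorem Hy.ud {a i z t g h : G} (H : Hy a i z t g h) {z1 z2 γ δ j1 j2 b b1 β b2 : G}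
    (c : N3 z t z1 z2 γ δ j1 j2) (B1 : BD z t z1 z2 γ b b1) (B2 : BD z t z2 z1 δ β b2) :
    ∃ k, UD z t z1 z2 b b1 b2 β k := by
  have f := c.f1
  have f' := c.f2
  have z1q := q1 H f
  have z2q := q1 H f'
  have b1q := sq' H f B1
  have b2q := sq' H f' B2
  have zb1 := cz' H f B1
  have zb2 := cz' H f' B2
  have z1b1 := c1' H f B1
  have z2b2 := c1' H f' B2
  have b1t := ct' H f B1
  have b2t := ct' H f' B2
  have e21 := (c.symm H).n12
  have nb1 := c2' H f B1
  have nb2 := c2' H f' B2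
  have tb : t * b ≠ b * t := fun r => H.z1 (by
    have := B1.bt
    rw [cj_eq r.symm] at this
    exact left_eq_mul.1 this)
  have tbsq : t * b * (t * b) = z := by
    calc _ = t * (b * t * b⁻¹) := by rw [inv_self B1.b2]; group
      _ = _ := by rw [B1.bt, ← mul_assoc, H.t2, one_mul]
  have hβ : β = b ∨ β = b * z := by
    have m := cen H c (x := β * b) (comm_of_cj (by
      calc _ = β * (b * t * b⁻¹) * β⁻¹ := by group
        _ = _ := by rw [B1.bt, cjm, B2.bt, cj_eq B2.bz, mul_assoc, H.z2, mul_one]))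
      ((show Commute β z from B2.bz).mul_left B1.bz) ((show Commute β z1 from B2.bz2).mul_left B1.bz1)
      ((show Commute β z2 from B2.bz1).mul_left B1.bz2)
    have k : ∀ v, β * b = v → β = v * b := fun v r => by rw [← r, mul_assoc, B1.b2, mul_one]
    rcases (V4_cases H.t2 H.z2 H.zt).1 m with r | r | r | r <;> have r := k _ r
    · exact .inl (by simpa using r)
    · have := B2.b2
      rw [r, tbsq] at this
      exact absurd this H.z1
    · exact .inr (r.trans B1.bz.symm)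
    · have := B2.b2
      rw [r, mul_assoc z, mul_assoc z, sw ((show Commute z t from H.zt).mul_right B1.bz.symm).symm.eq, cn H.z2,
        tbsq] at this
      exact absurd this H.z1
  have βb1 : β * b1 = b1 * β := by
    rcases hβ with r | r <;> rw [r]
    · exact B1.bb
    · exact (show Commute b b1 from B1.bb).mul_left zb1
  have bb2 : b * b2 = b2 * b := by
    rcases hβ with r | r
    · exact r ▸ B2.bb
    · have : b = β * z := by rw [r, mul_assoc, H.z2, mul_one]
      rw [this]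
      exact (show Commute β b2 from B2.bb).mul_left zb2
  have a21 : b2 * z1 * b2⁻¹ = β * z1 := by
    calc _ = b2 * (z1 * b2 * z1⁻¹) * z1 := by rw [inv_self b2q]; group
      _ = _ := by rw [nb2, sw B2.bb.symm, b2q, mul_one]
  have a12 : b1 * z2 * b1⁻¹ = b * z2 := by
    calc _ = b1 * (z2 * b1 * z2⁻¹) * z2 := by rw [inv_self b1q]; group
      _ = _ := by rw [nb1, sw B1.bb.symm, b1q, mul_one]
  set k := b2 * b1 * b2⁻¹ * b1⁻¹ with hk
  have kz : k * z = z * k := by
    have c1 : Commute b1 z := zb1.symm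
    have c2 : Commute b2 z := zb2.symm
    exact ((c2.mul_left c1).mul_left c2.inv_left).mul_left c1.inv_left
  have kb : k * b = b * k := by
    have c1 : Commute b1 b := B1.bb.symm
    have c2 : Commute b2 b := bb2.symm
    exact ((c2.mul_left c1).mul_left c2.inv_left).mul_left c1.inv_left
  have k1 : k * z1 = z1 * k := by
    have e := comm_cj ((show Commute b1 β from βb1.symm).mul_right z1b1.symm).eq b2
    rw [← a21, show b2 * (b2 * z1 * b2⁻¹) * b2⁻¹ = z1 by
      rw [inv_self b2q]; simp only [mul_assoc]; rw [cn b2q, b2q, mul_one]] at e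
    exact (show Commute _ z1 from e).mul_left (show Commute b1 z1 from z1b1.symm).inv_left
  have k2 : k * z2 = z2 * k := by
    have e := comm_cj ((show Commute b2 b from bb2.symm).mul_right z2b2.symm).eq b1
    rw [← a12, show b1 * (b1 * z2 * b1⁻¹) * b1⁻¹ = z2 by
      rw [inv_self b1q]; simp only [mul_assoc]; rw [cn b1q, b1q, mul_one]] at e
    have := (show Commute b2 z2 from z2b2.symm).mul_left (show Commute _ z2 from e).inv_left
    rwa [show b2 * (b1 * b2 * b1⁻¹)⁻¹ = k by rw [hk]; group] at this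
  have n12 : z2 * z1 = z * (z1 * z2) := by rw [← mul_assoc, ← e21]; group
  have βb : β * b = b * β := by
    rcases hβ with r | r <;> rw [r]
    exact (Commute.refl b).mul_left B1.bz.symm
  have kt : k * t * k⁻¹ = t * (z * (b * β)) := by
    calc _ = b2 * (b1 * (b2 * (b1 * t * b1⁻¹) * b2⁻¹) * b1⁻¹) * b2⁻¹ := by
          rw [hk, inv_self b1q, inv_self b2q, mul_inv_rev, mul_inv_rev, mul_inv_rev, inv_self b1q, inv_self b2q]; group
      _ = _ := by
        simp only [b1t, b2t, cjm, a21, a12, cj_eq z1b1.symm, cj_eq z2b2.symm, cj_eq βb1.symm, cj_eq B2.bb.symm,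
          cj_eq bb2.symm]
        simp only [mul_assoc, mul_right_inj]
        rw [cn B2.b2, n12, sw B1.bz, sw f.zz1.symm, sw B2.bz, sw f'.zz1.symm, sw B1.bz1, cn z1q, sw B2.bz1.symm,
          sw B1.bz2.symm, z2q, mul_one, βb]
  have kV : ∀ x, x * t = t * x → x * z = z * x → x * z1 = z1 * x → x * z2 = z2 * x → x * b = b * x →
      x = 1 ∨ x = z := fun x xt xz x1 x2 xb => by
    rcases (V4_cases H.t2 H.z2 H.zt).1 (cen H c xt xz x1 x2) with r | r | r | r
    · exact .inl r
    · exact absurd (r ▸ xb) tb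
    · exact .inr r
    · refine absurd (mul_left_cancel (a := z) ?_) tb
      rw [← mul_assoc, ← r, xb, r, sw B1.bz]
  have hk' : b2 * b1 * b2⁻¹ = k * b1 := by rw [hk]; group
  have mvt : ∀ {x y : G}, x * t * x⁻¹ = t * y → y ≠ 1 → x ≠ 1 := fun {x y} e n r => n (by
    rw [r] at e; simpa using e)
  have zz1 : z * z1 ≠ 1 := fun r => nz H f (by rw [eq_inv_of_mul_eq_one_right r, inv_self H.z2])
  have γc : ∀ x y, b2 * x * b2⁻¹ = y →
      γ * b2 * γ⁻¹ * (γ * x * γ⁻¹) * (γ * b2 * γ⁻¹)⁻¹ = γ * y * γ⁻¹ := fun x y e => by rw [← e]; group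
  have pc : ∀ x, b2 * (γ * b2 * γ⁻¹) * x * (b2 * (γ * b2 * γ⁻¹))⁻¹ =
      b2 * (γ * b2 * γ⁻¹ * x * (γ * b2 * γ⁻¹)⁻¹) * b2⁻¹ := fun x => by group
  have γbb : γ * (b * b1) * γ⁻¹ = b := by rw [cjm, B1.γb, B1.γb', sw B1.bb.symm, b1q, mul_one]
  have d1 := γc _ _ (cj_eq zb2.symm)
  have db1 := γc _ _ (cj_eq bb2.symm)
  rw [f.γz] at d1
  rw [B1.γb] at db1
  have good : (β = b * z ∧ k = z) ∨ (β = b ∧ k = b * z) := by
    rcases hβ with r | r
    · refine .inr ⟨r, ?_⟩
      rw [r, B1.b2, mul_one] at kt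
      have kk : ∀ v, k * b = v → k = v * b := fun v r => by rw [← r, mul_assoc, B1.b2, mul_one]
      rcases kV (k * b) (comm_of_cj (by
          calc _ = k * (b * t * b⁻¹) * k⁻¹ := by group
            _ = _ := by rw [B1.bt, cjm, kt, cj_eq kz, mul_assoc, H.z2, mul_one]))
        ((show Commute k z from kz).mul_left B1.bz) ((show Commute k z1 from k1).mul_left B1.bz1)
        ((show Commute k z2 from k2).mul_left B1.bz2) ((show Commute k b from kb).mul_left rfl) with e | e
      · exfalso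
        have e := kk _ e
        rw [one_mul] at e
        rw [e] at hk'
        rw [r] at a21
        have u1 : b2 * (b * b1) * b2⁻¹ = b1 := by rw [cjm, cj_eq bb2.symm, hk', cn B1.b2]
        have u2 : b2 * (z1 * b1) * b2⁻¹ = z1 * b1 := by
          rw [cjm, a21, hk', mul_assoc, sw B1.bz1.symm, cn B1.b2]
        have db := γc _ _ u1
        rw [γbb, B1.γb'] at db
        have dz := γc (z * z1) (z * (b * z1)) (by rw [cjm, cj_eq zb2.symm, a21])
        rw [γz2 H f, cjm, cjm, f.γz, B1.γb, f.γz1] at dz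
        have p1 : b2 * (γ * b2 * γ⁻¹) * b * (b2 * (γ * b2 * γ⁻¹))⁻¹ = b1 := by rw [pc, db, u1]
        have p2 : b2 * (γ * b2 * γ⁻¹) * b1 * (b2 * (γ * b2 * γ⁻¹))⁻¹ = b * b1 := by rw [pc, db1, hk']
        refine H.sm.not_dvd (a := z * b) (b := z1 * b1) (g := b2 * (γ * b2 * γ⁻¹))
          (sq_of_comm H.z2 B1.b2 B1.bz.symm) (sq_of_comm z1q b1q z1b1) (mvt (y := z) ?_ H.z1)
          (mvt (y := z1) ?_ (n1 H f)) (fun r => nz H f ?_) ?_ (comm_of_cj ?_) (comm_of_cj ?_)
          (three_dvd (y := b) ?_ ?_)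
        · calc _ = z * (b * t * b⁻¹) * z⁻¹ := by group
            _ = _ := by rw [B1.bt, cj_eq ((show Commute z t from H.zt).mul_right rfl)]
        · calc _ = z1 * (b1 * t * b1⁻¹) * z1⁻¹ := by group
            _ = _ := by rw [b1t, cj_eq ((show Commute z1 t from III2.t1 H f).mul_right rfl)]
        · have e1 : z * b * t * (z * b)⁻¹ = t * z := by
            calc _ = z * (b * t * b⁻¹) * z⁻¹ := by group
              _ = _ := by rw [B1.bt, cj_eq ((show Commute z t from H.zt).mul_right rfl)]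
          have e2 : z1 * b1 * t * (z1 * b1)⁻¹ = t * z1 := by
            calc _ = z1 * (b1 * t * b1⁻¹) * z1⁻¹ := by group
              _ = _ := by rw [b1t, cj_eq ((show Commute z1 t from III2.t1 H f).mul_right rfl)]
          rw [r, e2] at e1
          exact mul_left_cancel e1
        · exact ((show Commute z z1 from f.zz1).mul_right zb1).mul_left
            ((show Commute b z1 from B1.bz1).mul_right B1.bb)
        · rw [pc, cjm _ z b, dz, db, show z1 * (b1 * (z * z1)) * (b * b1) = z * b by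
            simp only [mul_assoc]
            rw [sw zb1.symm, sw f.zz1.symm, sw z1b1.symm, cn z1q, sw B1.bb.symm, b1q, mul_one],
            cjm, cj_eq zb2.symm, cj_eq bb2.symm]
        · rw [pc, cjm _ z1 b1, d1, db1, u2]
        · rw [p1]
          intro r
          rw [r, B1.bt] at b1t
          exact nz H f (mul_left_cancel b1t).symm
        · rw [p1, p2, cjm, p1, p2, sw B1.bb.symm, b1q, mul_one]
      · exact (kk _ e).trans B1.bz.symm
    · refine .inl ⟨r, ?_⟩
      rw [r, cn B1.b2, H.z2, mul_one] at kt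
      refine (kV k (comm_of_cj kt) kz k1 k2 kb).resolve_left fun e => ?_
      rw [e, one_mul] at hk'
      rw [r] at a21
      have db := γc (b * b1) (b * b1) (by rw [cjm, cj_eq bb2.symm, hk'])
      rw [γbb] at db
      have dz := γc (z * z1) (b * z1) (by
        rw [cjm, cj_eq zb2.symm, a21, mul_assoc, sw B1.bz.symm, cn H.z2])
      rw [γz2 H f, cjm, B1.γb, f.γz1] at dz
      have p1 : b2 * (γ * b2 * γ⁻¹) * z * (b2 * (γ * b2 * γ⁻¹))⁻¹ = b1 * (b * z1) := by
        rw [pc, dz, cjm, cjm, hk', cj_eq zb2.symm, a21, mul_assoc, sw B1.bz.symm, cn H.z2]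
      have p2 : b2 * (γ * b2 * γ⁻¹) * (b1 * (b * z1)) * (b2 * (γ * b2 * γ⁻¹))⁻¹ = b1 * (z * z1) := by
        rw [pc, cjm _ b1, cjm _ b, db1, db, d1, cjm, cjm, hk', cj_eq bb2.symm, a21, mul_assoc, cn B1.b2]
      refine H.sm.not_dvd (a := b) (b := b1) (g := b2 * (γ * b2 * γ⁻¹)) B1.b2 b1q (mvt B1.bt H.z1)
        (mvt b1t (n1 H f)) (fun r => nz H f ?_) B1.bb (comm_of_cj ?_) (comm_of_cj ?_) (three_dvd (y := z) ?_ ?_)
      · rw [← r, B1.bt] at b1t
        exact (mul_left_cancel b1t).symm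
      · rw [pc, db, cj_eq bb2.symm]
      · rw [pc, db1, hk']
      · rw [p1]
        intro r
        have e1 : b1 * (b * z1) * t * (b1 * (b * z1))⁻¹ = t * (z * z1) := by
          calc _ = b1 * (b * (z1 * t * z1⁻¹) * b⁻¹) * b1⁻¹ := by group
            _ = _ := by rw [cj_eq (III2.t1 H f), B1.bt, cjm, b1t, cj_eq zb1.symm, mul_assoc, f.zz1]
        rw [r, cj_eq H.zt] at e1
        exact zz1 (left_eq_mul.1 e1)
      · rw [p1, p2, pc, cjm _ b1, cjm _ z, db1, dz, d1, mul_assoc b1, cn b1q, mul_assoc z, z1q, mul_one,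
          cj_eq zb2.symm]
  refine ⟨k, H.z1, H.z2, H.t2, z1q, z2q, B1.b2, b1q, b2q, H.zt, f.zz1, f'.zz1, B1.bz.symm, zb1, zb2, B1.bz1, B1.bz2,
    B1.bb, bb2, z1b1, z2b2, (III2.t1 H f).symm, (III2.t1 H f').symm, by rw [← B1.bt]; group, by rw [← b1t]; group,
    by rw [← b2t]; group, n12, by rw [← mul_assoc, ← nb1]; group, by rw [← mul_assoc, ← a21]; group,
    by rw [hk]; group, good, fun m => ((mem_zt H.z2).1 m).elim (n1 H f) (nz H f), B1.noT, fun y hy => B2.noT y ?_,
    c.bd⟩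
  refine (closure_le _).2 ?_ hy
  intro x hx
  simp only [Set.mem_insert_iff, Set.mem_singleton_iff] at hx
  rcases hx with rfl | rfl | rfl | rfl
  · exact subset_closure (by simp)
  · exact subset_closure (by simp)
  · rcases hβ with r | r
    · exact subset_closure (by simp [r])
    · have : x = β * z := by rw [r, mul_assoc, H.z2, mul_one]
      rw [this]
      exact mul_mem (subset_closure (by simp)) (subset_closure (by simp))
  · exact subset_closure (by simp)

end H58.ME
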