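import Mathlib
import Cfsg.Agent.Lib.M11T.Bas
import Cfsg.Agent.Lib.Inv73.Transfer
import Cfsg.Agent.Lib.LocStruct.SylowIn
import Cfsg.Agent.Lib.TwoGrp.RankOne
import Cfsg.Agent.S0112
import Cfsg.Agent.S0113

/-! The case of maximal class: one class of involutions. -/

set_option autoImplicit false
set_option linter.unusedSectionVars false
set_option linter.unusedVariables false

namespace H58.ME

open Subgroup H70 H50.SC6

variable {G : Type*} [Group G] [Finite G]

theorem Hy.mc {a i z t g h : G} (H : Hy a i z t g h) (c : CV z t (V4 t z)) {y : G} (y2 : y * y = 1) (y1 : y ≠ 1) :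
    Tc t y := by
  obtain ⟨S, hS, l⟩ := H69.exists_isSylowIn_le H.pat le_top
  have aS : a ∈ S := l (mem_sup_left (mem_zpowers a))
  have hV : V4 t z ≤ S := V4_le (l (mem_sup_right (mem_zpowers t))) (H.a4 ▸ pow_mem aS 4)
  obtain ⟨n, hn⟩ := IsPGroup.iff_card.1 hS.isP
  have o : orderOf a = 2 ^ 3 := orderOf_eq_prime_pow (p := 2) (n := 2) (H.a4 ▸ H.z1) H.a8
  have h3 : 3 ≤ n := by
    have := card_dvd_of_le (zpowers_le.2 aS)
    rwa [Nat.card_zpowers, o, hn, Nat.pow_dvd_pow_iff_le_right (by decide)] at this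
  have h5 : centralizer ((V4 t z).subgroupOf S : Set S) = (V4 t z).subgroupOf S := by
    rw [← H69.map_subtype_inj, H69.map_subtype_centralizer, map_subgroupOf_eq_of_le hV]
    refine le_antisymm (fun x hx => c x (.of_mem hS.isP hx.1) (hx.2 t t_V4).symm (hx.2 z s_V4).symm)
      (le_inf hV fun x hx w hw => comm_V4 (comm_V4 rfl H.zt.symm hw).symm
        (comm_V4 H.zt rfl hw).symm hx)
  obtain ⟨C, hC, hC2⟩ := Cfsg.Agent.S0113.result n h3 hn (Cfsg.Agent.S0112.result n hn
    ((V4 t z).subgroupOf S) (by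
      rw [H69.card_subgroupOf hV, card_V4 H.t2 H.z2 H.zt H.t1 H.z1 H.zt1]; norm_num) h5)
  obtain ⟨T, rfl⟩ := hS.exists_sylow_top
  have k : ∀ x : G, x * x = 1 → x ≠ 1 → ∃ d, d * x * d⁻¹ ∈ C.map (T : Subgroup G).subtype :=
    fun x x2 x1 => by
      by_contra hc
      push Not at hc
      obtain ⟨N, -, hN, -⟩ := H73.thompson_transfer (T : Subgroup G) (C.map (T : Subgroup G).subtype)
        (Nat.odd_iff.2 (Nat.two_dvd_ne_zero.1 T.not_dvd_index))
        (by rw [relIndex, H69.subgroupOf_map_subtype', hC2]) x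
        (orderOf_eq_prime (by rwa [pow_two]) x1) hc
      exact H.no2 N hN
  obtain ⟨d, u, hu, e⟩ := k t H.t2 H.t1
  obtain ⟨d', u', hu', e'⟩ := k y y2 y1
  have := H13.TG.ui_of_isCyclic (G := C) ⟨u, hu⟩ ⟨u', hu'⟩
    (Subtype.ext (Subtype.ext (by have := sq_cj H.t2 d; rwa [← e] at this)))
    (Subtype.ext (Subtype.ext (by have := sq_cj y2 d'; rwa [← e'] at this)))
    (fun c => cj_ne_one H.t1 d (by rw [← e, show u = 1 from congrArg Subtype.val c, map_one]))
    fun c => cj_ne_one y1 d' (by rw [← e', show u' = 1 from congrArg Subtype.val c, map_one])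
  refine Tc.of_cj (c := d') ?_
  rw [← e', ← show u = u' from congrArg Subtype.val this, e]
  exact Tc.rfl'.cj d

end H58.ME
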