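import Mathlib
import Cfsg.Agent.Lib.M11T.KL

set_option autoImplicit false
set_option linter.unusedSectionVars false
set_option linter.unusedVariables false

namespace H58.ME

open Subgroup H70 H50.SC6

variable {G : Type*} [Group G] [Finite G]

theorem Hy.xl {a i z t g h : G} (H : Hy a i z t g h) {Q : Subgroup G} (c : B0 z t Q) (hD : D0 Q i ≠ ⊥) :
    ∃ x w ρ, XD i z t g x w ρ Q := by
  have nD : Nm i (D0 Q i) := fun y hy => ⟨hy.2, by
    have := c.nQ z H.zt y hy.1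
    show i * (i * y * i⁻¹) * i⁻¹ ∈ Q
    rwa [← H.iz, show i * i * y * (i * i)⁻¹ = i * (i * y * i⁻¹) * i⁻¹ by simp [mul_assoc]] at this⟩
  obtain ⟨x, hx, x2, x1, xc⟩ := exists_inv_cent (pg_sup (c.pQ.to_le inf_le_left) nD H.ei) le_sup_left
    (fun g hg => Nm.of_norm (sup_le le_normalizer (zpowers_le.2 nD.norm) hg)) hD
  have ix := xc i (mem_sup_right (mem_zpowers i))
  have xQ : x ∈ Q := hx.1
  have xt := c.Qt x xQ
  have xtz : x * (t * z) = t * z * x := by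
    have := comm_cj xt i
    rwa [cj_eq ix, H.it] at this
  have xz : x * z = z * x := by simpa using ((show Commute x t from xt).inv_right.mul_right xtz).eq
  have xt1 : x ≠ t := fun e => H.z1 (by
    have := H.it
    rw [← e, cj_eq ix] at this
    exact left_eq_mul.1 this)
  have f : FP Q (zpowers t) g := H.fp H.g3 H.g1 c.pQ (c.nQ g H.gt) c.tQ H.t2 H.t1 H.gt c.Qt
  have od : x * (g * x * g⁻¹) * (g * (g * x * g⁻¹) * g⁻¹) = t :=
    ((mem_zt H.t2).1 (f.norm xQ)).resolve_left fun e => x1 (H.key x2 e (by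
      calc _ = i * ((i⁻¹ * x * i⁻¹⁻¹) * (g * (i⁻¹ * x * i⁻¹⁻¹) * g⁻¹) * (g * (g * (i⁻¹ * x * i⁻¹⁻¹) * g⁻¹) * g⁻¹)) * i⁻¹ := by
            rw [← H.ig]; simp [mul_assoc]
        _ = _ := by rw [cj_eq (show Commute i x from ix).inv_left, e]; group))
  have gt : ∀ y, g * (t * y) * g⁻¹ = t * (g * y * g⁻¹) := fun y => by
    nth_rewrite 2 [← cj_eq H.gt]; group
  obtain ⟨w, hw⟩ : ∃ w, g * (t * x) * g⁻¹ = w := ⟨_, rfl⟩
  have u2 : t * x * (t * x) = 1 := sq_of_comm H.t2 x2 xt.symm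
  have wQ : w ∈ Q := hw ▸ f.nD _ (mul_mem c.tQ xQ)
  have w2 : w * w = 1 := hw ▸ sq_cj u2 g
  have wt := c.Qt w wQ
  have ev : t * x * w * (g * w * g⁻¹) = 1 := by
    have c1 : Commute t (g * x * g⁻¹) := (c.Qt _ (f.nD _ xQ)).symm
    rw [← hw, gt, gt]
    calc _ = t * (x * t * x⁻¹) * (x * (g * x * g⁻¹) * t * (x * (g * x * g⁻¹))⁻¹) *
          (x * (g * x * g⁻¹) * (g * (g * x * g⁻¹) * g⁻¹)) := by simp [mul_assoc]
      _ = _ := by rw [cj_eq xt, cj_eq ((show Commute x t from xt).mul_left c1.symm), od, H.t2, one_mul, H.t2]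
  have cw : t * x * w = w * (t * x) :=
    (norm_inv H.t2 u2 w2 (sq_cj w2 g) (c.Qt _ (f.nD _ wQ)) (ev ▸ one_mem _)).1
  have wx : w * x = x * w := by simpa using ((show Commute w t from wt).inv_right.mul_right cw.symm).eq
  have wz : w * (t * z) * w⁻¹ = z * x := by
    have e1 : t * z * w * (t * z)⁻¹ = g * w * g⁻¹ := by
      have c1 : Commute (t * z) (t * x) := ((Commute.refl t).mul_left H.zt).mul_right xtz.symm
      calc _ = t * z * g * (t * z)⁻¹ * (t * z * (t * x) * (t * z)⁻¹) * (t * z * g * (t * z)⁻¹)⁻¹ := by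
            rw [← hw]; group
        _ = _ := by rw [H.tzg, cj_eq c1, ← hw]; nth_rewrite 1 2 [inv_cube H.g3]; simp [mul_assoc]
    have e2 : w * (g * w * g⁻¹) = t * x := by
      rw [mul_assoc] at ev
      rw [eq_inv_of_mul_eq_one_right ev, inv_self u2]
    calc _ = w * (t * z * w * (t * z)⁻¹) * (t * z) := by rw [inv_self w2]; group
      _ = _ := by rw [e1, e2, mul_assoc, xtz, ← mul_assoc, ← mul_assoc, H.t2, one_mul]
  have wz' : w * (z * x) * w⁻¹ = t * z := by rw [← wz, inv_self w2]; simp [mul_assoc, ← mul_assoc w w, w2]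
  have ci : ∀ {u v u' v'}, w * u * w⁻¹ = v → i * u * i⁻¹ = u' → i * v * i⁻¹ = v' →
      i * w * i⁻¹ * u' * (i * w * i⁻¹)⁻¹ = v' := fun e1 e2 e3 => by rw [← e2, ← e3, ← e1]; group
  have izx : i * (z * x) * i⁻¹ = z * x := cj_eq ((show Commute i z from H.izc).mul_right ix)
  have cj2 : ∀ u, w * (i * w * i⁻¹) * u * (w * (i * w * i⁻¹))⁻¹ = w * (i * w * i⁻¹ * u * (i * w * i⁻¹)⁻¹) * w⁻¹ :=
    fun u => by group
  obtain ⟨k, r3, r1, e1, e2, e3⟩ := H.cyc3 (p := w * (i * w * i⁻¹)) (u := t) (v := t * z) (w := z * x)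
    (by rw [cj2, ci wz H.itz izx, wz']) (by rw [cj2, ci (cj_eq wt) H.it H.it, wz])
    (by rw [cj2, ci wz' izx H.itz, cj_eq wt]) fun e => H.z1 (mul_eq_left.1 e)
  have cρ : ∀ y, y * w = w * y → y * (i * w * i⁻¹) = i * w * i⁻¹ * y →
      y * (w * (i * w * i⁻¹)) ^ k = (w * (i * w * i⁻¹)) ^ k * y := fun y h1 h2 =>
    ((show Commute y w from h1).mul_right h2).pow_right k
  have ρx := (cρ x wx.symm (by
    have := comm_cj wx.symm i
    rwa [cj_eq ix] at this)).symm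
  exact ⟨x, w, _, xQ, x2, x1, xt1, ix, xt, xz, fun y hy => xc y (mem_sup_left hy), od, hw, wQ, w2, wt, wx, wz, r3, r1,
    ρx, e1, e2, e3, by
      rw [← conj_pow, ← inv_pow, mul_inv_rev, inv_self (sq_cj w2 i), ← mul_assoc, w2, one_mul], cρ,
    H.fixT r3 r1 x2 x1 ρx⟩

end H58.ME
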